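import Mathlib
import Cfsg.Agent.Helper18.AutAlt

set_option autoImplicit false
set_option linter.unusedSectionVars false
set_option linter.unusedVariables false

namespace Cfsg.Agent.Helper18.AutAlt

open Equiv Equiv.Perm

section Count

variable {α : Type*} [DecidableEq α] [Fintype α]

theorem card_cent_rep (g : Perm α) (k : ℕ) (hk : g.cycleType = Multiset.replicate k 3)
    (hk0 : k ≠ 0) :
    Nat.card (Subgroup.centralizer {g}) =
      (Fintype.card α - 3 * k).factorial * 3 ^ k * k.factorial := by
  have h1 : (Multiset.replicate k 3).toFinset = {3} := by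
    ext x
    simp [hk0]
  rw [Equiv.Perm.nat_card_centralizer, hk, Multiset.sum_replicate, Multiset.prod_replicate,
    smul_eq_mul, h1, Finset.prod_singleton, Multiset.count_replicate_self, mul_comm k 3]

theorem fact_aux (k : ℕ) (hk : 3 ≤ k) :
    2 * 3 ^ k * k.factorial < 3 * (3 * k - 3).factorial := by
  induction k, hk using Nat.le_induction with
  | base => decide
  | succ k hk ih =>
    have e1 : 3 * (k + 1) - 3 = (3 * k - 3) + 3 := by omega
    rw [e1, Nat.factorial_succ, Nat.factorial_succ, Nat.factorial_succ, pow_succ,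
      Nat.factorial_succ]
    have h1 : 3 * (k + 1) ≤ (3 * k - 3 + 2 + 1) * ((3 * k - 3 + 1 + 1) * (3 * k - 3 + 1)) := by
      have : 3 * k - 3 = 3 * (k - 3) + 6 := by omega
      rw [this]
      have hk3 : k = (k - 3) + 3 := by omega
      have h2 : 2 * 1 ≤ (3 * (k - 3) + 6 + 1 + 1) * (3 * (k - 3) + 6 + 1) :=
        Nat.mul_le_mul (by omega) (by omega)
      calc 3 * (k + 1) ≤ (3 * (k - 3) + 6 + 2 + 1) * (2 * 1) := by omega
        _ ≤ _ := Nat.mul_le_mul_left _ h2
    calc 2 * (3 ^ k * 3) * ((k + 1) * k.factorial)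
        = (2 * 3 ^ k * k.factorial) * (3 * (k + 1)) := by ring
      _ < (3 * (3 * k - 3).factorial) * (3 * (k + 1)) :=
          Nat.mul_lt_mul_of_pos_right ih (by omega)
      _ ≤ (3 * (3 * k - 3).factorial) *
            ((3 * k - 3 + 2 + 1) * ((3 * k - 3 + 1 + 1) * (3 * k - 3 + 1))) :=
          Nat.mul_le_mul_left _ h1
      _ = 3 * ((3 * k - 3 + 2 + 1) * ((3 * k - 3 + 1 + 1) *
            ((3 * k - 3 + 1) * (3 * k - 3).factorial))) := by ring

theorem fact_ineq (n k : ℕ) (hk : 2 ≤ k) (hn : 7 ≤ n) (hkn : 3 * k ≤ n) :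
    2 * ((n - 3 * k).factorial * 3 ^ k * k.factorial) < (n - 3).factorial * 3 := by
  obtain ⟨m, hm⟩ : ∃ m, n = m + 3 * k := ⟨n - 3 * k, by omega⟩
  subst hm
  rw [Nat.add_sub_cancel]
  rcases Nat.lt_or_ge k 3 with h3 | h3
  · have hk2 : k = 2 := by omega
    subst hk2
    obtain ⟨j, rfl⟩ : ∃ j, m = j + 1 := ⟨m - 1, by omega⟩
    have e1 : j + 1 + 3 * 2 - 3 = j + 1 + 3 := by omega
    rw [e1, Nat.factorial_succ (j + 1 + 2), Nat.factorial_succ (j + 1 + 1),
      Nat.factorial_succ (j + 1)]
    have hpos : 0 < (j + 1).factorial := Nat.factorial_pos _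
    have e2 : Nat.factorial 2 = 2 := rfl
    rw [e2]
    have h24 : 4 * (3 * 2) ≤ (j + 1 + 2 + 1) * ((j + 1 + 1 + 1) * (j + 1 + 1)) :=
      Nat.mul_le_mul (by omega) (Nat.mul_le_mul (by omega) (by omega))
    have h25 := Nat.mul_le_mul_right (j + 1).factorial h24
    calc 2 * ((j + 1).factorial * 3 ^ 2 * 2) = 36 * (j + 1).factorial := by ring
      _ < 72 * (j + 1).factorial := Nat.mul_lt_mul_of_pos_right (by norm_num) hpos
      _ = (4 * (3 * 2) * (j + 1).factorial) * 3 := by ring
      _ ≤ ((j + 1 + 2 + 1) * ((j + 1 + 1 + 1) * (j + 1 + 1)) * (j + 1).factorial) * 3 :=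
          Nat.mul_le_mul_right _ h25
      _ = (j + 1 + 2 + 1) * ((j + 1 + 1 + 1) * ((j + 1 + 1) * (j + 1).factorial)) * 3 := by
          ring
  · have h4 := fact_aux k h3
    have e1 : m + 3 * k - 3 = m + (3 * k - 3) := by omega
    rw [e1]
    have h5 : m.factorial * (3 * k - 3).factorial ≤ (m + (3 * k - 3)).factorial :=
      Nat.le_of_dvd (Nat.factorial_pos _) (Nat.factorial_mul_factorial_dvd_factorial_add _ _)
    have hpos : 0 < m.factorial := Nat.factorial_pos _
    calc 2 * (m.factorial * 3 ^ k * k.factorial)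
        = m.factorial * (2 * 3 ^ k * k.factorial) := by ring
      _ < m.factorial * (3 * (3 * k - 3).factorial) := Nat.mul_lt_mul_of_pos_left h4 hpos
      _ = (m.factorial * (3 * k - 3).factorial) * 3 := by ring
      _ ≤ (m + (3 * k - 3)).factorial * 3 := Nat.mul_le_mul_right _ h5

end Count

section Cent

variable {α : Type*} [DecidableEq α] [Fintype α]

theorem cA_le (g : alternatingGroup α) :
    Nat.card (Subgroup.centralizer {g} : Subgroup (alternatingGroup α)) ≤
      Nat.card (Subgroup.centralizer {(g : Perm α)} : Subgroup (Perm α)) := by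
  apply Nat.card_le_card_of_injective
    (fun h : (Subgroup.centralizer {g} : Subgroup (alternatingGroup α)) =>
      (⟨(h.1 : Perm α), by
        rw [Subgroup.mem_centralizer_singleton_iff]
        have := Subgroup.mem_centralizer_singleton_iff.mp h.2
        exact congrArg Subtype.val this⟩ :
          (Subgroup.centralizer {(g : Perm α)} : Subgroup (Perm α))))
  intro h1 h2 h
  have h3 : (h1.1 : Perm α) = h2.1 := by
    have h4 := congrArg (fun x : (Subgroup.centralizer {(g : Perm α)} : Subgroup (Perm α)) =>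
      (x : Perm α)) h
    exact h4
  exact Subtype.ext (Subtype.ext h3)

theorem cA_ge (g : alternatingGroup α) :
    Nat.card (Subgroup.centralizer {(g : Perm α)} : Subgroup (Perm α)) ≤
      2 * Nat.card (Subgroup.centralizer {g} : Subgroup (alternatingGroup α)) := by
  let f : (Subgroup.centralizer {(g : Perm α)} : Subgroup (Perm α)) →* ℤˣ :=
    Perm.sign.comp (Subgroup.subtype _)
  have h1 : Nat.card f.ker * f.ker.index = Nat.card _ := Subgroup.card_mul_index f.ker
  have h2 : f.ker.index ≤ 2 := by
    rw [Subgroup.index_ker]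
    calc Nat.card f.range ≤ Nat.card ℤˣ := Subgroup.card_le_card_group _
      _ = 2 := by rw [Nat.card_eq_fintype_card]; rfl
  have h3 : Nat.card f.ker ≤
      Nat.card (Subgroup.centralizer {g} : Subgroup (alternatingGroup α)) := by
    apply Nat.card_le_card_of_injective
      (fun h : f.ker => (⟨⟨(h.1.1 : Perm α), by
          rw [Perm.mem_alternatingGroup]
          exact MonoidHom.mem_ker.mp h.2⟩, by
          rw [Subgroup.mem_centralizer_singleton_iff]
          apply Subtype.ext
          exact Subgroup.mem_centralizer_singleton_iff.mp h.1.2⟩ :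
            (Subgroup.centralizer {g} : Subgroup (alternatingGroup α))))
    intro h1 h2 h
    have h3 : (h1.1.1 : Perm α) = h2.1.1 := by
      have h4 := congrArg (fun x : (Subgroup.centralizer {g} :
        Subgroup (alternatingGroup α)) => (x.1.1 : Perm α)) h
      exact h4
    exact Subtype.ext (Subtype.ext h3)
  calc Nat.card _ = Nat.card f.ker * f.ker.index := h1.symm
    _ ≤ Nat.card f.ker * 2 := Nat.mul_le_mul_left _ h2
    _ = 2 * Nat.card f.ker := mul_comm _ _
    _ ≤ _ := Nat.mul_le_mul_left _ h3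

theorem cA_equiv (φ : alternatingGroup α ≃* alternatingGroup α) (g : alternatingGroup α) :
    Nat.card (Subgroup.centralizer {φ g} : Subgroup (alternatingGroup α)) =
      Nat.card (Subgroup.centralizer {g} : Subgroup (alternatingGroup α)) := by
  apply Nat.card_congr
  exact (φ.toEquiv.subtypeEquiv (fun h => by
    rw [Subgroup.mem_centralizer_singleton_iff, Subgroup.mem_centralizer_singleton_iff]
    constructor
    · intro h1
      show φ h * φ g = φ g * φ h
      rw [← map_mul, ← map_mul, h1]
    · intro h1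
      apply φ.injective
      rw [map_mul, map_mul]
      exact h1)).symm

theorem aut_three_cycle (hα : Fintype.card α ≠ 6)
    (φ : alternatingGroup α ≃* alternatingGroup α)
    (g : alternatingGroup α) (hg : IsThreeCycle (g : Perm α)) :
    IsThreeCycle ((φ g : alternatingGroup α) : Perm α) := by
  have ho : orderOf ((φ g : alternatingGroup α) : Perm α) = 3 := by
    rw [Subgroup.orderOf_coe, MulEquiv.orderOf_eq, ← Subgroup.orderOf_coe, hg.orderOf]
  obtain ⟨m, hm⟩ := cycleType_prime_order (σ := ((φ g : alternatingGroup α) : Perm α))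
    (by rw [ho]; exact Nat.prime_three)
  rw [ho] at hm
  by_cases hm0 : m = 0
  · subst hm0
    show cycleType _ = {3}
    rw [hm]
    rfl
  · exfalso
    have hsum := sum_cycleType_le ((φ g : alternatingGroup α) : Perm α)
    rw [hm, Multiset.sum_replicate, smul_eq_mul] at hsum
    have h7 : 7 ≤ Fintype.card α := by omega
    have h1 := card_cent_rep _ (m + 1) hm (by omega)
    have h2 : Nat.card (Subgroup.centralizer {(g : Perm α)} : Subgroup (Perm α)) =
        (Fintype.card α - 3).factorial * 3 := by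
      rw [card_cent_rep (g : Perm α) 1 (by rw [hg.cycleType]; rfl) one_ne_zero]
      simp
    have h3 := cA_le (φ g)
    have h4 := cA_ge g
    have h5 := cA_equiv φ g
    have h6 := fact_ineq (Fintype.card α) (m + 1) (by omega) h7 (by omega)
    rw [h1] at h3
    rw [h2] at h4
    omega

end Cent

section Main

variable {α : Type*} [DecidableEq α] [Fintype α]

theorem conjNormal_inj (h4 : 4 ≤ Fintype.card α) :
    Function.Injective (MulAut.conjNormal : Perm α →* MulAut (alternatingGroup α)) := by
  rw [injective_iff_map_eq_one]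
  intro g hg
  by_contra hne
  obtain ⟨i, hi⟩ : ∃ i, g i ≠ i := by
    by_contra hno
    push Not at hno
    exact hne (Perm.ext hno)
  obtain ⟨j, -, hj⟩ := Finset.exists_mem_notMem_of_card_lt_card
    (s := ({i, g i} : Finset α)) (t := Finset.univ) (by
      rw [Finset.card_univ]
      have := Finset.card_le_two (a := i) (b := g i)
      omega)
  obtain ⟨k, -, hk⟩ := Finset.exists_mem_notMem_of_card_lt_card
    (s := ({i, g i, j} : Finset α)) (t := Finset.univ) (by
      rw [Finset.card_univ]
      have := Finset.card_le_three (a := i) (b := g i) (c := j)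
      omega)
  simp only [Finset.mem_insert, Finset.mem_singleton, not_or] at hj hk
  have hij : i ≠ j := fun h => hj.1 h.symm
  have hik : i ≠ k := fun h => hk.1 h.symm
  have hjk : j ≠ k := fun h => hk.2.2 h.symm
  have hmem : c3 i j k ∈ alternatingGroup α :=
    (c3_isThreeCycle i j k hij hik hjk).mem_alternatingGroup
  have h1 : (MulAut.conjNormal g) ⟨c3 i j k, hmem⟩ = ⟨c3 i j k, hmem⟩ := by
    rw [hg]
    rfl
  have h2 : g * c3 i j k * g⁻¹ = c3 i j k := by
    have h3 := congrArg (fun w : alternatingGroup α => (w : Perm α)) h1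
    simp only [MulAut.conjNormal_apply] at h3
    exact h3
  rw [c3_conj] at h2
  have h3 : c3 (g i) (g j) (g k) (g i) = c3 i j k (g i) := by rw [h2]
  rw [c3_a _ _ _ (g.injective.ne hij) (g.injective.ne hik) (g.injective.ne hjk),
    c3_other i j k (g i) hij hik hjk hi (fun h => hj.2 h.symm) (fun h => hk.2.1 h.symm)] at h3
  exact hij (g.injective h3).symm

theorem conjNormal_surj (hα : Fintype.card α ≠ 6) (o e k₀ k₁ : α) (hoe : o ≠ e)
    (h0o : k₀ ≠ o) (h0e : k₀ ≠ e) (h1o : k₁ ≠ o) (h1e : k₁ ≠ e) (h01 : k₀ ≠ k₁) :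
    Function.Surjective (MulAut.conjNormal : Perm α →* MulAut (alternatingGroup α)) := by
  intro φ
  have hmem : ∀ k : α, k ≠ o → k ≠ e → c3 o e k ∈ alternatingGroup α := fun k h1 h2 =>
    (c3_isThreeCycle o e k hoe h1.symm h2.symm).mem_alternatingGroup
  let x : {k : α // k ≠ o ∧ k ≠ e} → alternatingGroup α :=
    fun k => ⟨c3 o e k.1, hmem k.1 k.2.1 k.2.2⟩
  let y : {k : α // k ≠ o ∧ k ≠ e} → Perm α :=
    fun k => ((φ (x k) : alternatingGroup α) : Perm α)
  have hy : ∀ k, IsThreeCycle (y k) := fun k =>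
    aut_three_cycle hα φ (x k) (c3_isThreeCycle o e k.1 hoe k.2.1.symm k.2.2.symm)
  have hR : ∀ k l, k ≠ l → orderOf (y k * y l) = 2 := by
    intro k l hkl
    have h1 : y k * y l = ((φ (x k * x l) : alternatingGroup α) : Perm α) := by
      rw [map_mul]
      rfl
    rw [h1, Subgroup.orderOf_coe, MulEquiv.orderOf_eq, ← Subgroup.orderOf_coe]
    exact c3_prod_order o e k.1 l.1 hoe k.2.1.symm l.2.1.symm k.2.2.symm l.2.2.symm
      (fun h => hkl (Subtype.ext h))
  obtain ⟨a, b, hab, hc, hd⟩ := config y hy hR ⟨k₀, h0o, h0e⟩ ⟨k₁, h1o, h1e⟩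
    (by intro h; exact h01 (congrArg Subtype.val h))
  let σ₀ : α → α := fun i =>
    if h : i = o then a else if h' : i = e then b else y ⟨i, h, h'⟩ b
  have hσo : σ₀ o = a := dif_pos rfl
  have hσe : σ₀ e = b := by
    show (if h : e = o then a else if h' : e = e then b else y ⟨e, h, h'⟩ b) = b
    rw [dif_neg hoe.symm, dif_pos rfl]
  have hσk : ∀ k : {k : α // k ≠ o ∧ k ≠ e}, σ₀ k.1 = y k b := by
    intro k
    show (if h : k.1 = o then a else if h' : k.1 = e then b else y ⟨k.1, h, h'⟩ b) = y k b
    rw [dif_neg k.2.1, dif_neg k.2.2]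
  have hinj : Function.Injective σ₀ := by
    intro i j hij
    by_cases hi : i = o
    · by_cases hj : j = o
      · rw [hi, hj]
      · by_cases hj' : j = e
        · rw [hi, hj', hσo, hσe] at hij
          exact absurd hij hab
        · have hjk := hσk ⟨j, hj, hj'⟩
          rw [hi, hσo] at hij
          rw [← hij] at hjk
          exact absurd hjk.symm (hc ⟨j, hj, hj'⟩).1
    · by_cases hi' : i = e
      · by_cases hj : j = o
        · rw [hi', hj, hσo, hσe] at hij
          exact absurd hij.symm hab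
        · by_cases hj' : j = e
          · rw [hi', hj']
          · have hjk := hσk ⟨j, hj, hj'⟩
            rw [hi', hσe] at hij
            rw [← hij] at hjk
            exact absurd hjk.symm (hc ⟨j, hj, hj'⟩).2.1
      · have hik := hσk ⟨i, hi, hi'⟩
        by_cases hj : j = o
        · rw [hj, hσo] at hij
          rw [hij] at hik
          exact absurd hik.symm (hc ⟨i, hi, hi'⟩).1
        · by_cases hj' : j = e
          · rw [hj', hσe] at hij
            rw [hij] at hik
            exact absurd hik.symm (hc ⟨i, hi, hi'⟩).2.1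
          · have hjk := hσk ⟨j, hj, hj'⟩
            by_contra hne
            apply hd ⟨i, hi, hi'⟩ ⟨j, hj, hj'⟩ (fun h => hne (congrArg Subtype.val h))
            rw [← hik, ← hjk]
            exact hij
  let σ : Perm α := Equiv.ofBijective σ₀ ⟨hinj, Finite.injective_iff_surjective.mp hinj⟩
  have hσ : ∀ i, σ i = σ₀ i := fun i => rfl
  refine ⟨σ, ?_⟩
  have key : ∀ k, (MulAut.conjNormal σ) (x k) = φ (x k) := by
    intro k
    apply Subtype.ext
    rw [MulAut.conjNormal_apply]
    show σ * c3 o e k.1 * σ⁻¹ = y k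
    rw [c3_conj, hσ, hσ, hσ, hσo, hσe, hσk k]
    exact (hc k).2.2.symm
  have hcl : Subgroup.closure (Set.range x) = ⊤ := by
    rw [eq_top_iff]
    intro g _
    have h1 := closure_c3 o e hoe g.2
    have h2 : {g : Perm α | ∃ k, k ≠ o ∧ k ≠ e ∧ g = c3 o e k} =
        (alternatingGroup α).subtype '' (Set.range x) := by
      ext w
      constructor
      · rintro ⟨k, hk1, hk2, rfl⟩
        exact ⟨x ⟨k, hk1, hk2⟩, ⟨_, rfl⟩, rfl⟩
      · rintro ⟨_, ⟨k, rfl⟩, rfl⟩
        exact ⟨k.1, k.2.1, k.2.2, rfl⟩
    rw [h2, ← MonoidHom.map_closure] at h1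
    obtain ⟨b', hb, hb2⟩ := h1
    have hbg : b' = g := Subtype.ext hb2
    rw [← hbg]
    exact hb
  have h3 : (MulAut.conjNormal σ : alternatingGroup α ≃* alternatingGroup α).toMonoidHom =
      φ.toMonoidHom := by
    apply MonoidHom.eq_of_eqOn_dense hcl
    rintro _ ⟨k, rfl⟩
    exact key k
  exact MulEquiv.toMonoidHom_injective h3

theorem conjNormal_bij_fin (n : ℕ) (hn : 4 ≤ n) (h6 : n ≠ 6) :
    Function.Bijective
      (MulAut.conjNormal : Perm (Fin n) →* MulAut (alternatingGroup (Fin n))) := by
  refine ⟨conjNormal_inj (by rw [Fintype.card_fin]; exact hn), ?_⟩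
  apply conjNormal_surj (by rw [Fintype.card_fin]; exact h6)
    (⟨0, by omega⟩ : Fin n) ⟨1, by omega⟩ ⟨2, by omega⟩ ⟨3, by omega⟩
  all_goals
    intro h
    have h' := congrArg Fin.val h
    simp at h'

end Main

end Cfsg.Agent.Helper18.AutAlt
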