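import Mathlib
import Cfsg.Agent.Helper18.AutAlt
import Cfsg.Agent.Helper18.AutAltB

set_option autoImplicit false
set_option linter.unusedSectionVars false
set_option linter.unusedVariables false

namespace Cfsg.Agent.Helper18.AutOdd

open Equiv Equiv.Perm Cfsg.Agent.Helper18.AutAlt

section PGroupPerm

theorem sq_not_dvd_factorial (r : ℕ) (hr : r.Prime) : ¬ r ^ 2 ∣ r.factorial := by
  intro h
  obtain ⟨m, rfl⟩ : ∃ m, r = m + 1 := ⟨r - 1, by have := hr.pos; omega⟩
  rw [Nat.factorial_succ, pow_two] at h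
  have h1 : m + 1 ∣ m.factorial := Nat.dvd_of_mul_dvd_mul_left (Nat.succ_pos m) h
  have h2 := (hr.dvd_factorial).mp h1
  omega

theorem pgroup_perm_comm {α : Type*} [Fintype α] [DecidableEq α] (r : ℕ) [hr : Fact r.Prime]
    (hα : Fintype.card α < r ^ 2) (P : Subgroup (Perm α)) (hP : IsPGroup r P) (a b : Perm α)
    (ha : a ∈ P) (hb : b ∈ P) : a * b = b * a := by
  ext x
  show a (b x) = b (a x)
  obtain ⟨j, hj⟩ := hP.card_orbit x
  have hle : Nat.card (MulAction.orbit P x) ≤ Fintype.card α := by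
    rw [← Nat.card_eq_fintype_card]
    exact Finite.card_subtype_le _
  have hj1 : j ≤ 1 := by
    by_contra hgt
    have h2 : r ^ 2 ≤ r ^ j := Nat.pow_le_pow_right hr.out.pos (by omega)
    omega
  have hmem : ∀ (g : Perm α) (hg : g ∈ P) (y : α), y ∈ MulAction.orbit P x →
      g y ∈ MulAction.orbit P x := by
    intro g hg y hy
    obtain ⟨k, rfl⟩ := hy
    exact ⟨⟨g, hg⟩ * k, rfl⟩
  have hx : x ∈ MulAction.orbit P x := MulAction.mem_orbit_self x
  interval_cases j
  · -- orbit is a singleton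
    rw [pow_zero] at hj
    have hsub : Subsingleton (MulAction.orbit P x) := (Nat.card_eq_one_iff_unique.mp hj).1
    have h1 : ∀ y, y ∈ MulAction.orbit P x → y = x := by
      intro y hy
      exact congrArg Subtype.val (Subsingleton.elim (⟨y, hy⟩ : MulAction.orbit P x) ⟨x, hx⟩)
    have e1 : b x = x := h1 (b x) (hmem b hb x hx)
    have e2 : a x = x := h1 (a x) (hmem a ha x hx)
    rw [e1, e2, e1]
  · rw [pow_one] at hj
    let ρ : P →* Perm (MulAction.orbit P x) := MulAction.toPermHom P (MulAction.orbit P x)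
    have hd1 : Nat.card ρ.range ∣ Nat.card P := Subgroup.card_range_dvd ρ
    obtain ⟨k, hk⟩ := IsPGroup.iff_card.mp hP
    rw [hk] at hd1
    obtain ⟨i, hi, hi2⟩ := (Nat.dvd_prime_pow hr.out).mp hd1
    have hd2 : Nat.card ρ.range ∣ r.factorial := by
      have h := Subgroup.card_subgroup_dvd_card ρ.range
      rw [Nat.card_perm, hj] at h
      exact h
    have hi1 : i ≤ 1 := by
      by_contra hgt
      apply sq_not_dvd_factorial r hr.out
      rw [hi2] at hd2
      exact (pow_dvd_pow r (by omega)).trans hd2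
    have hdr : Nat.card ρ.range ∣ r := by
      rw [hi2]
      calc r ^ i ∣ r ^ 1 := pow_dvd_pow r hi1
        _ = r := pow_one r
    have hcyc : IsCyclic ρ.range := isCyclic_of_card_dvd_prime hdr
    have hcomm := hcyc.isMulCommutative
    have h1 := mul_comm' (⟨ρ ⟨a, ha⟩, ⟨_, rfl⟩⟩ : ρ.range) ⟨ρ ⟨b, hb⟩, ⟨_, rfl⟩⟩
    have h2 : ρ ⟨a, ha⟩ * ρ ⟨b, hb⟩ = ρ ⟨b, hb⟩ * ρ ⟨a, ha⟩ := congrArg Subtype.val h1
    have h3 := congrArg (fun f : Perm (MulAction.orbit P x) => (f ⟨x, hx⟩ : α)) h2
    exact h3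

end PGroupPerm

section Orders

theorem exists_order (n u v : ℕ) (huv : u + v ≤ n) (a : Perm (Fin u)) (b : Perm (Fin v))
    (ha : Perm.sign a = 1) (hb : Perm.sign b = 1) :
    ∃ g : alternatingGroup (Fin n), orderOf g = Nat.lcm (orderOf a) (orderOf b) := by
  let e : (Fin u ⊕ Fin v) ⊕ Fin (n - (u + v)) ≃ Fin n :=
    (Equiv.sumCongr finSumFinEquiv (Equiv.refl _)).trans
      (finSumFinEquiv.trans (finCongr (by omega)))
  let g₀ : Perm (Fin n) := e.permCongrHom (sumCongrHom _ _ (sumCongrHom _ _ (a, b), 1))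
  have hs : Perm.sign g₀ = 1 := by
    show Perm.sign (e.permCongr (Equiv.Perm.sumCongr (Equiv.Perm.sumCongr a b) 1)) = 1
    rw [sign_permCongr, sign_sumCongr, sign_sumCongr, ha, hb, Perm.sign_one, mul_one, mul_one]
  have ho : orderOf g₀ = Nat.lcm (orderOf a) (orderOf b) := by
    show orderOf (e.permCongrHom (sumCongrHom _ _ (sumCongrHom _ _ (a, b), 1))) = _
    rw [MulEquiv.orderOf_eq, orderOf_injective _ sumCongrHom_injective, Prod.orderOf,
      orderOf_injective _ sumCongrHom_injective, Prod.orderOf, orderOf_one, Nat.lcm_one_right]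
  refine ⟨⟨g₀, mem_alternatingGroup.mpr hs⟩, ?_⟩
  rw [← Subgroup.orderOf_coe]
  exact ho

theorem orderOf_finRotate' (r : ℕ) (hr : 2 ≤ r) : orderOf (finRotate r) = r := by
  rw [← lcm_cycleType, cycleType_finRotate_of_le hr]
  simp

theorem sign_finRotate_odd (r : ℕ) (hr : Odd r) : Perm.sign (finRotate r) = 1 := by
  rw [sign_finRotate]
  obtain ⟨k, rfl⟩ := hr
  rw [Nat.add_sub_cancel, pow_mul]
  simp

theorem exists_order_odd (n r s : ℕ) (hr : r.Prime) (hs : s.Prime) (hr2 : r ≠ 2) (hs2 : s ≠ 2)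
    (hrs : r ≠ s) (hn : r + s ≤ n) : ∃ g : alternatingGroup (Fin n), orderOf g = r * s := by
  obtain ⟨g, hg⟩ := exists_order n r s hn (finRotate r) (finRotate s)
    (sign_finRotate_odd r (hr.odd_of_ne_two hr2)) (sign_finRotate_odd s (hs.odd_of_ne_two hs2))
  refine ⟨g, ?_⟩
  rw [hg, orderOf_finRotate' r hr.two_le, orderOf_finRotate' s hs.two_le]
  exact ((Nat.coprime_primes hr hs).mpr hrs).lcm_eq_mul

theorem exists_order_two (n r : ℕ) (hr : r.Prime) (hr2 : r ≠ 2) (hn : r + 4 ≤ n) :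
    ∃ g : alternatingGroup (Fin n), orderOf g = 2 * r := by
  obtain ⟨g, hg⟩ := exists_order n 4 r (by omega) (swap 0 1 * swap 2 3) (finRotate r)
    (by rw [Perm.sign_mul, sign_swap (by decide), sign_swap (by decide)]; rfl)
    (sign_finRotate_odd r (hr.odd_of_ne_two hr2))
  refine ⟨g, ?_⟩
  have h2 : orderOf (swap 0 1 * swap 2 3 : Perm (Fin 4)) = 2 :=
    orderOf_eq_prime (by decide) (by decide)
  rw [hg, orderOf_finRotate' r hr.two_le, h2]
  exact ((Nat.coprime_primes Nat.prime_two hr).mpr (Ne.symm hr2)).lcm_eq_mul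

end Orders


section Surj

variable {α : Type*} [DecidableEq α] [Fintype α]

theorem conjNormal_surj' (φ : alternatingGroup α ≃* alternatingGroup α)
    (hφ : ∀ g : alternatingGroup α, IsThreeCycle (g : Perm α) →
      IsThreeCycle ((φ g : alternatingGroup α) : Perm α))
    (o e k₀ k₁ : α) (hoe : o ≠ e)
    (h0o : k₀ ≠ o) (h0e : k₀ ≠ e) (h1o : k₁ ≠ o) (h1e : k₁ ≠ e) (h01 : k₀ ≠ k₁) :
    ∃ σ : Perm α, MulAut.conjNormal σ = φ := by
  have hmem : ∀ k : α, k ≠ o → k ≠ e → c3 o e k ∈ alternatingGroup α := fun k h1 h2 =>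
    (c3_isThreeCycle o e k hoe h1.symm h2.symm).mem_alternatingGroup
  let x : {k : α // k ≠ o ∧ k ≠ e} → alternatingGroup α :=
    fun k => ⟨c3 o e k.1, hmem k.1 k.2.1 k.2.2⟩
  let y : {k : α // k ≠ o ∧ k ≠ e} → Perm α :=
    fun k => ((φ (x k) : alternatingGroup α) : Perm α)
  have hy : ∀ k, IsThreeCycle (y k) := fun k =>
    hφ (x k) (c3_isThreeCycle o e k.1 hoe k.2.1.symm k.2.2.symm)
  have hR : ∀ k l, k ≠ l → orderOf (y k * y l) = 2 := by
    intro k l hkl
    have h1 : y k * y l = ((φ (x k * x l) : alternatingGroup α) : Perm α) := by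
      rw [map_mul]
      rfl
    rw [h1, Subgroup.orderOf_coe, MulEquiv.orderOf_eq, ← Subgroup.orderOf_coe]
    exact c3_prod_order o e k.1 l.1 hoe k.2.1.symm l.2.1.symm k.2.2.symm l.2.2.symm
      (fun h => hkl (Subtype.ext h))
  obtain ⟨a, b, hab, hc, hd⟩ := config y hy hR ⟨k₀, h0o, h0e⟩ ⟨k₁, h1o, h1e⟩
    (by intro h; exact h01 (congrArg Subtype.val h))
  let σ₀ : α → α := fun i =>
    if h : i = o then a else if h' : i = e then b else y ⟨i, h, h'⟩ b
  have hσo : σ₀ o = a := dif_pos rfl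
  have hσe : σ₀ e = b := by
    show (if h : e = o then a else if h' : e = e then b else y ⟨e, h, h'⟩ b) = b
    rw [dif_neg hoe.symm, dif_pos rfl]
  have hσk : ∀ k : {k : α // k ≠ o ∧ k ≠ e}, σ₀ k.1 = y k b := by
    intro k
    show (if h : k.1 = o then a else if h' : k.1 = e then b else y ⟨k.1, h, h'⟩ b) = y k b
    rw [dif_neg k.2.1, dif_neg k.2.2]
  have hinj : Function.Injective σ₀ := by
    intro i j hij
    by_cases hi : i = o
    · by_cases hj : j = o
      · rw [hi, hj]
      · by_cases hj' : j = e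
        · rw [hi, hj', hσo, hσe] at hij
          exact absurd hij hab
        · have hjk := hσk ⟨j, hj, hj'⟩
          rw [hi, hσo] at hij
          rw [← hij] at hjk
          exact absurd hjk.symm (hc ⟨j, hj, hj'⟩).1
    · by_cases hi' : i = e
      · by_cases hj : j = o
        · rw [hi', hj, hσo, hσe] at hij
          exact absurd hij.symm hab
        · by_cases hj' : j = e
          · rw [hi', hj']
          · have hjk := hσk ⟨j, hj, hj'⟩
            rw [hi', hσe] at hij
            rw [← hij] at hjk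
            exact absurd hjk.symm (hc ⟨j, hj, hj'⟩).2.1
      · have hik := hσk ⟨i, hi, hi'⟩
        by_cases hj : j = o
        · rw [hj, hσo] at hij
          rw [hij] at hik
          exact absurd hik.symm (hc ⟨i, hi, hi'⟩).1
        · by_cases hj' : j = e
          · rw [hj', hσe] at hij
            rw [hij] at hik
            exact absurd hik.symm (hc ⟨i, hi, hi'⟩).2.1
          · have hjk := hσk ⟨j, hj, hj'⟩
            by_contra hne
            apply hd ⟨i, hi, hi'⟩ ⟨j, hj, hj'⟩ (fun h => hne (congrArg Subtype.val h))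
            rw [← hik, ← hjk]
            exact hij
  let σ : Perm α := Equiv.ofBijective σ₀ ⟨hinj, Finite.injective_iff_surjective.mp hinj⟩
  have hσ : ∀ i, σ i = σ₀ i := fun i => rfl
  refine ⟨σ, ?_⟩
  have key : ∀ k, (MulAut.conjNormal σ) (x k) = φ (x k) := by
    intro k
    apply Subtype.ext
    rw [MulAut.conjNormal_apply]
    show σ * c3 o e k.1 * σ⁻¹ = y k
    rw [c3_conj, hσ, hσ, hσ, hσo, hσe, hσk k]
    exact (hc k).2.2.symm
  have hcl : Subgroup.closure (Set.range x) = ⊤ := by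
    rw [eq_top_iff]
    intro g _
    have h1 := closure_c3 o e hoe g.2
    have h2 : {g : Perm α | ∃ k, k ≠ o ∧ k ≠ e ∧ g = c3 o e k} =
        (alternatingGroup α).subtype '' (Set.range x) := by
      ext w
      constructor
      · rintro ⟨k, hk1, hk2, rfl⟩
        exact ⟨x ⟨k, hk1, hk2⟩, ⟨_, rfl⟩, rfl⟩
      · rintro ⟨_, ⟨k, rfl⟩, rfl⟩
        exact ⟨k.1, k.2.1, k.2.2, rfl⟩
    rw [h2, ← MonoidHom.map_closure] at h1
    obtain ⟨b', hb, hb2⟩ := h1
    have hbg : b' = g := Subtype.ext hb2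
    rw [← hbg]
    exact hb
  have h3 : (MulAut.conjNormal σ : alternatingGroup α ≃* alternatingGroup α).toMonoidHom =
      φ.toMonoidHom := by
    apply MonoidHom.eq_of_eqOn_dense hcl
    rintro _ ⟨k, rfl⟩
    exact key k
  exact MulEquiv.toMonoidHom_injective h3

end Surj

section A6

/-- representative of the class of type `(3,3)` -/
def g33 : Perm (Fin 6) := c3 0 1 2 * c3 3 4 5

theorem g33_type : g33.cycleType = {3, 3} := by
  unfold g33
  rw [Disjoint.cycleType_mul (by unfold Perm.Disjoint c3; decide),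
    (c3_isThreeCycle _ _ _ (by decide) (by decide) (by decide)).cycleType,
    (c3_isThreeCycle _ _ _ (by decide) (by decide) (by decide)).cycleType]
  rfl

theorem type33_conj (h : alternatingGroup (Fin 6))
    (hh : (h : Perm (Fin 6)).cycleType = {3, 3}) :
    ∃ σ : alternatingGroup (Fin 6), (σ : Perm (Fin 6)) * g33 * (σ : Perm (Fin 6))⁻¹ = h := by
  obtain ⟨τ, hτ⟩ := isConj_iff.mp (isConj_iff_cycleType_eq.mpr (g33_type.trans hh.symm))
  by_cases hs : Perm.sign τ = 1
  · exact ⟨⟨τ, mem_alternatingGroup.mpr hs⟩, hτ⟩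
  · have hs' : Perm.sign τ = -1 := (Int.units_eq_one_or _).resolve_left hs
    refine ⟨⟨τ * (swap 0 3 * swap 1 4 * swap 2 5), ?_⟩, ?_⟩
    · rw [mem_alternatingGroup, Perm.sign_mul, hs', Perm.sign_mul, Perm.sign_mul,
        sign_swap (by decide), sign_swap (by decide), sign_swap (by decide)]
      rfl
    · show τ * (swap 0 3 * swap 1 4 * swap 2 5) * g33 *
        (τ * (swap 0 3 * swap 1 4 * swap 2 5))⁻¹ = (h : Perm (Fin 6))
      have hc : (swap 0 3 * swap 1 4 * swap 2 5 : Perm (Fin 6)) * g33 *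
          (swap 0 3 * swap 1 4 * swap 2 5)⁻¹ = g33 := by
        unfold g33 c3
        decide
      calc τ * (swap 0 3 * swap 1 4 * swap 2 5) * g33 *
          (τ * (swap 0 3 * swap 1 4 * swap 2 5))⁻¹
          = τ * ((swap 0 3 * swap 1 4 * swap 2 5) * g33 *
              (swap 0 3 * swap 1 4 * swap 2 5)⁻¹) * τ⁻¹ := by group
        _ = τ * g33 * τ⁻¹ := by rw [hc]
        _ = (h : Perm (Fin 6)) := hτ

theorem order3_type (x : alternatingGroup (Fin 6)) (hx : orderOf x = 3) :
    IsThreeCycle (x : Perm (Fin 6)) ∨ (x : Perm (Fin 6)).cycleType = {3, 3} := by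
  have ho : orderOf (x : Perm (Fin 6)) = 3 := by rw [Subgroup.orderOf_coe]; exact hx
  obtain ⟨m, hm⟩ := cycleType_prime_order (σ := (x : Perm (Fin 6)))
    (by rw [ho]; exact Nat.prime_three)
  rw [ho] at hm
  have hsum := sum_cycleType_le (x : Perm (Fin 6))
  rw [hm, Multiset.sum_replicate, smul_eq_mul, Fintype.card_fin] at hsum
  have hm1 : m ≤ 1 := by omega
  interval_cases m
  · left
    show cycleType _ = {3}
    rw [hm]
    rfl
  · right
    rw [hm]
    rfl

theorem odd_aut_six (φ : MulAut (alternatingGroup (Fin 6))) (m : ℕ) (hm : Odd m)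
    (hφ : φ ^ m = 1) (g : alternatingGroup (Fin 6)) (hg : IsThreeCycle (g : Perm (Fin 6))) :
    IsThreeCycle ((φ g : alternatingGroup (Fin 6)) : Perm (Fin 6)) := by
  by_contra hnot
  have ho : ∀ x : alternatingGroup (Fin 6), orderOf x = 3 → orderOf (φ x) = 3 := by
    intro x hx
    rw [MulEquiv.orderOf_eq]
    exact hx
  have hg3 : orderOf g = 3 := by
    rw [← Subgroup.orderOf_coe]
    exact hg.orderOf
  have hS0 : ((φ g : alternatingGroup (Fin 6)) : Perm (Fin 6)).cycleType = {3, 3} :=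
    (order3_type _ (ho g hg3)).resolve_left hnot
  have step1 : ∀ x : alternatingGroup (Fin 6), IsThreeCycle (x : Perm (Fin 6)) →
      ((φ x : alternatingGroup (Fin 6)) : Perm (Fin 6)).cycleType = {3, 3} := by
    intro x hx
    obtain ⟨u, hu⟩ := isConj_iff.mp
      (alternatingGroup.isThreeCycle_isConj (by rw [Nat.card_fin]; norm_num) hg hx)
    rw [← hu, map_mul, map_mul, map_inv]
    show (((φ u : alternatingGroup (Fin 6)) : Perm (Fin 6)) * (φ g : alternatingGroup (Fin 6)) *
      ((φ u : alternatingGroup (Fin 6)) : Perm (Fin 6))⁻¹).cycleType = _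
    rw [cycleType_conj]
    exact hS0
  have step2 : ∀ x : alternatingGroup (Fin 6), (x : Perm (Fin 6)).cycleType = {3, 3} →
      IsThreeCycle ((φ x : alternatingGroup (Fin 6)) : Perm (Fin 6)) := by
    intro x hx
    have hx3 : orderOf x = 3 := by
      rw [← Subgroup.orderOf_coe, ← lcm_cycleType, hx]
      rfl
    rcases order3_type _ (ho x hx3) with h | h
    · exact h
    · exfalso
      obtain ⟨σ₁, h1⟩ := type33_conj _ h
      obtain ⟨σ₂, h2⟩ := type33_conj _ hS0
      have h3 : φ x = (σ₁ * σ₂⁻¹) * φ g * (σ₁ * σ₂⁻¹)⁻¹ := by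
        apply Subtype.ext
        show ((φ x : alternatingGroup (Fin 6)) : Perm (Fin 6)) =
          (σ₁ : Perm (Fin 6)) * (σ₂ : Perm (Fin 6))⁻¹ * (φ g : alternatingGroup (Fin 6)) *
            ((σ₁ : Perm (Fin 6)) * (σ₂ : Perm (Fin 6))⁻¹)⁻¹
        rw [← h1, ← h2]
        group
      obtain ⟨v, hv⟩ := φ.surjective (σ₁ * σ₂⁻¹)
      rw [← hv, ← map_inv, ← map_mul, ← map_mul] at h3
      have h4 : x = v * g * v⁻¹ := φ.injective h3
      have h5 : (x : Perm (Fin 6)).cycleType = {3} := by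
        rw [h4]
        show cycleType ((v : Perm (Fin 6)) * (g : Perm (Fin 6)) * (v : Perm (Fin 6))⁻¹) = {3}
        rw [cycleType_conj]
        exact hg
      rw [hx] at h5
      exact absurd h5 (by decide)
  have key : ∀ i : ℕ,
      (Even i → IsThreeCycle (((φ ^ i) g : alternatingGroup (Fin 6)) : Perm (Fin 6))) ∧
      (Odd i → (((φ ^ i) g : alternatingGroup (Fin 6)) : Perm (Fin 6)).cycleType = {3, 3}) := by
    intro i
    induction i with
    | zero => exact ⟨fun _ => hg, fun h => absurd h (by decide)⟩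
    | succ i ih =>
      have e : (φ ^ (i + 1)) g = φ ((φ ^ i) g) := by
        rw [pow_succ']
        rfl
      constructor
      · intro he
        rw [e]
        exact step2 _ (ih.2 (Nat.not_even_iff_odd.mp (Nat.even_add_one.mp he)))
      · intro ho'
        rw [e]
        exact step1 _ (ih.1 (Nat.not_odd_iff_even.mp (Nat.odd_add_one.mp ho')))
  have h7 := (key m).2 hm
  rw [hφ] at h7
  have h8 : (g : Perm (Fin 6)).cycleType = {3} := hg
  have h9 : ((1 : MulAut (alternatingGroup (Fin 6))) g) = g := rfl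
  rw [h9, h8] at h7
  exact absurd h7 (by decide)

end A6

section Main

theorem odd_aut_inner (n : ℕ) (hn : 5 ≤ n) (φ : MulAut (alternatingGroup (Fin n))) (m : ℕ)
    (hm : Odd m) (hφ : φ ^ m = 1) : ∃ σ : Perm (Fin n), MulAut.conjNormal σ = φ := by
  by_cases h6 : n = 6
  · subst h6
    apply conjNormal_surj' φ (odd_aut_six φ m hm hφ) (0 : Fin 6) 1 2 3 <;> decide
  · exact (conjNormal_bij_fin n (by omega) h6).2 φ

theorem sylow_comm (n : ℕ) (hn : 5 ≤ n) (G : Subgroup (MulAut (alternatingGroup (Fin n))))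
    (r : ℕ) [hr : Fact r.Prime] (hr2 : r ≠ 2) (hnr : n < r ^ 2) (R : Sylow r G) :
    IsMulCommutative (R : Subgroup G) := by
  have hinj := conjNormal_inj (α := Fin n) (by rw [Fintype.card_fin]; omega)
  have hK : IsPGroup r ((R : Subgroup G).map G.subtype) := R.isPGroup'.map G.subtype
  have hP : IsPGroup r (((R : Subgroup G).map G.subtype).comap
      (MulAut.conjNormal : Perm (Fin n) →* MulAut (alternatingGroup (Fin n)))) :=
    hK.comap_of_injective MulAut.conjNormal hinj
  have hodd : Odd r := hr.out.odd_of_ne_two hr2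
  have key : ∀ a : (R : Subgroup G), ∃ σ : Perm (Fin n),
      σ ∈ ((R : Subgroup G).map G.subtype).comap
        (MulAut.conjNormal : Perm (Fin n) →* MulAut (alternatingGroup (Fin n))) ∧
      MulAut.conjNormal σ = a.1.1 := by
    intro a
    obtain ⟨k, hk⟩ := R.isPGroup' a
    have h1 : (a.1.1) ^ (r ^ k) = 1 :=
      congrArg (fun w : (R : Subgroup G) => w.1.1) hk
    obtain ⟨σ, hσ⟩ := odd_aut_inner n hn a.1.1 (r ^ k) hodd.pow h1
    refine ⟨σ, ?_, hσ⟩
    rw [Subgroup.mem_comap, hσ]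
    exact ⟨a.1, a.2, rfl⟩
  refine ⟨⟨fun a b => ?_⟩⟩
  obtain ⟨σ, hσP, hσ⟩ := key a
  obtain ⟨τ, hτP, hτ⟩ := key b
  have hc := pgroup_perm_comm r (by rw [Fintype.card_fin]; exact hnr) _ hP σ τ hσP hτP
  apply Subtype.ext
  apply Subtype.ext
  show a.1.1 * b.1.1 = b.1.1 * a.1.1
  rw [← hσ, ← hτ, ← map_mul, ← map_mul, hc]

theorem main (n : ℕ) (hn : 5 ≤ n) (G : Subgroup (MulAut (alternatingGroup (Fin n))))
    (hG : (MulAut.conj : alternatingGroup (Fin n) →* MulAut (alternatingGroup (Fin n))).range ≤ G)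
    (p q : ℕ) [Fact p.Prime] [Fact q.Prime] (hpq : p ≠ q) (h : ∀ g : G, orderOf g ≠ p * q) :
    (∀ P : Sylow p G, IsMulCommutative (P : Subgroup G)) ∨
      (∀ Q : Sylow q G, IsMulCommutative (Q : Subgroup G)) := by
  have hp : p.Prime := Fact.out
  have hq : q.Prime := Fact.out
  have hinj : Function.Injective
      (MulAut.conj : alternatingGroup (Fin n) →* MulAut (alternatingGroup (Fin n))) := by
    rw [injective_iff_map_eq_one]
    intro x hx
    have hc : x ∈ Subgroup.center (alternatingGroup (Fin n)) := by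
      rw [Subgroup.mem_center_iff]
      intro y
      have h1 : x * y * x⁻¹ = y :=
        congrArg (fun f : MulAut (alternatingGroup (Fin n)) => f y) hx
      rw [mul_inv_eq_iff_eq_mul] at h1
      exact h1.symm
    rw [alternatingGroup.center_eq_bot (by rw [Nat.card_fin]; omega), Subgroup.mem_bot] at hc
    exact hc
  have hno : ∀ (g : alternatingGroup (Fin n)) (k : ℕ), k = p * q → orderOf g ≠ k := by
    intro g k hk hg
    apply h ⟨MulAut.conj g, hG ⟨g, rfl⟩⟩
    rw [Subgroup.orderOf_mk, orderOf_injective _ hinj, hg, hk]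
  have two (r : ℕ) [Fact r.Prime] (hr2 : r ≠ 2) (hk : 2 * r = p * q) :
      ∀ R : Sylow r G, IsMulCommutative (R : Subgroup G) := by
    intro R
    have hr : r.Prime := Fact.out
    apply sylow_comm n hn G r hr2 ?_ R
    by_contra hge
    have hr3 : 3 ≤ r := by
      have := hr.two_le
      omega
    have h4 : r + 4 ≤ n := by nlinarith [not_lt.mp hge]
    obtain ⟨g, hg⟩ := exists_order_two n r hr hr2 h4
    exact hno g _ hk hg
  have odd (r s : ℕ) [Fact r.Prime] [Fact s.Prime] (hr2 : r ≠ 2) (hs2 : s ≠ 2) (hsr : s < r)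
      (hk : r * s = p * q) : ∀ R : Sylow r G, IsMulCommutative (R : Subgroup G) := by
    intro R
    have hr : r.Prime := Fact.out
    have hs : s.Prime := Fact.out
    apply sylow_comm n hn G r hr2 ?_ R
    by_contra hge
    have h4 : r + s ≤ n := by nlinarith [not_lt.mp hge, hr.two_le]
    obtain ⟨g, hg⟩ := exists_order_odd n r s hr hs hr2 hs2 (by omega) h4
    exact hno g _ hk hg
  by_cases hp2 : p = 2
  · right
    exact two q (fun h2 => hpq (hp2.trans h2.symm)) (by rw [hp2])
  · by_cases hq2 : q = 2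
    · left
      exact two p hp2 (by rw [hq2, mul_comm])
    · rcases Nat.lt_or_gt_of_ne hpq with hlt | hgt
      · right
        exact odd q p hq2 hp2 hlt (mul_comm q p)
      · left
        exact odd p q hp2 hq2 hgt rfl

end Main

end Cfsg.Agent.Helper18.AutOdd
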