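import Mathlib
import Cfsg.Agent.Helper18.AltPres

set_option autoImplicit false
set_option linter.unusedSectionVars false
set_option linter.unusedVariables false

namespace Cfsg.Agent.Helper18.DblAlt

section Ring

variable {R : Type*} [Ring R]

theorem L1 (u v : R) (hu : u * u = 1) (hv : v * v = 1) (h : u * v + v * u = -1) :
    (u * v) ^ 3 = 1 := by
  have h1 : v * u = -1 - u * v := by rw [← h]; abel
  have h2 : (u * v) * (u * v) = -(u * v) - 1 := by
    calc (u * v) * (u * v) = u * (v * u) * v := by noncomm_ring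
      _ = u * (-1 - u * v) * v := by rw [h1]
      _ = -(u * v) - (u * u) * (v * v) := by noncomm_ring
      _ = -(u * v) - 1 := by rw [hu, hv, mul_one]
  calc (u * v) ^ 3 = (u * v) * ((u * v) * (u * v)) := by noncomm_ring
    _ = (u * v) * (-(u * v) - 1) := by rw [h2]
    _ = -((u * v) * (u * v)) - u * v := by noncomm_ring
    _ = 1 := by rw [h2]; abel

theorem L2 (u v : R) (hu : u * u = 1) (hv : v * v = 1) (h : u * v + v * u = 0) :
    (u * v) ^ 2 = -1 := by
  have h1 : v * u = -(u * v) := by
    rw [eq_neg_iff_add_eq_zero, add_comm]; exact h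
  calc (u * v) ^ 2 = u * (v * u) * v := by noncomm_ring
    _ = u * (-(u * v)) * v := by rw [h1]
    _ = -((u * u) * (v * v)) := by noncomm_ring
    _ = -1 := by rw [hu, hv, mul_one]

theorem anti (a b : R) (h : a * b + b * a = 0) : b * a = -(a * b) := by
  rw [eq_neg_iff_add_eq_zero, add_comm]; exact h

theorem red_a (a b c : R) (ha : a * a = 1) (hab : a * b + b * a = 0) :
    a * b * (a * c) = -(b * c) := by
  calc a * b * (a * c) = a * (b * a) * c := by noncomm_ring
    _ = a * (-(a * b)) * c := by rw [anti a b hab]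
    _ = -((a * a) * (b * c)) := by noncomm_ring
    _ = -(b * c) := by rw [ha, one_mul]

theorem red_b (a b c : R) (ha : a * a = 1) (hab : a * b + b * a = -1) :
    a * b * (a * c) = -((a + b) * c) := by
  have h1 : b * a = -1 - a * b := by rw [← hab]; abel
  calc a * b * (a * c) = a * (b * a) * c := by noncomm_ring
    _ = a * (-1 - a * b) * c := by rw [h1]
    _ = -(a * c) - (a * a) * (b * c) := by noncomm_ring
    _ = -((a + b) * c) := by rw [ha, one_mul]; noncomm_ring

theorem w_sq (a b : R) (ha : a * a = 1) (hb : b * b = 1) (hab : a * b + b * a = -1) :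
    (a + b) * (a + b) = 1 := by
  calc (a + b) * (a + b) = a * a + b * b + (a * b + b * a) := by noncomm_ring
    _ = 1 := by rw [ha, hb, hab]; abel

theorem w_swap (a b c : R) (x y : R) (hac : a * c + c * a = x) (hbc : b * c + c * b = y) :
    (a + b) * c + c * (a + b) = x + y := by
  rw [← hac, ← hbc]; noncomm_ring

theorem R3a (a b c : R) (ha : a * a = 1) (hb : b * b = 1) (hc : c * c = 1)
    (hab : a * b + b * a = 0) (hbc : b * c + c * b = -1) :
    (a * b * (a * c)) ^ 3 = -1 := by
  rw [red_a a b c ha hab, Odd.neg_pow (by decide), L1 b c hb hc hbc]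

theorem R2a (a b c : R) (ha : a * a = 1) (hb : b * b = 1) (hc : c * c = 1)
    (hab : a * b + b * a = 0) (hbc : b * c + c * b = 0) :
    (a * b * (a * c)) ^ 2 = -1 := by
  rw [red_a a b c ha hab, neg_sq, L2 b c hb hc hbc]

theorem R3b (a b c : R) (ha : a * a = 1) (hb : b * b = 1) (hc : c * c = 1)
    (hab : a * b + b * a = -1) (hac : a * c + c * a = 0) (hbc : b * c + c * b = -1) :
    (a * b * (a * c)) ^ 3 = -1 := by
  rw [red_b a b c ha hab, Odd.neg_pow (by decide),
    L1 (a + b) c (w_sq a b ha hb hab) hc (by rw [w_swap a b c 0 (-1) hac hbc, zero_add])]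

theorem R2b (a b c : R) (ha : a * a = 1) (hb : b * b = 1) (hc : c * c = 1)
    (hab : a * b + b * a = -1) (hac : a * c + c * a = 0) (hbc : b * c + c * b = 0) :
    (a * b * (a * c)) ^ 2 = -1 := by
  rw [red_b a b c ha hab, neg_sq,
    L2 (a + b) c (w_sq a b ha hb hab) hc (by rw [w_swap a b c 0 0 hac hbc, zero_add])]

end Ring

section Cliff

variable (m : ℕ)

/-- the Gram-type matrix -/
def gram : Matrix (Fin m) (Fin m) ℚ := fun a b =>
  if a = b then 1 else if a.val + 1 = b.val then -1 else 0

/-- the quadratic form -/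
noncomputable def qf : QuadraticForm ℚ (Fin m → ℚ) :=
  (Matrix.toBilin' (gram m)).toQuadraticMap

/-- the generating vectors -/
noncomputable def T (a : Fin m) : CliffordAlgebra (qf m) :=
  CliffordAlgebra.ι (qf m) (Pi.single a 1)

theorem T_sq (a : Fin m) : T m a * T m a = 1 := by
  unfold T
  rw [CliffordAlgebra.ι_sq_scalar, qf, LinearMap.BilinMap.toQuadraticMap_apply,
    Matrix.toBilin'_single, gram, if_pos rfl, map_one]

theorem T_swap (a b : Fin m) :
    T m a * T m b + T m b * T m a = algebraMap ℚ _ (gram m a b + gram m b a) := by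
  unfold T
  rw [CliffordAlgebra.ι_mul_ι_add_swap, qf, LinearMap.BilinMap.polar_toQuadraticMap,
    Matrix.toBilin'_single, Matrix.toBilin'_single]

theorem T_adj (a b : Fin m) (h : a.val + 1 = b.val) :
    T m a * T m b + T m b * T m a = -1 := by
  rw [T_swap, gram, gram, if_neg (by intro e; rw [e] at h; omega), if_pos h,
    if_neg (by intro e; rw [e] at h; omega), if_neg (by omega), add_zero, map_neg, map_one]

theorem T_far (a b : Fin m) (h : a.val + 1 < b.val) :
    T m a * T m b + T m b * T m a = 0 := by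
  rw [T_swap, gram, gram, if_neg (by intro e; rw [e] at h; omega), if_neg (by omega),
    if_neg (by intro e; rw [e] at h; omega), if_neg (by omega), add_zero, map_zero]

theorem neg_one_ne : (-1 : CliffordAlgebra (qf m)) ≠ 1 := by
  intro h
  have h2 : (2 : CliffordAlgebra (qf m)) = 0 := by
    have : (1 : CliffordAlgebra (qf m)) + 1 = 0 := by
      nth_rewrite 1 [← h]; exact neg_add_cancel 1
    rw [← this]; norm_num
  have h3 : algebraMap ℚ (CliffordAlgebra (qf m)) 2 = 0 := by
    rw [map_ofNat]; exact h2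
  have h4 : algebraMap ℚ (CliffordAlgebra (qf m)) 1 = 0 := by
    have : (1 : ℚ) = 2⁻¹ * 2 := by norm_num
    rw [this, map_mul, h3, mul_zero]
  rw [map_one] at h4
  exact one_ne_zero h4

end Cliff


section Pres

variable (k : ℕ)

/-- relations of the double cover -/
def drels : Set (FreeGroup (Option (Fin k))) :=
  {g | g = FreeGroup.of none ^ 2} ∪
  {g | ∃ i : Fin k, g = FreeGroup.of none * FreeGroup.of (some i) *
      (FreeGroup.of none)⁻¹ * (FreeGroup.of (some i))⁻¹} ∪
  {g | ∃ i : Fin k, i.val = 0 ∧ g = FreeGroup.of (some i) ^ 3} ∪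
  {g | ∃ i : Fin k, 1 ≤ i.val ∧ g = FreeGroup.of (some i) ^ 2 * (FreeGroup.of none)⁻¹} ∪
  {g | ∃ i j : Fin k, j.val = i.val + 1 ∧
      g = (FreeGroup.of (some i) * FreeGroup.of (some j)) ^ 3 * (FreeGroup.of none)⁻¹} ∪
  {g | ∃ i j : Fin k, i.val + 1 < j.val ∧
      g = (FreeGroup.of (some i) * FreeGroup.of (some j)) ^ 2 * (FreeGroup.of none)⁻¹}

/-- the double cover -/
abbrev D := PresentedGroup (drels k)

/-- the central generator -/
def dz : D k := PresentedGroup.of none

/-- the other generators -/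
def dx (i : Fin k) : D k := PresentedGroup.of (some i)

theorem dz_sq : dz k ^ 2 = 1 := by
  have hm : (FreeGroup.of none ^ 2 : FreeGroup (Option (Fin k))) ∈ drels k :=
    Or.inl (Or.inl (Or.inl (Or.inl (Or.inl rfl))))
  have h : PresentedGroup.mk (drels k) (FreeGroup.of none ^ 2) = 1 := PresentedGroup.one_of_mem hm
  rw [map_pow] at h
  exact h

theorem dz_comm (i : Fin k) : dz k * dx k i = dx k i * dz k := by
  have hm : (FreeGroup.of none * FreeGroup.of (some i) *
      (FreeGroup.of none)⁻¹ * (FreeGroup.of (some i))⁻¹ : FreeGroup (Option (Fin k))) ∈ drels k :=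
    Or.inl (Or.inl (Or.inl (Or.inl (Or.inr ⟨i, rfl⟩))))
  have h := PresentedGroup.one_of_mem hm
  rw [map_mul, map_mul, map_mul, map_inv, map_inv, mul_inv_eq_one, mul_inv_eq_iff_eq_mul] at h
  exact h

theorem dx_cube (i : Fin k) (hi : i.val = 0) : dx k i ^ 3 = 1 := by
  have hm : (FreeGroup.of (some i) ^ 3 : FreeGroup (Option (Fin k))) ∈ drels k :=
    Or.inl (Or.inl (Or.inl (Or.inr ⟨i, hi, rfl⟩)))
  have h := PresentedGroup.one_of_mem hm
  rw [map_pow] at h
  exact h

theorem dx_sq (i : Fin k) (hi : 1 ≤ i.val) : dx k i ^ 2 = dz k := by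
  have hm : (FreeGroup.of (some i) ^ 2 * (FreeGroup.of none)⁻¹ :
      FreeGroup (Option (Fin k))) ∈ drels k :=
    Or.inl (Or.inl (Or.inr ⟨i, hi, rfl⟩))
  have h := PresentedGroup.one_of_mem hm
  rw [map_mul, map_pow, map_inv, mul_inv_eq_one] at h
  exact h

theorem dx_adj (i j : Fin k) (hij : j.val = i.val + 1) : (dx k i * dx k j) ^ 3 = dz k := by
  have hm : ((FreeGroup.of (some i) * FreeGroup.of (some j)) ^ 3 * (FreeGroup.of none)⁻¹ :
      FreeGroup (Option (Fin k))) ∈ drels k :=
    Or.inl (Or.inr ⟨i, j, hij, rfl⟩)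
  have h := PresentedGroup.one_of_mem hm
  rw [map_mul, map_pow, map_mul, map_inv, mul_inv_eq_one] at h
  exact h

theorem dx_far (i j : Fin k) (hij : i.val + 1 < j.val) : (dx k i * dx k j) ^ 2 = dz k := by
  have hm : ((FreeGroup.of (some i) * FreeGroup.of (some j)) ^ 2 * (FreeGroup.of none)⁻¹ :
      FreeGroup (Option (Fin k))) ∈ drels k :=
    Or.inr ⟨i, j, hij, rfl⟩
  have h := PresentedGroup.one_of_mem hm
  rw [map_mul, map_pow, map_mul, map_inv, mul_inv_eq_one] at h
  exact h

variable {H : Type*} [Group H]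

/-- an assignment of generators satisfying the relations -/
structure Sat (zz : H) (x : Fin k → H) : Prop where
  h1 : zz ^ 2 = 1
  h2 : ∀ i, zz * x i = x i * zz
  h3 : ∀ i : Fin k, i.val = 0 → x i ^ 3 = 1
  h4 : ∀ i : Fin k, 1 ≤ i.val → x i ^ 2 = zz
  h5 : ∀ i j : Fin k, j.val = i.val + 1 → (x i * x j) ^ 3 = zz
  h6 : ∀ i j : Fin k, i.val + 1 < j.val → (x i * x j) ^ 2 = zz

/-- generator assignment -/
def gen (zz : H) (x : Fin k → H) : Option (Fin k) → H := fun o => o.elim zz x

theorem lift_drels {zz : H} {x : Fin k → H} (hs : Sat k zz x) :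
    ∀ r ∈ drels k, FreeGroup.lift (gen k zz x) r = 1 := by
  rintro r (((((rfl | ⟨i, rfl⟩) | ⟨i, hi, rfl⟩) | ⟨i, hi, rfl⟩) | ⟨i, j, hij, rfl⟩) |
    ⟨i, j, hij, rfl⟩)
  · rw [map_pow, FreeGroup.lift_apply_of]
    exact hs.h1
  · rw [map_mul, map_mul, map_mul, map_inv, map_inv, FreeGroup.lift_apply_of,
      FreeGroup.lift_apply_of, mul_inv_eq_one, mul_inv_eq_iff_eq_mul]
    exact hs.h2 i
  · rw [map_pow, FreeGroup.lift_apply_of]
    exact hs.h3 i hi
  · rw [map_mul, map_pow, map_inv, FreeGroup.lift_apply_of, FreeGroup.lift_apply_of,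
      mul_inv_eq_one]
    exact hs.h4 i hi
  · rw [map_mul, map_pow, map_mul, map_inv, FreeGroup.lift_apply_of, FreeGroup.lift_apply_of,
      FreeGroup.lift_apply_of, mul_inv_eq_one]
    exact hs.h5 i j hij
  · rw [map_mul, map_pow, map_mul, map_inv, FreeGroup.lift_apply_of, FreeGroup.lift_apply_of,
      FreeGroup.lift_apply_of, mul_inv_eq_one]
    exact hs.h6 i j hij

/-- the induced homomorphism -/
noncomputable def dlift {zz : H} {x : Fin k → H} (hs : Sat k zz x) : D k →* H :=
  PresentedGroup.toGroup (lift_drels k hs)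

theorem dlift_z {zz : H} {x : Fin k → H} (hs : Sat k zz x) : dlift k hs (dz k) = zz :=
  PresentedGroup.toGroup.of _

theorem dlift_x {zz : H} {x : Fin k → H} (hs : Sat k zz x) (i : Fin k) :
    dlift k hs (dx k i) = x i :=
  PresentedGroup.toGroup.of _

theorem d_ext {φ ψ : D k →* H} (hz : φ (dz k) = ψ (dz k)) (hx : ∀ i, φ (dx k i) = ψ (dx k i)) :
    φ = ψ := by
  apply PresentedGroup.ext
  intro o
  cases o with
  | none => exact hz
  | some i => exact hx i

theorem dz_center : dz k ∈ Subgroup.center (D k) := by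
  rw [Subgroup.mem_center_iff]
  intro g
  have h : (MulAut.conj (dz k)).toMonoidHom = MonoidHom.id (D k) := by
    apply d_ext
    · show dz k * dz k * (dz k)⁻¹ = dz k
      rw [mul_inv_cancel_right]
    · intro i
      show dz k * dx k i * (dz k)⁻¹ = dx k i
      rw [dz_comm, mul_inv_cancel_right]
  have h1 : dz k * g * (dz k)⁻¹ = g := DFunLike.congr_fun h g
  rw [mul_inv_eq_iff_eq_mul] at h1
  exact h1.symm

theorem dz_commutator (i j : Fin k) (hi : i.val = 0) (hj : j.val = 1) :
    dz k ∈ commutator (D k) := by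
  rw [← Abelianization.ker_of, MonoidHom.mem_ker]
  have e1 := congrArg (Abelianization.of (G := D k)) (dx_cube k i hi)
  have e2 := congrArg (Abelianization.of (G := D k)) (dx_sq k j (by omega))
  have e3 := congrArg (Abelianization.of (G := D k)) (dx_adj k i j (by omega))
  rw [map_pow, map_one] at e1
  rw [map_pow] at e2
  rw [map_pow, map_mul, mul_pow, e1, one_mul, ← e2, pow_succ, mul_eq_left] at e3
  rw [← e2, e3, one_pow]

instance dz_normal : (Subgroup.zpowers (dz k)).Normal := by
  constructor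
  intro n hn g
  have hc : n ∈ Subgroup.center (D k) := (Subgroup.zpowers_le.mpr (dz_center k)) hn
  rw [Subgroup.mem_center_iff] at hc
  rw [hc g, mul_inv_cancel_right]
  exact hn

theorem sat_alt : Sat k (1 : PresentedGroup (AltPres.rels k)) (fun i => PresentedGroup.of i) where
  h1 := one_pow 2
  h2 := fun i => by rw [one_mul, mul_one]
  h3 := fun i hi => AltPres.rel1 k i hi
  h4 := fun i hi => AltPres.rel2 k i hi
  h5 := fun i j hij => AltPres.rel3 k i j hij
  h6 := fun i j hij => AltPres.rel4 k i j hij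

/-- the covering map -/
noncomputable def toAlt : D k →* PresentedGroup (AltPres.rels k) := dlift k (sat_alt k)

theorem toAlt_z : toAlt k (dz k) = 1 := dlift_z k _

theorem toAlt_x (i : Fin k) : toAlt k (dx k i) = PresentedGroup.of i := dlift_x k _ i

theorem mk_dz : (QuotientGroup.mk (dz k) : D k ⧸ Subgroup.zpowers (dz k)) = 1 :=
  (QuotientGroup.eq_one_iff _).mpr (Subgroup.mem_zpowers _)

theorem from_rels : ∀ r ∈ AltPres.rels k,
    FreeGroup.lift (fun i : Fin k =>
      (QuotientGroup.mk (dx k i) : D k ⧸ Subgroup.zpowers (dz k))) r = 1 := by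
  rintro r (((⟨i, hi, rfl⟩ | ⟨i, hi, rfl⟩) | ⟨i, j, hij, rfl⟩) | ⟨i, j, hij, rfl⟩)
  · rw [map_pow, FreeGroup.lift_apply_of, ← QuotientGroup.mk_pow, dx_cube k i hi]
    rfl
  · rw [map_pow, FreeGroup.lift_apply_of, ← QuotientGroup.mk_pow, dx_sq k i hi, mk_dz]
  · rw [map_pow, map_mul, FreeGroup.lift_apply_of, FreeGroup.lift_apply_of,
      ← QuotientGroup.mk_mul, ← QuotientGroup.mk_pow, dx_adj k i j hij, mk_dz]
  · rw [map_pow, map_mul, FreeGroup.lift_apply_of, FreeGroup.lift_apply_of,
      ← QuotientGroup.mk_mul, ← QuotientGroup.mk_pow, dx_far k i j hij, mk_dz]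

/-- the inverse of the induced map on the quotient -/
noncomputable def fromAlt : PresentedGroup (AltPres.rels k) →* D k ⧸ Subgroup.zpowers (dz k) :=
  PresentedGroup.toGroup (from_rels k)

theorem fromAlt_of (i : Fin k) : fromAlt k (PresentedGroup.of i) = QuotientGroup.mk (dx k i) :=
  PresentedGroup.toGroup.of _

/-- the induced map on the quotient -/
noncomputable def quotAlt : D k ⧸ Subgroup.zpowers (dz k) →* PresentedGroup (AltPres.rels k) :=
  QuotientGroup.lift (Subgroup.zpowers (dz k)) (toAlt k) (by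
    intro x hx
    have h : Subgroup.zpowers (dz k) ≤ (toAlt k).ker :=
      Subgroup.zpowers_le.mpr (MonoidHom.mem_ker.mpr (toAlt_z k))
    exact MonoidHom.mem_ker.mp (h hx))

theorem quotAlt_mk (x : D k) : quotAlt k (QuotientGroup.mk x) = toAlt k x := rfl

/-- the quotient is the alternating presentation -/
noncomputable def quotEquiv : D k ⧸ Subgroup.zpowers (dz k) ≃* PresentedGroup (AltPres.rels k) :=
  MonoidHom.toMulEquiv (quotAlt k) (fromAlt k)
    (by
      apply QuotientGroup.monoidHom_ext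
      apply d_ext
      · show fromAlt k (quotAlt k (QuotientGroup.mk (dz k))) = QuotientGroup.mk (dz k)
        rw [quotAlt_mk, toAlt_z, map_one, mk_dz]
      · intro i
        show fromAlt k (quotAlt k (QuotientGroup.mk (dx k i))) = QuotientGroup.mk (dx k i)
        rw [quotAlt_mk, toAlt_x, fromAlt_of])
    (by
      apply PresentedGroup.ext
      intro i
      show quotAlt k (fromAlt k (PresentedGroup.of i)) = PresentedGroup.of i
      rw [fromAlt_of, quotAlt_mk, toAlt_x])

/-- the unit of a generating vector -/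
noncomputable def tu (a : Fin (k + 1)) : (CliffordAlgebra (qf (k + 1)))ˣ :=
  ⟨T (k + 1) a, T (k + 1) a, T_sq (k + 1) a, T_sq (k + 1) a⟩

theorem tu_val (a : Fin (k + 1)) : (tu k a : CliffordAlgebra (qf (k + 1))) = T (k + 1) a := rfl

theorem sat_cliff : Sat k (-1 : (CliffordAlgebra (qf (k + 1)))ˣ)
    (fun i => tu k 0 * tu k i.succ) where
  h1 := neg_one_sq
  h2 := fun i => by rw [neg_one_mul, mul_neg_one]
  h3 := fun i hi => by
    apply Units.ext
    rw [Units.val_pow_eq_pow_val, Units.val_mul, tu_val, tu_val, Units.val_one]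
    exact L1 _ _ (T_sq _ _) (T_sq _ _) (T_adj _ _ _ (by rw [Fin.val_succ, Fin.val_zero, hi]))
  h4 := fun i hi => by
    apply Units.ext
    rw [Units.val_pow_eq_pow_val, Units.val_mul, tu_val, tu_val, Units.val_neg, Units.val_one]
    exact L2 _ _ (T_sq _ _) (T_sq _ _)
      (T_far _ _ _ (by rw [Fin.val_succ, Fin.val_zero]; omega))
  h5 := fun i j hij => by
    apply Units.ext
    rw [Units.val_pow_eq_pow_val, Units.val_mul, Units.val_mul, Units.val_mul, tu_val, tu_val,
      tu_val, Units.val_neg, Units.val_one]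
    by_cases hi : i.val = 0
    · exact R3b _ _ _ (T_sq _ _) (T_sq _ _) (T_sq _ _)
        (T_adj _ _ _ (by rw [Fin.val_succ, Fin.val_zero, hi]))
        (T_far _ _ _ (by rw [Fin.val_succ, Fin.val_zero]; omega))
        (T_adj _ _ _ (by rw [Fin.val_succ, Fin.val_succ, hij]))
    · exact R3a _ _ _ (T_sq _ _) (T_sq _ _) (T_sq _ _)
        (T_far _ _ _ (by rw [Fin.val_succ, Fin.val_zero]; omega))
        (T_adj _ _ _ (by rw [Fin.val_succ, Fin.val_succ, hij]))
  h6 := fun i j hij => by
    apply Units.ext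
    rw [Units.val_pow_eq_pow_val, Units.val_mul, Units.val_mul, Units.val_mul, tu_val, tu_val,
      tu_val, Units.val_neg, Units.val_one]
    by_cases hi : i.val = 0
    · exact R2b _ _ _ (T_sq _ _) (T_sq _ _) (T_sq _ _)
        (T_adj _ _ _ (by rw [Fin.val_succ, Fin.val_zero, hi]))
        (T_far _ _ _ (by rw [Fin.val_succ, Fin.val_zero]; omega))
        (T_far _ _ _ (by rw [Fin.val_succ, Fin.val_succ]; omega))
    · exact R2a _ _ _ (T_sq _ _) (T_sq _ _) (T_sq _ _)
        (T_far _ _ _ (by rw [Fin.val_succ, Fin.val_zero]; omega))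
        (T_far _ _ _ (by rw [Fin.val_succ, Fin.val_succ]; omega))

theorem dz_ne_one : dz k ≠ 1 := by
  intro h
  have h1 := dlift_z k (sat_cliff k)
  rw [h, map_one] at h1
  have h2 := congrArg Units.val h1
  rw [Units.val_one, Units.val_neg, Units.val_one] at h2
  exact neg_one_ne (k + 1) h2.symm

theorem dz_order : orderOf (dz k) = 2 :=
  orderOf_eq_prime (dz_sq k) (dz_ne_one k)

theorem d_finite (hf : Finite (PresentedGroup (AltPres.rels k))) : Finite (D k) := by
  have h1 : Finite (D k ⧸ Subgroup.zpowers (dz k)) := Finite.of_equiv _ (quotEquiv k).symm.toEquiv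
  have h2 : Finite (Subgroup.zpowers (dz k)) :=
    (IsOfFinOrder.finite_zpowers (isOfFinOrder_iff_pow_eq_one.mpr ⟨2, by norm_num, dz_sq k⟩))
  exact Finite.of_equiv _ (Subgroup.groupEquivQuotientProdSubgroup (s := Subgroup.zpowers (dz k))).symm

end Pres

end Cfsg.Agent.Helper18.DblAlt
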