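import Mathlib
import Cfsg.Agent.Helper18.KleinClass

/-!
# Klein four-subgroups of a group with dihedral Sylow 2-subgroups
-/

set_option autoImplicit false

namespace Cfsg.Agent.Helper18.DihKlein

open Cfsg.Agent.Helper18.KleinCount Cfsg.Agent.Helper18.KleinClass
open scoped Pointwise

section General

variable {X : Type*} [Group X] [Finite X]

theorem dk_mem_normalizer (U : Subgroup X) (b : X) (h : ∀ u ∈ U, b * u * b⁻¹ ∈ U) :
    b ∈ Subgroup.normalizer (U : Set X) := by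
  rw [Subgroup.mem_normalizer_iff]
  intro u
  constructor
  · exact h u
  · intro hu
    have hinj : Function.Injective (fun u : U => (⟨b * u.1 * b⁻¹, h u.1 u.2⟩ : U)) := by
      intro u₁ u₂ h12
      have h1 : b * u₁.1 * b⁻¹ = b * u₂.1 * b⁻¹ := congrArg Subtype.val h12
      apply Subtype.ext
      simpa using h1
    obtain ⟨w, hw⟩ := (Finite.injective_iff_surjective.mp hinj) ⟨b * u * b⁻¹, hu⟩
    have h1 : b * w.1 * b⁻¹ = b * u * b⁻¹ := congrArg Subtype.val hw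
    have h2 : w.1 = u := by simpa using h1
    rw [← h2]
    exact w.2

theorem dk_isPGroup_zpowers {Y : Type*} [Group Y] (t : Y) (j : ℕ) (h : t ^ 2 ^ j = 1) :
    IsPGroup 2 (Subgroup.zpowers t) := by
  intro y
  obtain ⟨y, hy⟩ := y
  obtain ⟨i, rfl⟩ := Subgroup.mem_zpowers_iff.mp hy
  refine ⟨j, Subtype.ext ?_⟩
  show (t ^ i) ^ 2 ^ j = 1
  rw [← zpow_natCast, ← zpow_mul, mul_comm, zpow_mul, zpow_natCast, h, one_zpow]

/-- a 2-subgroup is conjugate into a given Sylow 2-subgroup -/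
theorem dk_conj_into (S : Sylow 2 X) (Q : Subgroup X) (hQ : IsPGroup 2 Q) :
    ∃ y : X, ∀ q ∈ Q, y⁻¹ * q * y ∈ (S : Subgroup X) := by
  have : Fact (Nat.Prime 2) := ⟨Nat.prime_two⟩
  obtain ⟨P, hP⟩ := hQ.exists_le_sylow
  obtain ⟨g, hg⟩ := MulAction.exists_smul_eq X S P
  refine ⟨g, fun q hq => ?_⟩
  have hqP : q ∈ (P : Subgroup X) := hP hq
  rw [← hg, Sylow.coe_subgroup_smul, Subgroup.mem_pointwise_smul_iff_inv_smul_mem] at hqP
  simpa [MulAut.smul_def] using hqP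

/-- two 2-elements of a subgroup `N` lie, up to `N`-conjugacy, in a common 2-subgroup -/
theorem dk_sylow_pair (N : Subgroup X) (a b : X) (ha : a ∈ N) (hb : b ∈ N) (ka kb : ℕ)
    (hak : a ^ 2 ^ ka = 1) (hbk : b ^ 2 ^ kb = 1) :
    ∃ n ∈ N, ∃ Q : Subgroup X, IsPGroup 2 Q ∧ a ∈ Q ∧ n * b * n⁻¹ ∈ Q := by
  have : Fact (Nat.Prime 2) := ⟨Nat.prime_two⟩
  have hpa : IsPGroup 2 (Subgroup.zpowers (⟨a, ha⟩ : N)) :=
    dk_isPGroup_zpowers _ ka (Subtype.ext (by simpa using hak))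
  have hpb : IsPGroup 2 (Subgroup.zpowers (⟨b, hb⟩ : N)) :=
    dk_isPGroup_zpowers _ kb (Subtype.ext (by simpa using hbk))
  obtain ⟨P₁, hP₁⟩ := hpa.exists_le_sylow
  obtain ⟨P₂, hP₂⟩ := hpb.exists_le_sylow
  obtain ⟨n, hn⟩ := MulAction.exists_smul_eq N P₂ P₁
  refine ⟨n.1, n.2, (P₁ : Subgroup N).map N.subtype, P₁.isPGroup'.map _,
    ⟨⟨a, ha⟩, hP₁ (Subgroup.mem_zpowers _), rfl⟩, ?_⟩
  have hb₂ : (⟨b, hb⟩ : N) ∈ (P₂ : Subgroup N) := hP₂ (Subgroup.mem_zpowers _)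
  have h3 : n * ⟨b, hb⟩ * n⁻¹ ∈ (P₁ : Subgroup N) := by
    rw [← hn, Sylow.coe_subgroup_smul, Subgroup.mem_pointwise_smul_iff_inv_smul_mem]
    have h4 : (MulAut.conj n)⁻¹ • (n * ⟨b, hb⟩ * n⁻¹) = (⟨b, hb⟩ : N) := by
      rw [MulAut.smul_def, ← map_inv, MulAut.conj_apply]
      group
    rw [h4]
    exact hb₂
  exact ⟨_, h3, rfl⟩

/-- the transfer argument: no element centralizing `v` can conjugate `s` to `s * r ^ j`, `j` odd,
when `⟨r⟩` is a Sylow 2-subgroup of a subgroup `C` normalized by the involution `s` inverting `r` -/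
theorem dk_transfer (C : Subgroup X) (r s c : X) (j k : ℕ) (hr : r ∈ C) (hm2 : Even (orderOf r))
    (hrk : r ^ 2 ^ k = 1)
    (hsyl : ∀ Q : Subgroup X, IsPGroup 2 Q → Subgroup.zpowers r ≤ Q → Q ≤ C →
      Q = Subgroup.zpowers r)
    (hs : s * s = 1) (hsr : s * r * s⁻¹ = r⁻¹) (hsC : ∀ g ∈ C, s * g * s⁻¹ ∈ C)
    (hc : c ∈ C) (hcs : c * s * c⁻¹ = s * r ^ j) (hj : Odd j) : False := by
  have : Fact (Nat.Prime 2) := ⟨Nat.prime_two⟩
  have hsinv : s⁻¹ = s := inv_eq_of_mul_eq_one_right hs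
  have hR2 : IsPGroup 2 (Subgroup.zpowers (⟨r, hr⟩ : C)) :=
    dk_isPGroup_zpowers _ k (Subtype.ext (by simpa using hrk))
  have hRmap : (Subgroup.zpowers (⟨r, hr⟩ : C)).map C.subtype = Subgroup.zpowers r := by
    rw [MonoidHom.map_zpowers]
    rfl
  obtain ⟨P, hP⟩ := hR2.exists_le_sylow
  have hPR : (P : Subgroup C) = Subgroup.zpowers (⟨r, hr⟩ : C) := by
    have h1 := hsyl ((P : Subgroup C).map C.subtype) (P.isPGroup'.map _)
      (by rw [← hRmap]; exact Subgroup.map_mono hP) (Subgroup.map_subtype_le _)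
    rw [← hRmap] at h1
    exact Subgroup.map_injective C.subtype_injective h1
  have hcyc : IsCyclic (P : Subgroup C) := by
    rw [hPR]
    infer_instance
  have hmin : (Nat.card C).minFac = 2 := by
    rw [Nat.minFac_eq_two_iff]
    have h1 : orderOf (⟨r, hr⟩ : C) = orderOf r := Subgroup.orderOf_mk r hr
    exact (even_iff_two_dvd.mp hm2).trans (by rw [← h1]; exact orderOf_dvd_natCard _)
  have hcomp := IsCyclic.isComplement' hmin hcyc
  have hKodd := MonoidHom.not_dvd_card_ker_transferSylow P (hcyc.normalizer_le_centralizer hmin)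
  obtain ⟨φ, hφ⟩ : ∃ φ : C →* (P : Subgroup C),
      φ = MonoidHom.transferSylow P (hcyc.normalizer_le_centralizer hmin) := ⟨_, rfl⟩
  rw [← hφ] at hcomp hKodd
  have hKn : φ.ker.Normal := MonoidHom.normal_ker φ
  -- invariance of the kernel under `s`
  have hinv : ∀ κ : C, κ ∈ φ.ker → (⟨s * κ.1 * s⁻¹, hsC _ κ.2⟩ : C) ∈ φ.ker := by
    intro κ hκ
    rw [MonoidHom.mem_ker]
    have h1 : orderOf (φ ⟨s * κ.1 * s⁻¹, hsC _ κ.2⟩) ∣ orderOf (⟨s * κ.1 * s⁻¹, hsC _ κ.2⟩ : C) :=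
      orderOf_map_dvd φ _
    have h2 : orderOf (⟨s * κ.1 * s⁻¹, hsC _ κ.2⟩ : C) = orderOf κ.1 := by
      rw [Subgroup.orderOf_mk]
      exact (MulAut.conj s).orderOf_eq κ.1
    have h3 : orderOf κ.1 ∣ Nat.card φ.ker := by
      have h4 : orderOf (⟨κ, hκ⟩ : φ.ker) = orderOf κ.1 := by
        rw [Subgroup.orderOf_mk, Subgroup.orderOf_coe]
      rw [← h4]
      exact orderOf_dvd_natCard _
    obtain ⟨e, he⟩ := P.isPGroup' (φ ⟨s * κ.1 * s⁻¹, hsC _ κ.2⟩)
    have h5 : orderOf (φ ⟨s * κ.1 * s⁻¹, hsC _ κ.2⟩) ∣ 2 ^ e := orderOf_dvd_of_pow_eq_one he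
    have hcop : Nat.Coprime (Nat.card φ.ker) (2 ^ e) :=
      (((Nat.Prime.coprime_iff_not_dvd Nat.prime_two).mpr hKodd).pow_left e).symm
    have h6 := Nat.eq_one_of_dvd_coprimes hcop (h1.trans (h2 ▸ h3)) h5
    exact orderOf_eq_one_iff.mp h6
  -- decomposition of `c`
  obtain ⟨⟨κ, ρ⟩, hκρ⟩ := hcomp.2 ⟨c, hc⟩
  have hρ : ρ.1 ∈ Subgroup.zpowers (⟨r, hr⟩ : C) := by
    have := ρ.2
    rw [← hPR]
    exact this
  obtain ⟨i, hi⟩ := Subgroup.mem_zpowers_iff.mp hρ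
  have hcX : c = κ.1.1 * r ^ i := by
    have h1 := congrArg (fun w : C => (w : X)) hκρ
    simp only [Subgroup.coe_mul] at h1
    rw [← h1, ← hi]
    simp
  -- the key relation
  have h7 : s * c * s⁻¹ = r ^ j * c := by
    have h8 : c * s = s * r ^ j * c := by
      rw [← hcs]
      group
    calc s * c * s⁻¹ = s * (c * s) * (s⁻¹ * s⁻¹) := by group
      _ = s * (s * r ^ j * c) * (s⁻¹ * s⁻¹) := by rw [h8]
      _ = (s * s) * r ^ j * c * (s⁻¹ * s⁻¹) := by group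
      _ = r ^ j * c := by rw [hs, hsinv, hs, one_mul, mul_one]
  have h9 : s * r ^ i * s⁻¹ = (r ^ i)⁻¹ := by
    rw [← conj_zpow, hsr, inv_zpow]
  -- the element `r ^ j * r ^ i * r ^ i` lies in the kernel
  have hmem : (⟨r, hr⟩ : C) ^ j * (⟨r, hr⟩ : C) ^ i * (⟨r, hr⟩ : C) ^ i ∈ φ.ker := by
    have h10 : (⟨r, hr⟩ : C) ^ j * (⟨r, hr⟩ : C) ^ i * (⟨r, hr⟩ : C) ^ i
        = (⟨s * κ.1.1 * s⁻¹, hsC _ κ.1.2⟩ : C) *
          (((⟨r, hr⟩ : C) ^ i)⁻¹ * ((⟨r, hr⟩ : C) ^ i)⁻¹ * κ.1⁻¹ *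
            (((⟨r, hr⟩ : C) ^ i)⁻¹ * ((⟨r, hr⟩ : C) ^ i)⁻¹)⁻¹) := by
      apply Subtype.ext
      simp only [Subgroup.coe_mul, Subgroup.coe_pow, Subgroup.coe_zpow, Subgroup.coe_inv]
      have h11 : r ^ j = s * c * s⁻¹ * c⁻¹ := by rw [h7]; group
      rw [h11, hcX]
      have h12 : s * (κ.1.1 * r ^ i) * s⁻¹ = s * κ.1.1 * s⁻¹ * (s * r ^ i * s⁻¹) := by group
      rw [h12, h9]
      group
    rw [h10]
    exact φ.ker.mul_mem (hinv κ.1 κ.2) (hKn.conj_mem _ (φ.ker.inv_mem κ.2) _)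
  have hmemP : (⟨r, hr⟩ : C) ^ j * (⟨r, hr⟩ : C) ^ i * (⟨r, hr⟩ : C) ^ i ∈ (P : Subgroup C) := by
    rw [hPR]
    exact Subgroup.mul_mem _ (Subgroup.mul_mem _ (Subgroup.pow_mem _ (Subgroup.mem_zpowers _) j)
      (Subgroup.zpow_mem _ (Subgroup.mem_zpowers _) i))
      (Subgroup.zpow_mem _ (Subgroup.mem_zpowers _) i)
  have hone := (Subgroup.disjoint_def.mp hcomp.disjoint) hmem hmemP
  have honeX : r ^ ((j : ℤ) + i + i) = 1 := by
    have h1 := congrArg (fun w : C => (w : X)) hone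
    simp only [Subgroup.coe_mul, Subgroup.coe_pow, Subgroup.coe_zpow, Subgroup.coe_one] at h1
    rw [zpow_add, zpow_add, zpow_natCast]
    exact h1
  have hdvd := orderOf_dvd_iff_zpow_eq_one.mpr honeX
  have h2 : (2 : ℤ) ∣ (orderOf r : ℤ) := by exact_mod_cast even_iff_two_dvd.mp hm2
  obtain ⟨t, ht⟩ := hj
  obtain ⟨w, hw⟩ := h2.trans hdvd
  omega

theorem dk_prod_sq {G : Type*} [Group G] (a b : G) (ha : a * a = 1) (hb : b * b = 1)
    (hab : a * b = b * a) : a * b * (a * b) = 1 := by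
  calc a * b * (a * b) = a * (b * a) * b := by group
    _ = a * (a * b) * b := by rw [hab]
    _ = (a * a) * (b * b) := by group
    _ = 1 := by rw [ha, hb, one_mul]

end General

section Dih

variable {X : Type*} [Group X] [Finite X]

/-- the data of a dihedral subgroup `S = ⟨r, s⟩` of order `8 * n` -/
structure DihData (S : Subgroup X) (r s : X) (n : ℕ) : Prop where
  npos : 0 < n
  r_mem : r ∈ S
  s_mem : s ∈ S
  order_r : orderOf r = 4 * n
  s_sq : s * s = 1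
  s_conj : s * r * s⁻¹ = r⁻¹
  cases : ∀ g ∈ S, (∃ k : ℕ, g = r ^ k) ∨ (∃ k : ℕ, g = s * r ^ k)
  s_not : s ∉ Subgroup.zpowers r

namespace DihData

variable {S : Subgroup X} {r s : X} {n : ℕ} (h : DihData S r s n)

include h

theorem s_inv : s⁻¹ = s := inv_eq_of_mul_eq_one_right h.s_sq

theorem s_conj_pow (k : ℕ) : s * r ^ k * s⁻¹ = (r ^ k)⁻¹ := by
  rw [← conj_pow, h.s_conj, inv_pow]

theorem r_pow_mul_s (k : ℕ) : r ^ k * s = s * (r ^ k)⁻¹ := by
  have h1 := h.s_conj_pow k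
  calc r ^ k * s = s⁻¹ * (s * r ^ k * s⁻¹) * (s * s) := by group
    _ = s * (r ^ k)⁻¹ := by rw [h1, h.s_sq, mul_one, h.s_inv]

theorem refl_sq (k : ℕ) : s * r ^ k * (s * r ^ k) = 1 := by
  calc s * r ^ k * (s * r ^ k) = (s * r ^ k * s⁻¹) * (s * s) * r ^ k := by group
    _ = 1 := by rw [h.s_conj_pow, h.s_sq, mul_one, inv_mul_cancel]

theorem z_sq : r ^ (2 * n) * r ^ (2 * n) = 1 := by
  rw [← pow_add, show 2 * n + 2 * n = 4 * n by ring, ← h.order_r, pow_orderOf_eq_one]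

theorem z_ne_one : r ^ (2 * n) ≠ 1 := by
  have := h.npos
  apply pow_ne_one_of_lt_orderOf
  · omega
  · rw [h.order_r]
    omega

theorem z_inv : (r ^ (2 * n))⁻¹ = r ^ (2 * n) := inv_eq_of_mul_eq_one_right h.z_sq

theorem z_comm_s : r ^ (2 * n) * s = s * r ^ (2 * n) := by
  rw [h.r_pow_mul_s, h.z_inv]

theorem z_comm_refl (k : ℕ) : r ^ (2 * n) * (s * r ^ k) = s * r ^ k * r ^ (2 * n) := by
  rw [← mul_assoc, h.z_comm_s, mul_assoc, mul_assoc, ← pow_add, ← pow_add, add_comm]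

theorem refl_not_rot (k : ℕ) : s * r ^ k ∉ Subgroup.zpowers r := by
  intro hmem
  apply h.s_not
  have h1 : s = s * r ^ k * (r ^ k)⁻¹ := by group
  rw [h1]
  exact Subgroup.mul_mem _ hmem (Subgroup.inv_mem _ (Subgroup.pow_mem _ (Subgroup.mem_zpowers r) k))

theorem refl_ne_one (k : ℕ) : s * r ^ k ≠ 1 := fun h1 =>
  h.refl_not_rot k (h1 ▸ Subgroup.one_mem _)

theorem z_ne_refl (k : ℕ) : r ^ (2 * n) ≠ s * r ^ k := fun h1 =>
  h.refl_not_rot k (h1 ▸ Subgroup.pow_mem _ (Subgroup.mem_zpowers r) _)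

theorem order_v : orderOf (r ^ n) = 4 := by
  rw [orderOf_pow_of_dvd h.npos.ne' (by rw [h.order_r]; exact Dvd.intro_left 4 rfl), h.order_r]
  exact Nat.mul_div_cancel _ h.npos

theorem v_sq : r ^ n * r ^ n = r ^ (2 * n) := by rw [← pow_add, two_mul]

theorem order_four (g : X) (hg : g ∈ S) (h4 : orderOf g = 4) : g = r ^ n ∨ g = (r ^ n)⁻¹ := by
  rcases h.cases g hg with ⟨k, rfl⟩ | ⟨k, rfl⟩
  · have h1 : (r ^ k) ^ 4 = 1 := by
      rw [← h4]
      exact pow_orderOf_eq_one _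
    rw [← pow_mul] at h1
    have h2 := orderOf_dvd_of_pow_eq_one h1
    rw [h.order_r] at h2
    have h3 : n ∣ k := by
      obtain ⟨t, ht⟩ := h2
      refine ⟨t, ?_⟩
      have h5 : 4 * k = 4 * (n * t) := by linarith
      exact Nat.eq_of_mul_eq_mul_left (by norm_num) h5
    obtain ⟨t, rfl⟩ := h3
    rw [pow_mul] at h4 ⊢
    have h5 : (r ^ n) ^ t = (r ^ n) ^ (t % orderOf (r ^ n)) := (pow_mod_orderOf _ _).symm
    rw [h.order_v] at h5
    have ht4 : t % 4 < 4 := Nat.mod_lt _ (by norm_num)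
    have hv4 : (r ^ n) ^ 4 = 1 := by
      rw [← h.order_v]
      exact pow_orderOf_eq_one _
    rw [h5] at h4 ⊢
    obtain ⟨u, hu⟩ : ∃ u, u = t % 4 := ⟨_, rfl⟩
    rw [← hu] at h4 ht4 ⊢
    interval_cases u
    · rw [pow_zero, orderOf_one] at h4
      omega
    · left
      exact pow_one _
    · exfalso
      have h6 : orderOf ((r ^ n) ^ 2) ∣ 2 := by
        apply orderOf_dvd_of_pow_eq_one
        rw [← pow_mul]
        exact hv4
      rw [h4] at h6
      omega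
    · right
      apply eq_inv_of_mul_eq_one_left
      rw [← pow_succ]
      exact hv4
  · exfalso
    have h6 : orderOf (s * r ^ k) ∣ 2 := by
      apply orderOf_dvd_of_pow_eq_one
      rw [pow_two]
      exact h.refl_sq k
    rw [h4] at h6
    omega

theorem invol (g : X) (hg : g ∈ S) (hgg : g * g = 1) (hg1 : g ≠ 1) :
    g = r ^ (2 * n) ∨ ∃ k : ℕ, g = s * r ^ k := by
  rcases h.cases g hg with ⟨k, rfl⟩ | ⟨k, rfl⟩
  · left
    rw [← pow_add] at hgg
    have h2 := orderOf_dvd_of_pow_eq_one hgg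
    rw [h.order_r] at h2
    obtain ⟨t, ht⟩ := h2
    have hk : k = 2 * n * t := by
      have h5 : 2 * k = 2 * (2 * n * t) := by linarith
      exact Nat.eq_of_mul_eq_mul_left (by norm_num) h5
    subst hk
    rw [pow_mul] at hg1 ⊢
    rcases Nat.even_or_odd t with ⟨u, rfl⟩ | ⟨u, rfl⟩
    · exfalso
      apply hg1
      rw [← two_mul, pow_mul, pow_two, h.z_sq, one_pow]
    · rw [pow_succ, pow_mul, pow_two, h.z_sq, one_pow, one_mul]
  · right
    exact ⟨k, rfl⟩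

/-- the four-group `⟨z, s r^k⟩` -/
def four (k : ℕ) : Subgroup X :=
  kc_four (r ^ (2 * n)) (s * r ^ k) h.z_sq (h.refl_sq k) (h.z_comm_refl k)

theorem mem_four (k : ℕ) (x : X) : x ∈ h.four k ↔
    x = 1 ∨ x = r ^ (2 * n) ∨ x = s * r ^ k ∨ x = r ^ (2 * n) * (s * r ^ k) := Iff.rfl

theorem four_sq (k : ℕ) (x : X) (hx : x ∈ h.four k) : x * x = 1 := by
  rcases (h.mem_four k x).mp hx with rfl | rfl | rfl | rfl
  · exact one_mul 1
  · exact h.z_sq
  · exact h.refl_sq k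
  · exact dk_prod_sq _ _ h.z_sq (h.refl_sq k) (h.z_comm_refl k)

theorem four_kf (k : ℕ) : IsKleinFour (h.four k) :=
  kc_isKleinFour _ (kc_card_four _ _ h.z_sq (h.refl_sq k) (h.z_comm_refl k) h.z_ne_one
    (h.refl_ne_one k) (h.z_ne_refl k)) (h.four_sq k)

theorem s_mem_four : s ∈ h.four 0 := by
  rw [h.mem_four]
  right; right; left
  rw [pow_zero, mul_one]

theorem classify (V : Subgroup X) (hVS : V ≤ S) (hV : IsKleinFour V) :
    ∃ k : ℕ, V = h.four k := by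
  classical
  have hfin : Finite V := Nat.finite_of_card_ne_zero (by rw [hV.card_four]; norm_num)
  have : Fintype V := Fintype.ofFinite V
  have h3 : 2 < Fintype.card V := by
    rw [← Nat.card_eq_fintype_card, hV.card_four]
    norm_num
  have hex : ∃ a b : V, a ≠ 1 ∧ b ≠ 1 ∧ a ≠ b := by
    obtain ⟨a, b, c, hab, hac, hbc⟩ := Fintype.two_lt_card_iff.mp h3
    by_cases ha : a = 1
    · subst ha
      exact ⟨b, c, fun h => hab h.symm, fun h => hac h.symm, hbc⟩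
    · by_cases hb : b = 1
      · subst hb
        exact ⟨a, c, ha, fun h => hbc h.symm, hac⟩
      · exact ⟨a, b, ha, hb, hab⟩
  obtain ⟨⟨a, ha⟩, ⟨b, hb⟩, ha1, hb1, hab⟩ := hex
  have ha1' : a ≠ 1 := fun h => ha1 (Subtype.ext h)
  have hb1' : b ≠ 1 := fun h => hb1 (Subtype.ext h)
  have hab' : a ≠ b := fun h => hab (Subtype.ext h)
  have haa := kc_kf_sq V hV a ha
  have hbb := kc_kf_sq V hV b hb
  have key : r ^ (2 * n) ∈ V ∧ ∃ k : ℕ, s * r ^ k ∈ V := by
    rcases h.invol a (hVS ha) haa ha1' with rfl | ⟨k, rfl⟩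
    · rcases h.invol b (hVS hb) hbb hb1' with hbz | ⟨l, rfl⟩
      · exact absurd hbz.symm hab'
      · exact ⟨ha, l, hb⟩
    · rcases h.invol b (hVS hb) hbb hb1' with rfl | ⟨l, rfl⟩
      · exact ⟨hb, k, ha⟩
      · have hab_mem : s * r ^ k * (s * r ^ l) ∈ V := V.mul_mem ha hb
        have hsq := kc_kf_sq V hV _ hab_mem
        have hne : s * r ^ k * (s * r ^ l) ≠ 1 := by
          intro h1
          apply hab'
          rw [eq_inv_of_mul_eq_one_right h1]
          exact (inv_eq_of_mul_eq_one_right (h.refl_sq k)).symm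
        rcases h.invol _ (hVS hab_mem) hsq hne with hz | ⟨j, hj⟩
        · rw [hz] at hab_mem
          exact ⟨hab_mem, k, ha⟩
        · exfalso
          apply h.refl_not_rot j
          rw [← hj]
          have h5 : s * r ^ k * (s * r ^ l) = (r ^ k)⁻¹ * r ^ l := by
            calc s * r ^ k * (s * r ^ l) = (s * r ^ k * s⁻¹) * (s * s) * r ^ l := by group
              _ = (r ^ k)⁻¹ * r ^ l := by rw [h.s_conj_pow, h.s_sq, mul_one]
          rw [h5]
          exact Subgroup.mul_mem _ (Subgroup.inv_mem _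
            (Subgroup.pow_mem _ (Subgroup.mem_zpowers r) k))
            (Subgroup.pow_mem _ (Subgroup.mem_zpowers r) l)
  obtain ⟨hz, k, hk⟩ := key
  refine ⟨k, ?_⟩
  ext x
  rw [kc_kf_mem V hV (r ^ (2 * n)) (s * r ^ k) hz hk h.z_ne_one (h.refl_ne_one k) (h.z_ne_refl k) x,
    h.mem_four]

theorem four_conj (k j : ℕ) :
    (h.four (k + 2 * j)).map (MulAut.conj (r ^ j)).toMonoidHom = h.four k := by
  have hz' : r ^ j * r ^ (2 * n) * (r ^ j)⁻¹ = r ^ (2 * n) := by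
    rw [← pow_add, add_comm, pow_add, mul_inv_cancel_right]
  have hs' : r ^ j * (s * r ^ (k + 2 * j)) * (r ^ j)⁻¹ = s * r ^ k := by
    rw [← mul_assoc, h.r_pow_mul_s, show k + 2 * j = j + k + j by ring, pow_add, pow_add]
    group
  apply Subgroup.eq_of_le_of_card_ge
  · rintro _ ⟨x, hx, rfl⟩
    show r ^ j * x * (r ^ j)⁻¹ ∈ h.four k
    rw [h.mem_four]
    rcases (h.mem_four _ x).mp hx with rfl | rfl | rfl | rfl
    · left
      group
    · right; left
      exact hz'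
    · right; right; left
      exact hs'
    · right; right; right
      rw [← hz', ← hs']
      group
  · rw [Subgroup.card_map_of_injective (MulAut.conj (r ^ j)).injective, (h.four_kf k).card_four,
      (h.four_kf _).card_four]

theorem v_norm (k : ℕ) (u : X) (hu : u ∈ h.four k) : r ^ n * u * (r ^ n)⁻¹ ∈ h.four k := by
  have hz' : r ^ n * r ^ (2 * n) * (r ^ n)⁻¹ = r ^ (2 * n) := by
    rw [← pow_add, add_comm, pow_add, mul_inv_cancel_right]
  have hs' : r ^ n * (s * r ^ k) * (r ^ n)⁻¹ = r ^ (2 * n) * (s * r ^ k) := by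
    rw [h.z_comm_refl, ← h.z_inv, ← h.v_sq, ← mul_assoc, h.r_pow_mul_s]
    have h1 : r ^ k * (r ^ n)⁻¹ = (r ^ n)⁻¹ * r ^ k := by
      rw [eq_inv_mul_iff_mul_eq, ← mul_assoc, ← pow_add, add_comm, pow_add, mul_inv_cancel_right]
    rw [mul_assoc s, mul_assoc s, ← h1]
    group
  rw [h.mem_four]
  rcases (h.mem_four _ u).mp hu with rfl | rfl | rfl | rfl
  · left
    group
  · right; left
    exact hz'
  · right; right; right
    exact hs'
  · right; right; left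
    have h1 : r ^ n * (r ^ (2 * n) * (s * r ^ k)) * (r ^ n)⁻¹
        = (r ^ n * r ^ (2 * n) * (r ^ n)⁻¹) * (r ^ n * (s * r ^ k) * (r ^ n)⁻¹) := by group
    rw [h1, hz', hs', ← mul_assoc, h.z_sq, one_mul]

end DihData

/-- every Klein four-subgroup is conjugate to one of the two standard ones -/
theorem dk_conj_four (S : Sylow 2 X) {r s : X} {n : ℕ} (h : DihData (S : Subgroup X) r s n)
    (V : Subgroup X) (hV : IsKleinFour V) :
    (∃ x : X, V.map (MulAut.conj x).toMonoidHom = h.four 0) ∨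
      (∃ x : X, V.map (MulAut.conj x).toMonoidHom = h.four 1) := by
  have hV2 : IsPGroup 2 V := IsPGroup.of_card (n := 2) (by rw [hV.card_four]; norm_num)
  obtain ⟨y, hy⟩ := dk_conj_into S V hV2
  have hle : V.map (MulAut.conj y⁻¹).toMonoidHom ≤ (S : Subgroup X) := by
    rintro _ ⟨q, hq, rfl⟩
    have h1 := hy q hq
    show y⁻¹ * q * y⁻¹⁻¹ ∈ _
    rwa [inv_inv]
  obtain ⟨k, hk⟩ := h.classify _ hle (kk_conj_kf V hV y⁻¹)
  have hk2 : k % 2 + 2 * (k / 2) = k := Nat.mod_add_div k 2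
  have hconj := h.four_conj (k % 2) (k / 2)
  rw [hk2, ← hk, kk_map_map] at hconj
  rcases Nat.mod_two_eq_zero_or_one k with h0 | h1
  · left
    exact ⟨_, by rw [hconj, h0]⟩
  · right
    exact ⟨_, by rw [hconj, h1]⟩

/-- the two standard Klein four-subgroups are not conjugate -/
theorem dk_not_conj (S : Sylow 2 X) {r s : X} {n : ℕ} (h : DihData (S : Subgroup X) r s n) :
    ¬ ∃ x : X, (h.four 0).map (MulAut.conj x).toMonoidHom = h.four 1 := by
  rintro ⟨x, hx⟩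
  have hxmem : ∀ u ∈ h.four 0, x * u * x⁻¹ ∈ h.four 1 := by
    intro u hu
    rw [← hx]
    exact ⟨u, hu, rfl⟩
  have hxmem' : ∀ w ∈ h.four 1, ∃ u ∈ h.four 0, x * u * x⁻¹ = w := by
    intro w hw
    rw [← hx] at hw
    obtain ⟨u, hu, rfl⟩ := hw
    exact ⟨u, hu, rfl⟩
  have hvN : r ^ n ∈ Subgroup.normalizer ((h.four 1 : Subgroup X) : Set X) :=
    dk_mem_normalizer _ _ (h.v_norm 1)
  have hxvN : x * r ^ n * x⁻¹ ∈ Subgroup.normalizer ((h.four 1 : Subgroup X) : Set X) := by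
    apply dk_mem_normalizer
    intro w hw
    obtain ⟨u, hu, rfl⟩ := hxmem' w hw
    have h1 := hxmem _ (h.v_norm 0 u hu)
    have h2 : x * r ^ n * x⁻¹ * (x * u * x⁻¹) * (x * r ^ n * x⁻¹)⁻¹
        = x * (r ^ n * u * (r ^ n)⁻¹) * x⁻¹ := by group
    rw [h2]
    exact h1
  have hv4 : (r ^ n) ^ 2 ^ 2 = 1 := by
    have h1 : (r ^ n) ^ 4 = 1 := by
      rw [← h.order_v]
      exact pow_orderOf_eq_one _
    exact h1
  have hxv4 : (x * r ^ n * x⁻¹) ^ 2 ^ 2 = 1 := by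
    rw [conj_pow, hv4]
    group
  obtain ⟨m, hmN, Q, hQ, hvQ, hwQ⟩ :=
    dk_sylow_pair _ (r ^ n) (x * r ^ n * x⁻¹) hvN hxvN 2 2 hv4 hxv4
  obtain ⟨y, hy⟩ := dk_conj_into S Q hQ
  have hconj4 : ∀ (g w : X), orderOf w = 4 → orderOf (g * w * g⁻¹) = 4 := by
    intro g w hw
    have h1 := (MulAut.conj g).orderOf_eq w
    rw [MulAut.conj_apply] at h1
    rw [h1, hw]
  have hQ4 : ∀ w ∈ Q, orderOf w = 4 → w = r ^ n ∨ w = (r ^ n)⁻¹ := by
    intro w hw hw4
    have h1 : orderOf (y⁻¹ * r ^ n * y) = 4 := by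
      have h0 := hconj4 y⁻¹ (r ^ n) h.order_v
      rwa [inv_inv] at h0
    have h2 : orderOf (y⁻¹ * w * y) = 4 := by
      have h0 := hconj4 y⁻¹ w hw4
      rwa [inv_inv] at h0
    have h3 := h.order_four _ (hy _ hvQ) h1
    have h4 := h.order_four _ (hy _ hw) h2
    have h5 : y⁻¹ * w * y = y⁻¹ * r ^ n * y ∨ y⁻¹ * w * y = (y⁻¹ * r ^ n * y)⁻¹ := by
      rcases h3 with h3 | h3 <;> rcases h4 with h4 | h4
      · left
        rw [h3, h4]
      · right
        rw [h3, h4]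
      · right
        rw [h3, h4, inv_inv]
      · left
        rw [h3, h4]
    rcases h5 with h5 | h5
    · left
      exact mul_left_cancel (mul_right_cancel h5)
    · right
      have h6 : (y⁻¹ * r ^ n * y)⁻¹ = y⁻¹ * (r ^ n)⁻¹ * y := by group
      rw [h6] at h5
      exact mul_left_cancel (mul_right_cancel h5)
  have hc0 : ∃ c₀ : X, (c₀ * r ^ n * c₀⁻¹ = r ^ n ∨ c₀ * r ^ n * c₀⁻¹ = (r ^ n)⁻¹) ∧
      ∀ u ∈ h.four 0, c₀ * u * c₀⁻¹ ∈ h.four 1 := by
    refine ⟨m * x, ?_, ?_⟩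
    · have h1 : m * x * r ^ n * (m * x)⁻¹ = m * (x * r ^ n * x⁻¹) * m⁻¹ := by group
      rw [h1]
      exact hQ4 _ hwQ (hconj4 m _ (hconj4 x _ h.order_v))
    · intro u hu
      have h1 : m * x * u * (m * x)⁻¹ = m * (x * u * x⁻¹) * m⁻¹ := by group
      rw [h1]
      exact ((Subgroup.mem_normalizer_iff.mp hmN) _).mp (hxmem u hu)
  obtain ⟨c₀, hc₀v, hc₀U⟩ := hc0
  obtain ⟨c, hcv, hcU⟩ : ∃ c : X, c * r ^ n * c⁻¹ = r ^ n ∧
      ∀ u ∈ h.four 0, c * u * c⁻¹ ∈ h.four 1 := by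
    rcases hc₀v with h1 | h1
    · exact ⟨c₀, h1, hc₀U⟩
    · refine ⟨c₀ * s, ?_, ?_⟩
      · have h2 : c₀ * s * r ^ n * (c₀ * s)⁻¹ = c₀ * (s * r ^ n * s⁻¹) * c₀⁻¹ := by group
        rw [h2, h.s_conj_pow]
        have h3 : c₀ * (r ^ n)⁻¹ * c₀⁻¹ = (c₀ * r ^ n * c₀⁻¹)⁻¹ := by group
        rw [h3, h1, inv_inv]
      · intro u hu
        have h2 : c₀ * s * u * (c₀ * s)⁻¹ = c₀ * (s * u * s⁻¹) * c₀⁻¹ := by group
        rw [h2]
        apply hc₀U
        exact (h.four 0).mul_mem ((h.four 0).mul_mem h.s_mem_four hu)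
          ((h.four 0).inv_mem h.s_mem_four)
  have hcs := hcU s h.s_mem_four
  rw [h.mem_four] at hcs
  have hcz : c * r ^ (2 * n) * c⁻¹ = r ^ (2 * n) := by
    rw [← h.v_sq]
    have h1 : c * (r ^ n * r ^ n) * c⁻¹ = (c * r ^ n * c⁻¹) * (c * r ^ n * c⁻¹) := by group
    rw [h1, hcv]
  obtain ⟨j, hj, hcsj⟩ : ∃ j : ℕ, Odd j ∧ c * s * c⁻¹ = s * r ^ j := by
    rcases hcs with h1 | h1 | h1 | h1
    · exfalso
      apply h.s_not
      have h2 : s = c⁻¹ * (c * s * c⁻¹) * c := by group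
      rw [h2, h1]
      simp
    · exfalso
      apply h.s_not
      have h2 : s = r ^ (2 * n) := by
        rw [← hcz] at h1
        exact mul_left_cancel (mul_right_cancel h1)
      rw [h2]
      exact Subgroup.pow_mem _ (Subgroup.mem_zpowers r) _
    · exact ⟨1, odd_one, h1⟩
    · refine ⟨2 * n + 1, ⟨n, rfl⟩, ?_⟩
      rw [h1, ← mul_assoc, h.z_comm_s, mul_assoc, ← pow_add]
  obtain ⟨k, hk⟩ := S.isPGroup' ⟨r, h.r_mem⟩
  have hrk : r ^ 2 ^ k = 1 := by
    have h1 := congrArg Subtype.val hk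
    simpa using h1
  have hvinv : r ^ n ≠ (r ^ n)⁻¹ := by
    intro h1
    have h2 : (r ^ n) ^ 2 = 1 := by
      rw [pow_two]
      nth_rewrite 2 [h1]
      exact mul_inv_cancel _
    have h3 := orderOf_dvd_of_pow_eq_one h2
    rw [h.order_v] at h3
    omega
  refine dk_transfer (Subgroup.centralizer {r ^ n}) r s c j k ?_ ?_ hrk ?_ h.s_sq h.s_conj ?_ ?_
    hcsj hj
  · rw [Subgroup.mem_centralizer_singleton_iff, ← pow_succ, ← pow_succ']
  · rw [h.order_r]
    exact ⟨2 * n, by ring⟩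
  · intro Q' hQ' hle hQC
    obtain ⟨y', hy'⟩ := dk_conj_into S Q' hQ'
    have hvQ' : r ^ n ∈ Q' := hle (Subgroup.pow_mem _ (Subgroup.mem_zpowers r) n)
    have h1 : orderOf (y'⁻¹ * r ^ n * y') = 4 := by
      have h0 := hconj4 y'⁻¹ (r ^ n) h.order_v
      rwa [inv_inv] at h0
    have h3 := h.order_four _ (hy' _ hvQ') h1
    have hall : ∀ q ∈ Q', y'⁻¹ * q * y' ∈ Subgroup.zpowers r := by
      intro q hq
      have hqv : q * r ^ n = r ^ n * q := Subgroup.mem_centralizer_singleton_iff.mp (hQC hq)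
      have hqv' : (y'⁻¹ * q * y') * (y'⁻¹ * r ^ n * y') = (y'⁻¹ * r ^ n * y') * (y'⁻¹ * q * y') := by
        calc (y'⁻¹ * q * y') * (y'⁻¹ * r ^ n * y') = y'⁻¹ * (q * r ^ n) * y' := by group
          _ = y'⁻¹ * (r ^ n * q) * y' := by rw [hqv]
          _ = (y'⁻¹ * r ^ n * y') * (y'⁻¹ * q * y') := by group
      have hqv'' : (y'⁻¹ * q * y') * r ^ n = r ^ n * (y'⁻¹ * q * y') := by
        rcases h3 with h3 | h3
        · rw [h3] at hqv'
          exact hqv'
        · rw [h3] at hqv'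
          have h4 : ∀ g : X, g * (r ^ n)⁻¹ = (r ^ n)⁻¹ * g → g * r ^ n = r ^ n * g := by
            intro g hg
            calc g * r ^ n = r ^ n * ((r ^ n)⁻¹ * g) * r ^ n := by group
              _ = r ^ n * (g * (r ^ n)⁻¹) * r ^ n := by rw [hg]
              _ = r ^ n * g := by group
          exact h4 _ hqv'
      rcases h.cases _ (hy' q hq) with ⟨l, hl⟩ | ⟨l, hl⟩
      · rw [hl]
        exact Subgroup.pow_mem _ (Subgroup.mem_zpowers r) l
      · exfalso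
        rw [hl] at hqv''
        apply hvinv
        have h5 : s * r ^ l * r ^ n = s * (r ^ n)⁻¹ * r ^ l := by
          rw [hqv'', ← mul_assoc, h.r_pow_mul_s]
        have h6 : r ^ l * r ^ n = (r ^ n)⁻¹ * r ^ l := by
          have h7 : s * (r ^ l * r ^ n) = s * ((r ^ n)⁻¹ * r ^ l) := by
            rw [← mul_assoc, ← mul_assoc]
            exact h5
          exact mul_left_cancel h7
        have h8 : r ^ l * r ^ n = r ^ n * r ^ l := by rw [← pow_add, ← pow_add, add_comm]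
        rw [h8] at h6
        exact mul_right_cancel h6
    symm
    apply Subgroup.eq_of_le_of_card_ge hle
    apply Nat.card_le_card_of_injective
      (fun q : Q' => (⟨y'⁻¹ * q.1 * y', hall q.1 q.2⟩ : Subgroup.zpowers r))
    intro q₁ q₂ h12
    have h9 : y'⁻¹ * q₁.1 * y' = y'⁻¹ * q₂.1 * y' := congrArg Subtype.val h12
    exact Subtype.ext (mul_left_cancel (mul_right_cancel h9))
  · intro g hg
    rw [Subgroup.mem_centralizer_singleton_iff] at hg ⊢
    have h1 : s * (r ^ n)⁻¹ * s⁻¹ = r ^ n := by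
      have h2 : s * (r ^ n)⁻¹ * s⁻¹ = (s * r ^ n * s⁻¹)⁻¹ := by group
      rw [h2, h.s_conj_pow, inv_inv]
    have h3 : g * (r ^ n)⁻¹ = (r ^ n)⁻¹ * g := by
      calc g * (r ^ n)⁻¹ = (r ^ n)⁻¹ * (r ^ n * g) * (r ^ n)⁻¹ := by group
        _ = (r ^ n)⁻¹ * (g * r ^ n) * (r ^ n)⁻¹ := by rw [hg]
        _ = (r ^ n)⁻¹ * g := by group
    calc s * g * s⁻¹ * r ^ n = s * g * s⁻¹ * (s * (r ^ n)⁻¹ * s⁻¹) := by rw [h1]
      _ = s * (g * (r ^ n)⁻¹) * s⁻¹ := by group
      _ = s * ((r ^ n)⁻¹ * g) * s⁻¹ := by rw [h3]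
      _ = (s * (r ^ n)⁻¹ * s⁻¹) * (s * g * s⁻¹) := by group
      _ = r ^ n * (s * g * s⁻¹) := by rw [h1]
  · rw [Subgroup.mem_centralizer_singleton_iff]
    calc c * r ^ n = (c * r ^ n * c⁻¹) * c := by group
      _ = r ^ n * c := by rw [hcv]

/-- dihedral data from an isomorphism with `DihedralGroup (4 * n)` -/
theorem dk_data (S : Subgroup X) (n : ℕ) (hn : 0 < n) (eS : S ≃* DihedralGroup (4 * n)) :
    DihData S (eS.symm (DihedralGroup.r 1) : X) (eS.symm (DihedralGroup.sr 0) : X) n := by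
  have hne : NeZero (4 * n) := ⟨by omega⟩
  refine ⟨hn, (eS.symm _).2, (eS.symm _).2, ?_, ?_, ?_, ?_, ?_⟩
  · rw [Subgroup.orderOf_coe, MulEquiv.orderOf_eq, DihedralGroup.orderOf_r_one]
  · rw [← Subgroup.coe_mul, ← map_mul, DihedralGroup.sr_mul_self, map_one, Subgroup.coe_one]
  · have h1 : eS.symm (DihedralGroup.sr 0) * eS.symm (DihedralGroup.r 1)
        * (eS.symm (DihedralGroup.sr 0))⁻¹ = (eS.symm (DihedralGroup.r 1))⁻¹ := by
      rw [← map_mul, ← map_inv, ← map_mul, ← map_inv]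
      congr 1
      rw [inv_eq_of_mul_eq_one_right (DihedralGroup.sr_mul_self (0 : ZMod (4 * n))),
        DihedralGroup.sr_mul_r, DihedralGroup.sr_mul_sr]
      symm
      apply inv_eq_of_mul_eq_one_right
      rw [DihedralGroup.r_mul_r, DihedralGroup.one_def]
      congr 1
      ring
    have h2 := congrArg Subtype.val h1
    simpa using h2
  · intro g hg
    rcases hcase : eS ⟨g, hg⟩ with i | i
    · left
      refine ⟨i.val, ?_⟩
      have h1 : (⟨g, hg⟩ : S) = eS.symm (DihedralGroup.r 1) ^ i.val := by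
        rw [← map_pow, DihedralGroup.r_one_pow, ZMod.natCast_zmod_val, ← hcase,
          eS.symm_apply_apply]
      have h2 := congrArg Subtype.val h1
      simpa using h2
    · right
      refine ⟨i.val, ?_⟩
      have h1 : (⟨g, hg⟩ : S)
          = eS.symm (DihedralGroup.sr 0) * eS.symm (DihedralGroup.r 1) ^ i.val := by
        rw [← map_pow, ← map_mul, DihedralGroup.r_one_pow, DihedralGroup.sr_mul_r, zero_add,
          ZMod.natCast_zmod_val, ← hcase, eS.symm_apply_apply]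
      have h2 := congrArg Subtype.val h1
      simpa using h2
  · intro hmem
    obtain ⟨k, hk⟩ := Subgroup.mem_zpowers_iff.mp hmem
    have h1 : eS.symm (DihedralGroup.r 1) ^ k = eS.symm (DihedralGroup.sr 0) := by
      apply Subtype.ext
      rw [Subgroup.coe_zpow]
      exact hk
    rw [← map_zpow, DihedralGroup.r_one_zpow] at h1
    have h2 := eS.symm.injective h1
    exact absurd h2 (by simp)

/-- classes of Klein four-subgroups in a group with dihedral Sylow 2-subgroups -/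
theorem dk_main (S : Sylow 2 X) (m : ℕ) (eS : (S : Subgroup X) ≃* DihedralGroup m) :
    (Nat.card S = 4 → ∀ U V : Subgroup X, IsKleinFour U → IsKleinFour V →
      (∃ x : X, U.map (MulAut.conj x).toMonoidHom = V)) ∧
    (4 < Nat.card S → ∃ U₁ U₂ : Subgroup X, IsKleinFour U₁ ∧ IsKleinFour U₂ ∧
      ¬ (∃ x : X, U₁.map (MulAut.conj x).toMonoidHom = U₂) ∧
      ∀ V : Subgroup X, IsKleinFour V → (∃ x : X, V.map (MulAut.conj x).toMonoidHom = U₁) ∨
        (∃ x : X, V.map (MulAut.conj x).toMonoidHom = U₂)) := by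
  have : Fact (Nat.Prime 2) := ⟨Nat.prime_two⟩
  constructor
  · intro h4 U V hU hV
    have hp : ∀ W : Subgroup X, IsKleinFour W → ∃ P : Sylow 2 X, W = P := by
      intro W hW
      have hW2 : IsPGroup 2 W := IsPGroup.of_card (n := 2) (by rw [hW.card_four]; norm_num)
      obtain ⟨P, hP⟩ := hW2.exists_le_sylow
      refine ⟨P, Subgroup.eq_of_le_of_card_ge hP ?_⟩
      have h1 : Nat.card (P : Subgroup X) = Nat.card (S : Subgroup X) := by
        rw [Sylow.card_eq_multiplicity, Sylow.card_eq_multiplicity]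
      rw [hW.card_four, h1]
      exact h4.le
    obtain ⟨P, rfl⟩ := hp U hU
    obtain ⟨Q, rfl⟩ := hp V hV
    obtain ⟨g, hg⟩ := MulAction.exists_smul_eq X P Q
    exact ⟨g, by rw [← hg]; rfl⟩
  · intro h4
    have hcard : Nat.card (S : Subgroup X) = 2 * m := by
      rw [Nat.card_congr eS.toEquiv, DihedralGroup.nat_card]
    obtain ⟨e, he⟩ := (IsPGroup.iff_card).mp S.isPGroup'
    have h4' : 4 < Nat.card (S : Subgroup X) := h4
    obtain ⟨n, hn, rfl⟩ : ∃ n, 0 < n ∧ m = 4 * n := by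
      rw [hcard] at he h4'
      rcases e with _ | _ | _ | e
      · omega
      · omega
      · omega
      · refine ⟨2 ^ e, by positivity, ?_⟩
        rw [pow_succ, pow_succ, pow_succ] at he
        omega
    have hd := dk_data (S : Subgroup X) n hn eS
    exact ⟨hd.four 0, hd.four 1, hd.four_kf 0, hd.four_kf 1, dk_not_conj S hd,
      fun V hV => dk_conj_four S hd V hV⟩

end Dih

end Cfsg.Agent.Helper18.DihKlein
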