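import Mathlib

set_option autoImplicit false

namespace Cfsg.Agent.Helper18.F3Mod

variable {F : Type*} [Field F] {V : Type*} [AddCommGroup V] [Module F V] [FiniteDimensional F V]

/-- an endomorphism squaring to `-1` forces even dimension when `-1` is a non-square -/
theorem even_finrank_of_sq_neg_one (hF : ∀ a : F, a * a ≠ -1)
    (j : Module.End F V) (hj : j * j = -1) : Even (Module.finrank F V) := by
  by_contra hodd
  rw [Nat.not_even_iff_odd] at hodd
  have h1 : LinearMap.det (j * j) = LinearMap.det j * LinearMap.det j := by
    rw [map_mul]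
  have h2 : LinearMap.det (-1 : Module.End F V) = (-1 : F) ^ Module.finrank F V := by
    have : (-1 : Module.End F V) = (-1 : F) • (1 : Module.End F V) := by simp
    rw [this, LinearMap.det_smul]; simp
  rw [hj, h2, hodd.neg_one_pow] at h1
  exact hF _ h1.symm

/-- invariant submodule version -/
theorem even_finrank_of_invariant (hF : ∀ a : F, a * a ≠ -1)
    (j : Module.End F V) (hj : j * j = -1) (W : Submodule F V) (hW : ∀ v ∈ W, j v ∈ W) :
    Even (Module.finrank F W) := by
  apply even_finrank_of_sq_neg_one hF (j.restrict hW)
  ext v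
  have := congrArg (fun f : Module.End F V => f v.1) hj
  simpa using this

theorem finrank_ker_eq_two (hF : ∀ a : F, a * a ≠ -1) (h3 : (3 : F) = 0)
    (hV : Module.finrank F V = 4)
    (u j : Module.End F V) (hu : u * u * u = 1) (hu1 : u ≠ 1) (hj : j * j = -1)
    (huj : u * j * u = j) :
    Module.finrank F (LinearMap.ker (u - 1)) = 2 := by
  have hW : ∀ v ∈ LinearMap.ker (u - 1), j v ∈ LinearMap.ker (u - 1) := by
    intro v hv
    rw [LinearMap.mem_ker, LinearMap.sub_apply, sub_eq_zero] at hv ⊢
    have := congrArg (fun f : Module.End F V => f v) huj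
    simp only [Module.End.mul_apply] at this
    rw [hv] at this
    simpa using this
  have heven := even_finrank_of_invariant hF j hj _ hW
  have hcube : (u - 1) * (u - 1) * (u - 1) = 0 := by
    have h3' : (3 : Module.End F V) = 0 := by
      have : (3 : Module.End F V) = (3 : F) • (1 : Module.End F V) := by
        rw [ofNat_smul_eq_nsmul]; simp
      rw [this, h3, zero_smul]
    have : (u - 1) * (u - 1) * (u - 1) = u * u * u - 1 - 3 * (u * u) + 3 * u := by noncomm_ring
    rw [this, hu, h3']; simp
  have hne_bot : LinearMap.ker (u - 1) ≠ ⊥ := by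
    intro hbot
    have hinj : Function.Injective ⇑(u - 1) := LinearMap.ker_eq_bot.mp hbot
    have hinj3 : Function.Injective ⇑((u - 1) * (u - 1) * (u - 1)) := by
      intro a b hab
      simp only [Module.End.mul_apply] at hab
      exact hinj (hinj (hinj hab))
    rw [hcube] at hinj3
    have : Subsingleton V := ⟨fun a b => hinj3 (by simp)⟩
    have := Module.finrank_zero_of_subsingleton (R := F) (M := V)
    omega
  have hne_top : LinearMap.ker (u - 1) ≠ ⊤ := by
    intro htop
    apply hu1
    ext v
    have : v ∈ LinearMap.ker (u - 1) := by rw [htop]; trivial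
    rw [LinearMap.mem_ker, LinearMap.sub_apply, sub_eq_zero] at this
    simpa using this
  have hlt := Submodule.finrank_lt hne_top
  have hpos := Submodule.one_le_finrank_iff.mpr hne_bot
  rw [hV] at hlt
  obtain ⟨k, hk⟩ := heven
  omega

theorem isotropic_of_invariant (hF : ∀ a : F, a * a ≠ -1) (h3 : (3 : F) = 0)
    (hV : Module.finrank F V = 4)
    (u j : Module.End F V) (hu : u * u * u = 1) (hu1 : u ≠ 1) (hj : j * j = -1)
    (huj : u * j * u = j) (B : V →ₗ[F] V →ₗ[F] F)
    (hBu : ∀ v w, B (u v) (u w) = B v w) (hBj : ∀ v w, B (j v) (j w) = B v w)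
    (v w : V) (hv : u v = v) (hw : u w = w) : B v w = 0 := by
  have h2 := finrank_ker_eq_two hF h3 hV u j hu hu1 hj huj
  have hWj : ∀ v, u v = v → u (j v) = j v := by
    intro v hv
    have := congrArg (fun f : Module.End F V => f v) huj
    simp only [Module.End.mul_apply] at this
    rw [hv] at this
    exact this
  have hjj : ∀ v, j (j v) = -v := by
    intro v
    have := congrArg (fun f : Module.End F V => f v) hj
    simpa using this
  -- the radical
  let R : Submodule F V :=
    { carrier := {v | u v = v ∧ ∀ w, u w = w → B v w = 0}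
      add_mem' := by
        rintro a b ⟨ha, ha'⟩ ⟨hb, hb'⟩
        refine ⟨by rw [map_add, ha, hb], fun w hw => ?_⟩
        rw [map_add, LinearMap.add_apply, ha' w hw, hb' w hw, add_zero]
      zero_mem' := ⟨map_zero _, fun w _ => by simp⟩
      smul_mem' := by
        rintro c a ⟨ha, ha'⟩
        refine ⟨by rw [map_smul, ha], fun w hw => ?_⟩
        rw [map_smul, LinearMap.smul_apply, ha' w hw, smul_zero] }
  have hRle : R ≤ LinearMap.ker (u - 1) := by
    intro a ha
    rw [LinearMap.mem_ker, LinearMap.sub_apply, sub_eq_zero]
    simpa using ha.1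
  have hRj : ∀ v ∈ R, j v ∈ R := by
    rintro a ⟨ha, ha'⟩
    refine ⟨hWj a ha, fun w hw => ?_⟩
    have e1 : w = j (-(j w)) := by rw [map_neg, hjj, neg_neg]
    rw [e1, hBj, map_neg, ha' _ (hWj w hw), neg_zero]
  have heven := even_finrank_of_invariant hF j hj R hRj
  -- the image of `u - 1` is orthogonal to fixed vectors
  have horth : ∀ a w, u w = w → B (u a - a) w = 0 := by
    intro a w hw
    rw [map_sub, LinearMap.sub_apply]
    nth_rewrite 1 [← hw]
    rw [hBu, sub_self]
  have hcube : ∀ a, u (u (u a)) = a := by
    intro a
    have := congrArg (fun f : Module.End F V => f a) hu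
    simpa using this
  have hRne : R ≠ ⊥ := by
    have : ∃ a, u a ≠ a := by
      by_contra hcon
      push Not at hcon
      apply hu1
      ext a
      simpa using hcon a
    obtain ⟨a, ha⟩ := this
    intro hbot
    by_cases hb : u (u a - a) = u a - a
    · have : u a - a ∈ R := ⟨hb, fun w hw => horth a w hw⟩
      rw [hbot, Submodule.mem_bot, sub_eq_zero] at this
      exact ha this
    · have hc : u (u (u a - a) - (u a - a)) = u (u a - a) - (u a - a) := by
        have key : ∀ x : V, x + x + x = 0 := by
          intro x
          have : (3 : F) • x = 0 := by rw [h3, zero_smul]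
          rw [← this, show (3 : F) = 1 + 1 + 1 by norm_num, add_smul, add_smul, one_smul]
        simp only [map_sub, hcube]
        have e : a - u (u a) - (u (u a) - u a) - (u (u a) - u a - (u a - a))
            = (u a + u a + u a) - (u (u a) + u (u a) + u (u a)) := by abel
        rw [← sub_eq_zero, e, key, key, sub_zero]
      have : u (u a - a) - (u a - a) ∈ R := ⟨hc, fun w hw => horth _ w hw⟩
      rw [hbot, Submodule.mem_bot, sub_eq_zero] at this
      exact hb this
  have hpos := Submodule.one_le_finrank_iff.mpr hRne
  have hle := Submodule.finrank_mono hRle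
  have hReq : R = LinearMap.ker (u - 1) := by
    apply Submodule.eq_of_le_of_finrank_le hRle
    obtain ⟨k, hk⟩ := heven
    omega
  have hvR : v ∈ R := by
    rw [hReq, LinearMap.mem_ker, LinearMap.sub_apply, sub_eq_zero]
    simpa using hv
  exact hvR.2 w hw

omit [FiniteDimensional F V] in
/-- fixed points of an endomorphism of `p`-power order, counted modulo `p` -/
theorem card_modEq_card_ker [Finite V] (u : Module.End F V) (p : ℕ) [Fact p.Prime]
    (hu : u ^ p = 1) : Nat.card V ≡ Nat.card (LinearMap.ker (u - 1)) [MOD p] := by
  classical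
  let _ : Fintype V := Fintype.ofFinite V
  let f : Function.End V := ⇑u
  have hf : f ^ p ^ 1 = 1 := by
    rw [pow_one]
    funext v
    have h1 : (f ^ p) v = (⇑u)^[p] v := by
      have := hom_coe_pow (fun g : Function.End V ↦ g) rfl (fun g h ↦ rfl) f p
      exact congrFun this v
    rw [h1, ← Module.End.pow_apply, hu]; rfl
  have key := Equiv.Perm.card_fixedPoints_modEq (p := p) (n := 1) hf
  rw [← Nat.card_eq_fintype_card, ← Nat.card_eq_fintype_card] at key
  have e : Nat.card (Function.fixedPoints f) = Nat.card (LinearMap.ker (u - 1)) := by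
    apply Nat.card_congr
    apply Equiv.subtypeEquivRight
    intro v
    rw [LinearMap.mem_ker, LinearMap.sub_apply, sub_eq_zero]
    simp [Function.IsFixedPt, f]
  rw [← e]; exact key

theorem eq_neg_one_of_comm [Fintype F] (hF : Fintype.card F = 3)
    (hV : Module.finrank F V = 4)
    (u m : Module.End F V) (hu : u ^ 5 = 1) (hu1 : u ≠ 1) (hm : m * m = 1) (hm1 : m ≠ 1)
    (hcomm : m * u = u * m) : m = -1 := by
  have : Fact (Nat.Prime 5) := ⟨by norm_num⟩
  have : Finite V := Module.finite_of_finite F
  have hcardF : Nat.card F = 3 := by rw [Nat.card_eq_fintype_card, hF]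
  have hcardV : Nat.card V = 81 := by
    rw [Module.natCard_eq_pow_finrank (K := F), hcardF, hV]; norm_num
  -- no fixed vectors for `u`
  have hK : LinearMap.ker (u - 1) = ⊥ := by
    have h1 := card_modEq_card_ker u 5 hu
    rw [hcardV, Module.natCard_eq_pow_finrank (K := F), hcardF] at h1
    have hle : Module.finrank F (LinearMap.ker (u - 1)) ≤ 4 := by
      rw [← hV]; exact Submodule.finrank_le _
    have h04 : Module.finrank F (LinearMap.ker (u - 1)) = 0 ∨
        Module.finrank F (LinearMap.ker (u - 1)) = 4 := by
      generalize Module.finrank F (LinearMap.ker (u - 1)) = e at h1 hle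
      interval_cases e <;> simp_all [Nat.ModEq]
    rcases h04 with h0 | h4
    · exact Submodule.finrank_eq_zero.mp h0
    · exfalso
      apply hu1
      have htop : LinearMap.ker (u - 1) = ⊤ := Submodule.eq_top_of_finrank_eq (by rw [h4, hV])
      ext v
      have : v ∈ LinearMap.ker (u - 1) := by rw [htop]; trivial
      rw [LinearMap.mem_ker, LinearMap.sub_apply, sub_eq_zero] at this
      simpa using this
  have hWinv : ∀ v ∈ LinearMap.ker (m - 1), u v ∈ LinearMap.ker (m - 1) := by
    intro v hv
    rw [LinearMap.mem_ker, LinearMap.sub_apply, sub_eq_zero] at hv ⊢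
    have := congrArg (fun f : Module.End F V => f v) hcomm
    simp only [Module.End.mul_apply] at this
    rw [this]
    simp only [Module.End.one_apply] at hv ⊢
    rw [hv]
  have hu5 : ∀ v, u (u (u (u (u v)))) = v := by
    intro v
    have := congrArg (fun f : Module.End F V => f v) hu
    simpa [pow_succ] using this
  have hu' : (u.restrict hWinv) ^ 5 = 1 := by
    ext w
    simp [pow_succ, hu5]
  have hK' : LinearMap.ker (u.restrict hWinv - 1) = ⊥ := by
    rw [Submodule.eq_bot_iff]
    intro w hw
    rw [LinearMap.mem_ker, LinearMap.sub_apply, sub_eq_zero] at hw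
    have h1 : u w.1 = w.1 := by
      have := congrArg Subtype.val hw
      simpa using this
    have h2 : w.1 ∈ LinearMap.ker (u - 1) := by
      rw [LinearMap.mem_ker, LinearMap.sub_apply, sub_eq_zero]; simpa using h1
    rw [hK, Submodule.mem_bot] at h2
    exact Subtype.ext h2
  have hW : LinearMap.ker (m - 1) = ⊥ := by
    have h1 := card_modEq_card_ker (u.restrict hWinv) 5 hu'
    rw [hK', Module.natCard_eq_pow_finrank (K := F), hcardF] at h1
    have hle : Module.finrank F (LinearMap.ker (m - 1)) ≤ 4 := by
      rw [← hV]; exact Submodule.finrank_le _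
    have h04 : Module.finrank F (LinearMap.ker (m - 1)) = 0 ∨
        Module.finrank F (LinearMap.ker (m - 1)) = 4 := by
      generalize Module.finrank F (LinearMap.ker (m - 1)) = e at h1 hle
      interval_cases e <;> simp_all [Nat.ModEq]
    rcases h04 with h0 | h4
    · exact Submodule.finrank_eq_zero.mp h0
    · exfalso
      apply hm1
      have htop : LinearMap.ker (m - 1) = ⊤ := Submodule.eq_top_of_finrank_eq (by rw [h4, hV])
      ext v
      have : v ∈ LinearMap.ker (m - 1) := by rw [htop]; trivial
      rw [LinearMap.mem_ker, LinearMap.sub_apply, sub_eq_zero] at this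
      simpa using this
  ext v
  have h1 : m (m v + v) = m v + v := by
    have := congrArg (fun f : Module.End F V => f v) hm
    simp only [Module.End.mul_apply, Module.End.one_apply] at this
    rw [map_add, this, add_comm]
  have h2 : m v + v ∈ LinearMap.ker (m - 1) := by
    rw [LinearMap.mem_ker, LinearMap.sub_apply, sub_eq_zero]; simpa using h1
  rw [hW, Submodule.mem_bot] at h2
  simp only [LinearMap.neg_apply, Module.End.one_apply]
  exact eq_neg_of_add_eq_zero_left h2

end Cfsg.Agent.Helper18.F3Mod
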