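import Mathlib
import Cfsg.Prelude.Def_GeometricClasses

set_option autoImplicit false

namespace Cfsg.Agent.Helper18.FieldNorm

open Matrix

theorem exists_gen (R : Type*) [CommRing R] [Finite R] [Nontrivial R]
    (hinv : ∀ x : R, x ≠ 0 → ∃ y, x * y = 1) :
    ∃ z : R, z ≠ 0 ∧ ∀ m : ℕ, z ^ m = 1 ↔ (Nat.card R - 1) ∣ m := by
  classical
  have : NoZeroDivisors R := ⟨fun {a b} hab => by
    by_contra hcon
    push Not at hcon
    obtain ⟨y, hy⟩ := hinv a hcon.1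
    have hb : b = 0 := by
      calc b = (a * y) * b := by rw [hy, one_mul]
        _ = y * (a * b) := by ring
        _ = 0 := by rw [hab, mul_zero]
    exact hcon.2 hb⟩
  have : IsDomain R := NoZeroDivisors.to_isDomain R
  obtain ⟨g, hg⟩ := IsCyclic.exists_generator (α := Rˣ)
  have hord : orderOf g = Nat.card Rˣ := orderOf_eq_card_of_forall_mem_zpowers hg
  have hcard : Nat.card Rˣ = Nat.card R - 1 := by
    have e : Rˣ ≃ {x : R // x ≠ 0} := Equiv.ofBijective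
      (fun u : Rˣ => (⟨u.1, u.ne_zero⟩ : {x : R // x ≠ 0}))
      ⟨fun u v h => Units.ext (congrArg Subtype.val h), fun x => by
        obtain ⟨y, hy⟩ := hinv x.1 x.2
        have hu : IsUnit x.1 := IsUnit.of_mul_eq_one y hy
        exact ⟨hu.unit, Subtype.ext (IsUnit.unit_spec hu)⟩⟩
    have h1 : Nat.card R = Nat.card {x : R // x ≠ 0} + 1 := by
      rw [← Nat.card_congr (Equiv.optionSubtypeNe (0 : R)), Finite.card_option]
    rw [Nat.card_congr e, h1, Nat.add_sub_cancel]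
  refine ⟨(g : R), g.ne_zero, fun m => ?_⟩
  rw [← hcard, ← hord, orderOf_dvd_iff_pow_eq_one]
  constructor
  · intro h
    exact Units.ext (by rw [Units.val_pow_eq_pow_val, h, Units.val_one])
  · intro h
    have h' := congrArg Units.val h
    rw [Units.val_pow_eq_pow_val, Units.val_one] at h'
    exact h'

variable {F : Type*} [Field F] {n : ℕ}

theorem exists_elts [Fintype F] (K : Subalgebra F (Matrix (Fin n) (Fin n) F)) (r : ℕ)
    (hK : Cfsg.Geo.IsFieldSubalgebra r K) (hn : 0 < n) (a : ℕ) (ha2 : 2 ≤ a) (har : a < r)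
    (hdvd : a ∣ r) :
    ∃ x0 ∈ K, x0 ^ (Fintype.card F ^ a) = x0 ∧
      (∀ c : F, x0 ≠ c • (1 : Matrix (Fin n) (Fin n) F)) ∧
      ∃ y0 ∈ K, y0 ≠ 0 ∧ y0 ^ (Fintype.card F ^ a) ≠ y0 := by
  classical
  have : Nonempty (Fin n) := ⟨⟨0, hn⟩⟩
  have : Nontrivial ↥K := ⟨⟨0, 1, fun h => by
    have h' : (0 : Matrix (Fin n) (Fin n) F) = 1 := congrArg Subtype.val h
    exact zero_ne_one h'⟩⟩
  have : Fintype ↥K := Fintype.ofFinite _
  have hcardK : Nat.card ↥K = Fintype.card F ^ r := by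
    rw [Nat.card_eq_fintype_card, Module.card_eq_pow_finrank (K := F) (V := ↥K), hK.finrank_eq]
  let cr : CommRing ↥K :=
    { (inferInstance : Ring ↥K) with mul_comm := fun x y => Subtype.ext (hK.comm x x.2 y y.2) }
  have hinv : ∀ x : ↥K, x ≠ 0 → ∃ y, x * y = 1 := by
    intro x hx
    obtain ⟨y, hy, hxy⟩ := hK.inv x x.2 (fun h => hx (Subtype.ext h))
    exact ⟨⟨y, hy⟩, Subtype.ext hxy⟩
  obtain ⟨z, hz0, hz⟩ := exists_gen ↥K hinv
  rw [hcardK] at hz
  have hq2 : 2 ≤ Fintype.card F := Fintype.one_lt_card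
  obtain ⟨q, hq⟩ : ∃ q, q = Fintype.card F := ⟨_, rfl⟩
  rw [← hq] at hz hq2 ⊢
  have hzM : ∀ m : ℕ, (z : Matrix (Fin n) (Fin n) F) ^ m = 1 ↔ (q ^ r - 1) ∣ m := by
    intro m
    rw [← hz m]
    constructor
    · intro h
      exact Subtype.ext h
    · intro h
      exact congrArg Subtype.val h
  have hz0' : (z : Matrix (Fin n) (Fin n) F) ≠ 0 := fun h => hz0 (Subtype.ext h)
  obtain ⟨zi, hzi, hzzi⟩ := hK.inv z z.2 hz0'
  have hziz : zi * (z : Matrix (Fin n) (Fin n) F) = 1 := by rw [hK.comm zi hzi z z.2, hzzi]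
  have hd : (q ^ a - 1) ∣ (q ^ r - 1) := by
    simpa using Nat.pow_sub_pow_dvd_pow_sub_pow (x := q) (y := 1) hdvd
  obtain ⟨e, he⟩ := hd
  have hqa : q ^ 2 ≤ q ^ a := Nat.pow_le_pow_right (by omega) ha2
  have hqq : q < q ^ 2 := by nlinarith
  have hqr : q ^ a < q ^ r := Nat.pow_lt_pow_right (by omega) har
  have he0 : 0 < e := by
    rcases Nat.eq_zero_or_pos e with h | h
    · rw [h, mul_zero] at he
      omega
    · exact h
  have h1 : ((z : Matrix (Fin n) (Fin n) F) ^ e) ^ (q ^ a - 1) = 1 := by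
    rw [← pow_mul, hzM, he, mul_comm]
  refine ⟨(z : Matrix (Fin n) (Fin n) F) ^ e, K.pow_mem z.2 e, ?_, ?_,
    (z : Matrix (Fin n) (Fin n) F), z.2, hz0', ?_⟩
  · have h2 : q ^ a = (q ^ a - 1) + 1 := by omega
    rw [h2, pow_succ, h1, one_mul]
  · intro c hc
    have hc0 : c ≠ 0 := by
      rintro rfl
      rw [zero_smul] at hc
      rw [hc, zero_pow (by omega)] at h1
      exact zero_ne_one h1
    have h2 : ((z : Matrix (Fin n) (Fin n) F) ^ e) ^ (q - 1) = 1 := by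
      have hcq : c ^ (q - 1) = 1 := by
        rw [hq]
        exact FiniteField.pow_card_sub_one_eq_one c hc0
      rw [hc, smul_pow, one_pow, hcq, one_smul]
    rw [← pow_mul, hzM, he] at h2
    have h3 : (q ^ a - 1) ∣ (q - 1) := by
      rw [mul_comm e (q - 1)] at h2
      exact Nat.dvd_of_mul_dvd_mul_right he0 h2
    have h4 := Nat.le_of_dvd (by omega) h3
    omega
  · intro h
    have h2 : q ^ a = (q ^ a - 1) + 1 := by omega
    rw [h2, pow_succ] at h
    have h3 : (z : Matrix (Fin n) (Fin n) F) ^ (q ^ a - 1) = 1 := by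
      calc (z : Matrix (Fin n) (Fin n) F) ^ (q ^ a - 1)
          = (z : Matrix (Fin n) (Fin n) F) ^ (q ^ a - 1) * ((z : Matrix (Fin n) (Fin n) F) * zi) := by
            rw [hzzi, mul_one]
        _ = ((z : Matrix (Fin n) (Fin n) F) ^ (q ^ a - 1) * (z : Matrix (Fin n) (Fin n) F)) * zi := by
            rw [mul_assoc]
        _ = 1 := by rw [h, hzzi]
    rw [hzM] at h3
    have h4 := Nat.le_of_dvd (by omega) h3
    omega

/-- Stabilizer of a set of matrices under conjugation. -/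
def stabSet (S : Set (Matrix (Fin n) (Fin n) F)) : Subgroup (GL (Fin n) F) where
  carrier := {g | ∀ k : Matrix (Fin n) (Fin n) F, k ∈ S ↔
    (g : Matrix (Fin n) (Fin n) F) * k * ((g⁻¹ : GL (Fin n) F) : Matrix (Fin n) (Fin n) F) ∈ S}
  mul_mem' {a b} ha hb := by
    intro k
    rw [hb k, ha, Units.val_mul, _root_.mul_inv_rev, Units.val_mul]
    constructor <;> intro h <;> simpa [mul_assoc] using h
  one_mem' := by
    intro k
    simp
  inv_mem' {a} ha := by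
    intro k
    have h := ha (((a⁻¹ : GL (Fin n) F) : Matrix (Fin n) (Fin n) F) * k *
      (a : Matrix (Fin n) (Fin n) F))
    rw [inv_inv]
    rw [h]
    constructor <;> intro h' <;>
      simpa [mul_assoc, ← Units.val_mul] using h'

theorem conj_cancel (g : GL (Fin n) F) (x y : Matrix (Fin n) (Fin n) F)
    (h : (g : Matrix (Fin n) (Fin n) F) * x * ((g⁻¹ : GL (Fin n) F) : Matrix (Fin n) (Fin n) F) =
      (g : Matrix (Fin n) (Fin n) F) * y * ((g⁻¹ : GL (Fin n) F) : Matrix (Fin n) (Fin n) F)) :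
    x = y := by
  have h' := congrArg (fun z => ((g⁻¹ : GL (Fin n) F) : Matrix (Fin n) (Fin n) F) * z *
    (g : Matrix (Fin n) (Fin n) F)) h
  have e : ∀ w : Matrix (Fin n) (Fin n) F,
      ((g⁻¹ : GL (Fin n) F) : Matrix (Fin n) (Fin n) F) * ((g : Matrix (Fin n) (Fin n) F) * w *
        ((g⁻¹ : GL (Fin n) F) : Matrix (Fin n) (Fin n) F)) * (g : Matrix (Fin n) (Fin n) F) = w := by
    intro w
    calc ((g⁻¹ : GL (Fin n) F) : Matrix (Fin n) (Fin n) F) * ((g : Matrix (Fin n) (Fin n) F) * w *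
        ((g⁻¹ : GL (Fin n) F) : Matrix (Fin n) (Fin n) F)) * (g : Matrix (Fin n) (Fin n) F)
        = (((g⁻¹ : GL (Fin n) F) : Matrix (Fin n) (Fin n) F) * (g : Matrix (Fin n) (Fin n) F)) * w *
          (((g⁻¹ : GL (Fin n) F) : Matrix (Fin n) (Fin n) F) * (g : Matrix (Fin n) (Fin n) F)) := by
          simp only [Matrix.mul_assoc]
      _ = w := by rw [← Units.val_mul, inv_mul_cancel, Units.val_one, Matrix.one_mul, Matrix.mul_one]
  simp only [e] at h'
  exact h'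

theorem norm_le (K : Subalgebra F (Matrix (Fin n) (Fin n) F)) (Q : ℕ) :
    Cfsg.Geo.subalgebraNormalizer K ≤ stabSet {x | x ∈ K ∧ x ^ Q = x} := by
  intro g hg x
  have h1 := hg x
  constructor
  · rintro ⟨hx, hxp⟩
    exact ⟨h1.1 hx, by rw [Units.conj_pow, hxp]⟩
  · rintro ⟨hx, hxp⟩
    refine ⟨h1.2 hx, ?_⟩
    rw [Units.conj_pow] at hxp
    exact conj_cancel g _ _ hxp

theorem mat_ext (A B : Matrix (Fin n) (Fin n) F) (h : ∀ w, A *ᵥ w = B *ᵥ w) : A = B :=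
  Matrix.toLin'.injective (LinearMap.ext h)

/-- Evaluation at a vector, as a linear map on matrices. -/
def evl (w : Fin n → F) : Matrix (Fin n) (Fin n) F →ₗ[F] (Fin n → F) where
  toFun x := x *ᵥ w
  map_add' x y := Matrix.add_mulVec x y w
  map_smul' c x := Matrix.smul_mulVec c x w

theorem evl_apply (w : Fin n → F) (x : Matrix (Fin n) (Fin n) F) : evl w x = x *ᵥ w := rfl

theorem K_inj {K : Subalgebra F (Matrix (Fin n) (Fin n) F)} {r : ℕ}
    (hK : Cfsg.Geo.IsFieldSubalgebra r K) {x : Matrix (Fin n) (Fin n) F} (hx : x ∈ K) (hx0 : x ≠ 0)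
    {w : Fin n → F} (h : x *ᵥ w = 0) : w = 0 := by
  obtain ⟨y, hy, hxy⟩ := hK.inv x hx hx0
  have hyx : y * x = 1 := by rw [hK.comm y hy x hx, hxy]
  calc w = (y * x) *ᵥ w := by rw [hyx, Matrix.one_mulVec]
    _ = y *ᵥ (x *ᵥ w) := by rw [Matrix.mulVec_mulVec]
    _ = 0 := by rw [h, Matrix.mulVec_zero]

theorem det_one_add_of_sq_zero (hn : 0 < n) (p : ℕ) [Fact p.Prime] [CharP F p]
    (T : Matrix (Fin n) (Fin n) F) (hT : T * T = 0) : Matrix.det (1 + T) = 1 := by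
  have : Nonempty (Fin n) := ⟨⟨0, hn⟩⟩
  have : CharP (Matrix (Fin n) (Fin n) F) p := Matrix.charP p
  have hp2 : 2 ≤ p := (Fact.out : p.Prime).two_le
  have hTp : T ^ p = 0 := pow_eq_zero_of_le hp2 (by rw [pow_two, hT])
  have h1 : (1 + T) ^ p = 1 := by
    rw [add_pow_char_of_commute p (Commute.one_left T), one_pow, hTp, add_zero]
  have h2 : Matrix.det (1 + T) ^ p = 1 := by
    rw [← Matrix.det_pow, h1, Matrix.det_one]
  have h3 : (Matrix.det (1 + T) - 1) ^ p = 0 := by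
    rw [sub_pow_char, h2, one_pow, sub_self]
  exact sub_eq_zero.1 (pow_eq_zero_iff (by omega) |>.1 h3)

theorem mem_sl_iff (g : GL (Fin n) F) :
    g ∈ Cfsg.Geo.specialLinear (Fin n) F ↔ Matrix.det (g : Matrix (Fin n) (Fin n) F) = 1 := by
  unfold Cfsg.Geo.specialLinear
  rw [MonoidHom.mem_ker, Units.ext_iff]
  rfl

theorem unip_mul (T : Matrix (Fin n) (Fin n) F) (hT : T * T = 0) : (1 + T) * (1 - T) = 1 := by
  rw [mul_sub, add_mul, add_mul, one_mul, one_mul, mul_one, hT, add_zero, add_sub_cancel_right]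

theorem unip_mul' (T : Matrix (Fin n) (Fin n) F) (hT : T * T = 0) : (1 - T) * (1 + T) = 1 := by
  rw [mul_add, sub_mul, sub_mul, one_mul, one_mul, mul_one, hT, sub_zero, sub_add_cancel]

/-- The unipotent element attached to a square-zero matrix. -/
def unip (T : Matrix (Fin n) (Fin n) F) (hT : T * T = 0) : GL (Fin n) F :=
  ⟨1 + T, 1 - T, unip_mul T hT, unip_mul' T hT⟩

theorem unip_sl (hn : 0 < n) (p : ℕ) [Fact p.Prime] [CharP F p] (T : Matrix (Fin n) (Fin n) F)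
    (hT : T * T = 0) : unip T hT ∈ Cfsg.Geo.specialLinear (Fin n) F := by
  rw [mem_sl_iff]
  exact det_one_add_of_sq_zero hn p T hT

theorem exists_K0 [Fintype F] (hn : 0 < n) (K : Subalgebra F (Matrix (Fin n) (Fin n) F))
    (hcomm : ∀ x ∈ K, ∀ y ∈ K, x * y = y * x) (a : ℕ) :
    ∃ K0 : Submodule F (Matrix (Fin n) (Fin n) F),
      ∀ x, x ∈ K0 ↔ x ∈ K ∧ x ^ (Fintype.card F ^ a) = x := by
  obtain ⟨p, hp⟩ := CharP.exists F
  obtain ⟨f, hprime, hcard⟩ := FiniteField.card F p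
  have : Fact p.Prime := ⟨hprime⟩
  have : Nonempty (Fin n) := ⟨⟨0, hn⟩⟩
  have : CharP (Matrix (Fin n) (Fin n) F) p := Matrix.charP p
  have hQ : Fintype.card F ^ a = p ^ ((f : ℕ) * a) := by rw [hcard, pow_mul]
  refine ⟨{ carrier := {x | x ∈ K ∧ x ^ (Fintype.card F ^ a) = x}
            add_mem' := ?_
            zero_mem' := ?_
            smul_mem' := ?_ }, fun x => Iff.rfl⟩
  · rintro x y ⟨hx, hxp⟩ ⟨hy, hyp⟩
    refine ⟨K.add_mem hx hy, ?_⟩
    rw [hQ] at hxp hyp ⊢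
    rw [add_pow_char_pow_of_commute p _ (hcomm x hx y hy), hxp, hyp]
  · refine ⟨K.zero_mem, zero_pow ?_⟩
    have := Fintype.card_pos (α := F)
    positivity
  · rintro c x ⟨hx, hxp⟩
    refine ⟨K.smul_mem hx c, ?_⟩
    rw [smul_pow, hxp, FiniteField.pow_card_pow]

/-- The rank one matrix attached to a functional and a vector. -/
noncomputable def rkOne (lam : (Fin n → F) →ₗ[F] F) (v : Fin n → F) : Matrix (Fin n) (Fin n) F :=
  LinearMap.toMatrix' ((LinearMap.toSpanSingleton F (Fin n → F) v).comp lam)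

theorem rkOne_mulVec (lam : (Fin n → F) →ₗ[F] F) (v w : Fin n → F) :
    rkOne lam v *ᵥ w = lam w • v := by
  have h := congrArg (fun f : (Fin n → F) →ₗ[F] (Fin n → F) => f w)
    (Matrix.toLin'_toMatrix' ((LinearMap.toSpanSingleton F (Fin n → F) v).comp lam))
  simpa [Matrix.toLin'_apply, rkOne] using h

theorem exists_u {K : Subalgebra F (Matrix (Fin n) (Fin n) F)} {r : ℕ}
    (hK : Cfsg.Geo.IsFieldSubalgebra r K) (hrn : r < n) (v : Fin n → F) :
    ∃ u : Fin n → F, u ∉ (Subalgebra.toSubmodule K).map (evl v) := by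
  by_contra hcon
  push Not at hcon
  have htop : (Subalgebra.toSubmodule K).map (evl v) = ⊤ := by
    rw [eq_top_iff]
    intro u _
    exact hcon u
  have hfin : Module.Finite F ↥(Subalgebra.toSubmodule K) := inferInstance
  have h1 := Submodule.finrank_map_le (evl v) (Subalgebra.toSubmodule K)
  rw [htop, finrank_top, Module.finrank_fin_fun] at h1
  have h2 : Module.finrank F ↥(Subalgebra.toSubmodule K) = r := hK.finrank_eq
  omega

theorem exists_g2 {K : Subalgebra F (Matrix (Fin n) (Fin n) F)} {r : ℕ}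
    (hK : Cfsg.Geo.IsFieldSubalgebra r K) (hrn : r < n) (S : Set (Matrix (Fin n) (Fin n) F))
    (hSK : ∀ x ∈ S, x ∈ K) (x0 : Matrix (Fin n) (Fin n) F) (hx0S : x0 ∈ S)
    (hx0 : ∀ c : F, x0 ≠ c • (1 : Matrix (Fin n) (Fin n) F)) (p : ℕ) [Fact p.Prime] [CharP F p] :
    ∃ g : GL (Fin n) F, g ∈ Cfsg.Geo.specialLinear (Fin n) F ∧ g ∉ stabSet S := by
  classical
  have hn : 0 < n := by omega
  have hx0K : x0 ∈ K := hSK x0 hx0S
  have hx0ne : x0 ≠ 0 := by
    intro h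
    exact hx0 0 (by rw [h, zero_smul])
  set v : Fin n → F := Pi.single ⟨0, hn⟩ 1 with hv
  have hv0 : v ≠ 0 := by
    intro h
    have h' := congrFun h ⟨0, hn⟩
    simp [hv] at h'
  obtain ⟨u, hu⟩ := exists_u hK hrn v
  have hKv : ∀ κ ∈ K, κ *ᵥ v ∈ (Subalgebra.toSubmodule K).map (evl v) := fun κ hκ => ⟨κ, hκ, rfl⟩
  have huW : u ∉ (Subalgebra.toSubmodule K).map (evl v) ⊔ Submodule.span F {x0 *ᵥ u} := by
    intro hmem
    rw [Submodule.mem_sup] at hmem
    obtain ⟨w1, hw1, w2, hw2, hsum⟩ := hmem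
    obtain ⟨κ, hκ, rfl⟩ := hw1
    rw [Submodule.mem_span_singleton] at hw2
    obtain ⟨c, rfl⟩ := hw2
    have hm : (1 - c • x0) *ᵥ u = κ *ᵥ v := by
      rw [Matrix.sub_mulVec, Matrix.one_mulVec, Matrix.smul_mulVec]
      have hs : κ *ᵥ v + c • x0 *ᵥ u = u := hsum
      calc u - c • x0 *ᵥ u = (κ *ᵥ v + c • x0 *ᵥ u) - c • x0 *ᵥ u := by rw [hs]
        _ = κ *ᵥ v := add_sub_cancel_right _ _
    have hmK : (1 - c • x0) ∈ K := K.sub_mem K.one_mem (K.smul_mem hx0K c)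
    have hm0 : (1 - c • x0) ≠ 0 := by
      intro h
      have h1 : c • x0 = 1 := (sub_eq_zero.1 h).symm
      have hc : c ≠ 0 := by
        rintro rfl
        rw [zero_smul] at h1
        have : Nonempty (Fin n) := ⟨⟨0, hn⟩⟩
        exact zero_ne_one h1
      apply hx0 c⁻¹
      rw [← h1, smul_smul, inv_mul_cancel₀ hc, one_smul]
    obtain ⟨mi, hmi, hmmi⟩ := hK.inv _ hmK hm0
    have hmim : mi * (1 - c • x0) = 1 := by rw [hK.comm mi hmi _ hmK, hmmi]
    apply hu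
    have hu' : u = (mi * κ) *ᵥ v := by
      calc u = (mi * (1 - c • x0)) *ᵥ u := by rw [hmim, Matrix.one_mulVec]
        _ = mi *ᵥ ((1 - c • x0) *ᵥ u) := by rw [Matrix.mulVec_mulVec]
        _ = (mi * κ) *ᵥ v := by rw [hm, Matrix.mulVec_mulVec]
    rw [hu']
    exact hKv _ (K.mul_mem hmi hκ)
  obtain ⟨lam, hlamu, hlamW⟩ := Submodule.exists_le_ker_of_notMem huW
  have hlamK : ∀ κ ∈ K, lam (κ *ᵥ v) = 0 := fun κ hκ =>
    LinearMap.mem_ker.1 (hlamW (Submodule.mem_sup_left (hKv κ hκ)))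
  have hlamv : lam v = 0 := by
    have := hlamK 1 K.one_mem
    rwa [Matrix.one_mulVec] at this
  have hlamxu : lam (x0 *ᵥ u) = 0 :=
    LinearMap.mem_ker.1 (hlamW (Submodule.mem_sup_right (Submodule.mem_span_singleton_self _)))
  have hT : rkOne lam v * rkOne lam v = 0 := by
    apply mat_ext
    intro w
    rw [← Matrix.mulVec_mulVec, rkOne_mulVec, rkOne_mulVec, map_smul, hlamv, smul_zero, zero_smul,
      Matrix.zero_mulVec]
  refine ⟨unip (rkOne lam v) hT, unip_sl hn p _ hT, ?_⟩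
  intro hg
  have h1 : (1 + rkOne lam v) * x0 * (1 - rkOne lam v) ∈ S := (hg x0).1 hx0S
  have h1K := hSK _ h1
  have h2 : ((1 + rkOne lam v) * x0 * (1 - rkOne lam v) - x0) *ᵥ v = 0 := by
    rw [Matrix.sub_mulVec, ← Matrix.mulVec_mulVec, ← Matrix.mulVec_mulVec, Matrix.sub_mulVec,
      Matrix.one_mulVec, rkOne_mulVec, hlamv, zero_smul, sub_zero, Matrix.add_mulVec,
      Matrix.one_mulVec, rkOne_mulVec, hlamK x0 hx0K, zero_smul, add_zero, sub_self]
  have h3 : (1 + rkOne lam v) * x0 * (1 - rkOne lam v) - x0 = 0 := by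
    by_contra hne
    exact hv0 (K_inj hK (K.sub_mem h1K hx0K) hne h2)
  have h4 : (1 + rkOne lam v) * x0 = x0 * (1 + rkOne lam v) := by
    have h5 := sub_eq_zero.1 h3
    calc (1 + rkOne lam v) * x0 = (1 + rkOne lam v) * x0 * ((1 - rkOne lam v) * (1 + rkOne lam v)) := by
          rw [unip_mul' _ hT, mul_one]
      _ = ((1 + rkOne lam v) * x0 * (1 - rkOne lam v)) * (1 + rkOne lam v) := by
          simp only [Matrix.mul_assoc]
      _ = x0 * (1 + rkOne lam v) := by rw [h5]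
  have h6 : rkOne lam v * x0 = x0 * rkOne lam v := by
    rw [add_mul, mul_add, one_mul, mul_one] at h4
    exact add_left_cancel h4
  have h7 := congrArg (fun M : Matrix (Fin n) (Fin n) F => M *ᵥ u) h6
  simp only [← Matrix.mulVec_mulVec, rkOne_mulVec, hlamxu, zero_smul, Matrix.mulVec_smul] at h7
  have h8 : x0 *ᵥ v = 0 := by
    rcases smul_eq_zero.1 h7.symm with h | h
    · exact absurd h hlamu
    · exact h
  exact hv0 (K_inj hK hx0K hx0ne h8)

theorem exists_g1 [Fintype F] {K : Subalgebra F (Matrix (Fin n) (Fin n) F)} {r : ℕ}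
    (hK : Cfsg.Geo.IsFieldSubalgebra r K) (hrn : r < n) (Q : ℕ)
    (K0 : Submodule F (Matrix (Fin n) (Fin n) F))
    (hK0 : ∀ x, x ∈ K0 ↔ x ∈ K ∧ x ^ Q = x)
    (y0 : Matrix (Fin n) (Fin n) F) (hy0K : y0 ∈ K) (hy0 : y0 ≠ 0) (hy0' : y0 ∉ K0)
    (p : ℕ) [Fact p.Prime] [CharP F p] :
    ∃ g : GL (Fin n) F, g ∈ Cfsg.Geo.specialLinear (Fin n) F ∧
      g ∈ stabSet (K0 : Set (Matrix (Fin n) (Fin n) F)) ∧
      g ∉ Cfsg.Geo.subalgebraNormalizer K := by
  classical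
  have hn : 0 < n := by omega
  have hne : Nonempty (Fin n) := ⟨⟨0, hn⟩⟩
  have hK0K : ∀ x ∈ K0, x ∈ K := fun x hx => ((hK0 x).1 hx).1
  have hone : (1 : Matrix (Fin n) (Fin n) F) ∈ K0 := (hK0 1).2 ⟨K.one_mem, one_pow Q⟩
  have hmul : ∀ x ∈ K0, ∀ y ∈ K0, x * y ∈ K0 := by
    intro x hx y hy
    obtain ⟨hxK, hxp⟩ := (hK0 x).1 hx
    obtain ⟨hyK, hyp⟩ := (hK0 y).1 hy
    exact (hK0 _).2 ⟨K.mul_mem hxK hyK, by
      rw [(show Commute x y from hK.comm x hxK y hyK).mul_pow, hxp, hyp]⟩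
  have hinv : ∀ x ∈ K0, x ≠ 0 → x⁻¹ ∈ K0 ∧ x * x⁻¹ = 1 ∧ x⁻¹ * x = 1 := by
    intro x hx hx0
    obtain ⟨hxK, hxp⟩ := (hK0 x).1 hx
    obtain ⟨y, hy, hxy⟩ := hK.inv x hxK hx0
    have hyx : y * x = 1 := by rw [hK.comm y hy x hxK, hxy]
    have hinv_eq : x⁻¹ = y := Matrix.inv_eq_right_inv hxy
    rw [hinv_eq]
    refine ⟨(hK0 y).2 ⟨hy, ?_⟩, hxy, hyx⟩
    have h1 : x * y ^ Q = 1 := by
      have h2 := (show Commute x y from hK.comm x hxK y hy).mul_pow Q
      rw [hxy, one_pow, hxp] at h2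
      exact h2.symm
    calc y ^ Q = (y * x) * y ^ Q := by rw [hyx, one_mul]
      _ = y * (x * y ^ Q) := by rw [mul_assoc]
      _ = y := by rw [h1, mul_one]
  obtain ⟨Sstar, hSmem⟩ : ∃ Sstar : Finset (Matrix (Fin n) (Fin n) F),
      ∀ k, k ∈ Sstar ↔ k ∈ K0 ∧ k ≠ 0 :=
    ⟨Finset.univ.filter (fun k => k ∈ K0 ∧ k ≠ 0), fun k => by simp⟩
  have hμ : ∃ μ : Matrix (Fin n) (Fin n) F →ₗ[F] F, (∑ k ∈ Sstar, μ k⁻¹ • k) ≠ 0 := by
    by_contra hall
    push Not at hall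
    obtain ⟨π, hπ⟩ := LinearMap.exists_leftInverse_of_injective K0.subtype (Submodule.ker_subtype K0)
    let b := Module.finBasis F ↥K0
    have hπz : ∀ z (hz : z ∈ K0), π z = ⟨z, hz⟩ := fun z hz => by
      have h1 := congrArg (fun f : ↥K0 →ₗ[F] ↥K0 => f ⟨z, hz⟩) hπ
      simpa using h1
    have hexp : ∀ z ∈ K0, ∑ j, ((b.coord j).comp π) z •
        ((b j : ↥K0) : Matrix (Fin n) (Fin n) F) = z := by
      intro z hz
      have h1 := congrArg (Submodule.subtype K0) (b.sum_repr ⟨z, hz⟩)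
      rw [map_sum] at h1
      simp only [map_smul, Submodule.subtype_apply] at h1
      simp only [LinearMap.comp_apply, hπz z hz, Module.Basis.coord_apply]
      exact h1
    have hzero : ∑ j, (∑ k ∈ Sstar, ((b.coord j).comp π) k⁻¹ • k) *
        ((b j : ↥K0) : Matrix (Fin n) (Fin n) F) = 0 := by
      apply Finset.sum_eq_zero
      intro j _
      rw [hall, zero_mul]
    have hsum : ∑ j, (∑ k ∈ Sstar, ((b.coord j).comp π) k⁻¹ • k) *
        ((b j : ↥K0) : Matrix (Fin n) (Fin n) F) = ∑ k ∈ Sstar, (1 : Matrix (Fin n) (Fin n) F) := by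
      simp only [Finset.sum_mul]
      rw [Finset.sum_comm]
      apply Finset.sum_congr rfl
      intro k hk
      obtain ⟨hkK0, hk0⟩ := (hSmem k).1 hk
      obtain ⟨hki, hkki, _⟩ := hinv k hkK0 hk0
      have h2 := hexp k⁻¹ hki
      calc ∑ j, (((b.coord j).comp π) k⁻¹ • k) * ((b j : ↥K0) : Matrix (Fin n) (Fin n) F)
          = k * ∑ j, ((b.coord j).comp π) k⁻¹ • ((b j : ↥K0) : Matrix (Fin n) (Fin n) F) := by
            rw [Finset.mul_sum]
            apply Finset.sum_congr rfl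
            intro j _
            rw [smul_mul_assoc, mul_smul_comm]
        _ = 1 := by rw [h2, hkki]
    rw [hzero, Finset.sum_const] at hsum
    have hfin : Fintype ↥K0 := Fintype.ofFinite _
    have hcardA : Fintype.card ↥K0 = (insert 0 Sstar).card := by
      apply Fintype.card_of_subtype
      intro x
      rw [Finset.mem_insert, hSmem]
      constructor
      · rintro (rfl | h)
        · exact K0.zero_mem
        · exact h.1
      · intro hx
        by_cases hx0 : x = 0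
        · exact Or.inl hx0
        · exact Or.inr ⟨hx, hx0⟩
    rw [Finset.card_insert_of_notMem (fun h => ((hSmem 0).1 h).2 rfl),
      Module.card_eq_pow_finrank (K := F) (V := ↥K0)] at hcardA
    have hnt : Nontrivial ↥K0 := ⟨⟨⟨1, hone⟩, 0, fun h => one_ne_zero (congrArg Subtype.val h)⟩⟩
    have hd : 0 < Module.finrank F ↥K0 := Module.finrank_pos
    have hcast : ((Sstar.card : ℕ) : F) + 1 = 0 := by
      have h3 := congrArg (fun m : ℕ => (m : F)) hcardA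
      simp only [Nat.cast_pow, FiniteField.cast_card_eq_zero, Nat.cast_add, Nat.cast_one] at h3
      rw [zero_pow (by omega)] at h3
      exact h3.symm
    have h00 := congrFun (congrFun hsum ⟨0, hn⟩) ⟨0, hn⟩
    simp only [Matrix.zero_apply, Matrix.smul_apply, Matrix.one_apply_eq, nsmul_eq_mul,
      mul_one] at h00
    rw [← h00, zero_add] at hcast
    exact one_ne_zero hcast
  obtain ⟨μ, hμne⟩ := hμ
  obtain ⟨v, hv⟩ : ∃ v : Fin n → F, v = Pi.single ⟨0, hn⟩ 1 := ⟨_, rfl⟩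
  have hv0 : v ≠ 0 := by
    intro h
    have h' := congrFun h ⟨0, hn⟩
    simp [hv] at h'
  obtain ⟨u, hu⟩ := exists_u hK hrn v
  have hKv : ∀ κ ∈ K, κ *ᵥ v ∈ (Subalgebra.toSubmodule K).map (evl v) := fun κ hκ => ⟨κ, hκ, rfl⟩
  obtain ⟨W, hW⟩ : ∃ W : Submodule F (Fin n → F),
      W = (Subalgebra.toSubmodule K).map (evl v) ⊔ K0.map (evl (y0 *ᵥ u)) := ⟨_, rfl⟩
  let f : ↥K0 →ₗ[F] (Fin n → F) ⧸ W := W.mkQ.comp ((evl u).comp K0.subtype)
  have hker : LinearMap.ker f = ⊥ := by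
    rw [LinearMap.ker_eq_bot']
    intro z hz
    have hzW : (z : Matrix (Fin n) (Fin n) F) *ᵥ u ∈ W := (Submodule.Quotient.mk_eq_zero W).1 hz
    rw [hW, Submodule.mem_sup] at hzW
    obtain ⟨w1, ⟨κ, hκ, rfl⟩, w2, ⟨z', hz', rfl⟩, hsum⟩ := hzW
    have hs : κ *ᵥ v + z' *ᵥ (y0 *ᵥ u) = (z : Matrix (Fin n) (Fin n) F) *ᵥ u := hsum
    have hm : ((z : Matrix (Fin n) (Fin n) F) - z' * y0) *ᵥ u = κ *ᵥ v := by
      rw [Matrix.sub_mulVec, ← Matrix.mulVec_mulVec, ← hs, add_sub_cancel_right]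
    have hmK : ((z : Matrix (Fin n) (Fin n) F) - z' * y0) ∈ K :=
      K.sub_mem (hK0K _ z.2) (K.mul_mem (hK0K _ hz') hy0K)
    have hm0 : (z : Matrix (Fin n) (Fin n) F) - z' * y0 = 0 := by
      by_contra hne'
      obtain ⟨mi, hmi, hmmi⟩ := hK.inv _ hmK hne'
      have hmim : mi * ((z : Matrix (Fin n) (Fin n) F) - z' * y0) = 1 := by
        rw [hK.comm mi hmi _ hmK, hmmi]
      apply hu
      have hu' : u = (mi * κ) *ᵥ v := by
        calc u = (mi * ((z : Matrix (Fin n) (Fin n) F) - z' * y0)) *ᵥ u := by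
              rw [hmim, Matrix.one_mulVec]
          _ = mi *ᵥ (((z : Matrix (Fin n) (Fin n) F) - z' * y0) *ᵥ u) := by
              rw [Matrix.mulVec_mulVec]
          _ = (mi * κ) *ᵥ v := by rw [hm, Matrix.mulVec_mulVec]
      rw [hu']
      exact hKv _ (K.mul_mem hmi hκ)
    have hz'0 : z' = 0 := by
      by_contra hne'
      obtain ⟨hzi, hzzi, hziz⟩ := hinv z' hz' hne'
      apply hy0'
      have h1 : (z : Matrix (Fin n) (Fin n) F) = z' * y0 := sub_eq_zero.1 hm0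
      have h2 : y0 = z'⁻¹ * (z : Matrix (Fin n) (Fin n) F) := by
        rw [h1, ← mul_assoc, hziz, one_mul]
      rw [h2]
      exact hmul _ hzi _ z.2
    have hz0 : (z : Matrix (Fin n) (Fin n) F) = 0 := by
      rw [sub_eq_zero.1 hm0, hz'0, zero_mul]
    exact Subtype.ext hz0
  obtain ⟨gL, hgL⟩ := LinearMap.exists_leftInverse_of_injective f hker
  obtain ⟨lam, hlam⟩ : ∃ lam : (Fin n → F) →ₗ[F] F,
      lam = ((μ.comp K0.subtype).comp gL).comp W.mkQ := ⟨_, rfl⟩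
  have hlam1 : ∀ z (hz : z ∈ K0), lam (z *ᵥ u) = μ z := by
    intro z hz
    have h1 : gL (f ⟨z, hz⟩) = ⟨z, hz⟩ := by
      have h2 := congrArg (fun φ : ↥K0 →ₗ[F] ↥K0 => φ ⟨z, hz⟩) hgL
      simpa using h2
    have h3 : W.mkQ (z *ᵥ u) = f ⟨z, hz⟩ := rfl
    rw [hlam]
    show μ ((gL (W.mkQ (z *ᵥ u)) : ↥K0) : Matrix (Fin n) (Fin n) F) = μ z
    rw [h3, h1]
  have hlamW : ∀ w ∈ W, lam w = 0 := by
    intro w hw
    have h1 : W.mkQ w = 0 := (Submodule.Quotient.mk_eq_zero W).2 hw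
    rw [hlam]
    show μ ((gL (W.mkQ w) : ↥K0) : Matrix (Fin n) (Fin n) F) = 0
    rw [h1, map_zero, Submodule.coe_zero, map_zero]
  have hlamK : ∀ κ ∈ K, lam (κ *ᵥ v) = 0 := fun κ hκ =>
    hlamW _ (by rw [hW]; exact Submodule.mem_sup_left (hKv κ hκ))
  have hlamy : ∀ z ∈ K0, lam (z *ᵥ (y0 *ᵥ u)) = 0 := fun z hz =>
    hlamW _ (by rw [hW]; exact Submodule.mem_sup_right ⟨z, hz, rfl⟩)
  obtain ⟨Tt, hTt⟩ : ∃ Tt : Matrix (Fin n) (Fin n) F,
      Tt = ∑ k ∈ Sstar, k * rkOne lam v * k⁻¹ := ⟨_, rfl⟩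
  have hTtv : ∀ w, Tt *ᵥ w = ∑ k ∈ Sstar, lam (k⁻¹ *ᵥ w) • (k *ᵥ v) := by
    intro w
    have h1 : Tt *ᵥ w = ∑ k ∈ Sstar, (k * rkOne lam v * k⁻¹) *ᵥ w := by
      show evl w Tt = _
      rw [hTt, map_sum]
      rfl
    rw [h1]
    apply Finset.sum_congr rfl
    intro k _
    rw [← Matrix.mulVec_mulVec, ← Matrix.mulVec_mulVec, rkOne_mulVec, Matrix.mulVec_smul]
  have hTtK : ∀ κ ∈ K, Tt *ᵥ (κ *ᵥ v) = 0 := by
    intro κ hκ
    rw [hTtv]
    apply Finset.sum_eq_zero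
    intro k hk
    obtain ⟨hkK0, hk0⟩ := (hSmem k).1 hk
    rw [Matrix.mulVec_mulVec, hlamK _ (K.mul_mem (hK0K _ (hinv k hkK0 hk0).1) hκ), zero_smul]
  have hsmulsum : ∀ c : Matrix (Fin n) (Fin n) F → F,
      (∑ k ∈ Sstar, c k • k) *ᵥ v = ∑ k ∈ Sstar, c k • (k *ᵥ v) := by
    intro c
    show evl v (∑ k ∈ Sstar, c k • k) = _
    rw [map_sum]
    apply Finset.sum_congr rfl
    intro k _
    rw [map_smul]
    rfl
  have hsumK : ∀ c : Matrix (Fin n) (Fin n) F → F, (∑ k ∈ Sstar, c k • k) ∈ K := fun c =>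
    sum_mem (fun k hk => K.smul_mem (hK0K _ ((hSmem k).1 hk).1) _)
  have hTt2 : Tt * Tt = 0 := by
    apply mat_ext
    intro w
    rw [← Matrix.mulVec_mulVec, Matrix.zero_mulVec, hTtv w, ← hsmulsum (fun k => lam (k⁻¹ *ᵥ w)),
      hTtK _ (hsumK _)]
  have hcomm : ∀ h ∈ K0, h * Tt = Tt * h := by
    intro h hh
    by_cases hh0 : h = 0
    · rw [hh0, zero_mul, mul_zero]
    obtain ⟨hhi, hhhi, hhih⟩ := hinv h hh hh0
    have h1 : h * Tt * h⁻¹ = Tt := by
      rw [hTt, Finset.mul_sum, Finset.sum_mul]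
      apply Finset.sum_bij' (fun k _ => h * k) (fun k _ => h⁻¹ * k)
      · intro k hk
        show h⁻¹ * (h * k) = k
        rw [← mul_assoc, hhih, one_mul]
      · intro k hk
        show h * (h⁻¹ * k) = k
        rw [← mul_assoc, hhhi, one_mul]
      · intro k hk
        show h * (k * rkOne lam v * k⁻¹) * h⁻¹ = (h * k) * rkOne lam v * (h * k)⁻¹
        rw [Matrix.mul_inv_rev]
        simp only [Matrix.mul_assoc]
      · intro k hk
        obtain ⟨hkK0, hk0⟩ := (hSmem k).1 hk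
        refine (hSmem _).2 ⟨hmul _ hh _ hkK0, ?_⟩
        intro hzero
        apply hk0
        calc k = (h⁻¹ * h) * k := by rw [hhih, one_mul]
          _ = h⁻¹ * (h * k) := by rw [mul_assoc]
          _ = 0 := by rw [hzero, mul_zero]
      · intro k hk
        obtain ⟨hkK0, hk0⟩ := (hSmem k).1 hk
        refine (hSmem _).2 ⟨hmul _ hhi _ hkK0, ?_⟩
        intro hzero
        apply hk0
        calc k = (h * h⁻¹) * k := by rw [hhhi, one_mul]
          _ = h * (h⁻¹ * k) := by rw [mul_assoc]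
          _ = 0 := by rw [hzero, mul_zero]
    calc h * Tt = h * Tt * (h⁻¹ * h) := by rw [hhih, mul_one]
      _ = (h * Tt * h⁻¹) * h := by simp only [Matrix.mul_assoc]
      _ = Tt * h := by rw [h1]
  have key : ∀ z ∈ K0, (1 + Tt) * z * (1 - Tt) = z := by
    intro z hz
    have h1 : (1 + Tt) * z = z * (1 + Tt) := by
      rw [add_mul, mul_add, one_mul, mul_one, hcomm z hz]
    rw [h1, mul_assoc, unip_mul _ hTt2, mul_one]
  refine ⟨unip Tt hTt2, unip_sl hn p _ hTt2, ?_, ?_⟩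
  · intro x
    constructor
    · intro hx
      show (1 + Tt) * x * (1 - Tt) ∈ K0
      rw [key x hx]
      exact hx
    · intro hx
      have hx' : (1 + Tt) * x * (1 - Tt) ∈ K0 := hx
      have h2 : (1 + Tt) * ((1 + Tt) * x * (1 - Tt)) * (1 - Tt) = (1 + Tt) * x * (1 - Tt) :=
        key _ hx'
      have h3 : (1 + Tt) * x * (1 - Tt) = x := conj_cancel (unip Tt hTt2) _ _ h2
      rw [← h3]
      exact hx'
  · intro hg
    have h1K : (1 + Tt) * y0 * (1 - Tt) ∈ K := (hg y0).1 hy0K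
    have hv1 : Tt *ᵥ v = 0 := by
      have h := hTtK 1 K.one_mem
      rwa [Matrix.one_mulVec] at h
    have h2 : ((1 + Tt) * y0 * (1 - Tt) - y0) *ᵥ v = 0 := by
      rw [Matrix.sub_mulVec, ← Matrix.mulVec_mulVec, ← Matrix.mulVec_mulVec, Matrix.sub_mulVec,
        Matrix.one_mulVec, hv1, sub_zero, Matrix.add_mulVec, Matrix.one_mulVec, hTtK y0 hy0K,
        add_zero, sub_self]
    have h3 : (1 + Tt) * y0 * (1 - Tt) - y0 = 0 := by
      by_contra hne'
      exact hv0 (K_inj hK (K.sub_mem h1K hy0K) hne' h2)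
    have h4 : (1 + Tt) * y0 = y0 * (1 + Tt) := by
      have h5 := sub_eq_zero.1 h3
      calc (1 + Tt) * y0 = (1 + Tt) * y0 * ((1 - Tt) * (1 + Tt)) := by
            rw [unip_mul' _ hTt2, mul_one]
        _ = ((1 + Tt) * y0 * (1 - Tt)) * (1 + Tt) := by simp only [Matrix.mul_assoc]
        _ = y0 * (1 + Tt) := by rw [h5]
    have h6 : Tt * y0 = y0 * Tt := by
      rw [add_mul, mul_add, one_mul, mul_one] at h4
      exact add_left_cancel h4
    have h7 : Tt *ᵥ (y0 *ᵥ u) = y0 *ᵥ (Tt *ᵥ u) := by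
      rw [Matrix.mulVec_mulVec, Matrix.mulVec_mulVec, h6]
    have h8 : Tt *ᵥ (y0 *ᵥ u) = 0 := by
      rw [hTtv]
      apply Finset.sum_eq_zero
      intro k hk
      obtain ⟨hkK0, hk0⟩ := (hSmem k).1 hk
      rw [hlamy _ (hinv k hkK0 hk0).1, zero_smul]
    have h9 : Tt *ᵥ u = 0 := K_inj hK hy0K hy0 (by rw [← h7, h8])
    have h10 : Tt *ᵥ u = (∑ k ∈ Sstar, μ k⁻¹ • k) *ᵥ v := by
      rw [hTtv, hsmulsum]
      apply Finset.sum_congr rfl
      intro k hk
      obtain ⟨hkK0, hk0⟩ := (hSmem k).1 hk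
      rw [hlam1 _ (hinv k hkK0 hk0).1]
    exact hv0 (K_inj hK (hsumK _) hμne (by rw [← h10, h9]))

theorem main [Fintype F] (n r : ℕ) (hr1 : 1 < r) (hrp : ¬ r.Prime) (hlt : r < n)
    (K : Subalgebra F (Matrix (Fin n) (Fin n) F)) (hK : Cfsg.Geo.IsFieldSubalgebra r K) :
    ¬ IsCoatom (Cfsg.Geo.subalgebraNormalizer K) ∧
      ¬ Cfsg.Geo.IsMaximalIn (Cfsg.Geo.specialLinear (Fin n) F)
        (Cfsg.Geo.subalgebraNormalizer K ⊓ Cfsg.Geo.specialLinear (Fin n) F) := by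
  have hn : 0 < n := by omega
  obtain ⟨p, hp⟩ := CharP.exists F
  obtain ⟨f, hprime, hcard⟩ := FiniteField.card F p
  have hfact : Fact p.Prime := ⟨hprime⟩
  have ha2 : 2 ≤ r.minFac := (Nat.minFac_prime (by omega)).two_le
  have har : r.minFac < r := (Nat.not_prime_iff_minFac_lt (by omega)).1 hrp
  have hdvd : r.minFac ∣ r := Nat.minFac_dvd r
  obtain ⟨x0, hx0K, hx0p, hx0ns, y0, hy0K, hy0, hy0p⟩ :=
    exists_elts K r hK hn r.minFac ha2 har hdvd
  obtain ⟨K0, hK0⟩ := exists_K0 hn K hK.comm r.minFac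
  have hx0K0 : x0 ∈ K0 := (hK0 x0).2 ⟨hx0K, hx0p⟩
  have hy0K0 : y0 ∉ K0 := fun h => hy0p ((hK0 y0).1 h).2
  obtain ⟨g2, hg2sl, hg2⟩ := exists_g2 hK hlt (K0 : Set (Matrix (Fin n) (Fin n) F))
    (fun x hx => ((hK0 x).1 hx).1) x0 hx0K0 hx0ns p
  obtain ⟨g1, hg1sl, hg1, hg1n⟩ := exists_g1 hK hlt _ K0 hK0 y0 hy0K hy0 hy0K0 p
  have hle : Cfsg.Geo.subalgebraNormalizer K ≤ stabSet (K0 : Set (Matrix (Fin n) (Fin n) F)) := by
    have h := norm_le K (Fintype.card F ^ r.minFac)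
    have hset : {x | x ∈ K ∧ x ^ (Fintype.card F ^ r.minFac) = x} =
        (K0 : Set (Matrix (Fin n) (Fin n) F)) := by
      ext x
      exact (hK0 x).symm
    rwa [hset] at h
  constructor
  · intro hco
    have hlt' : Cfsg.Geo.subalgebraNormalizer K < stabSet (K0 : Set (Matrix (Fin n) (Fin n) F)) :=
      lt_of_le_of_ne hle (fun h => hg1n (h ▸ hg1))
    have htop := hco.2 _ hlt'
    exact hg2 (htop ▸ Subgroup.mem_top g2)
  · rintro ⟨_, hmax⟩
    rcases hmax (stabSet (K0 : Set (Matrix (Fin n) (Fin n) F)) ⊓ Cfsg.Geo.specialLinear (Fin n) F)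
      (inf_le_inf_right _ hle) inf_le_right with h | h
    · have h1 : g1 ∈ Cfsg.Geo.subalgebraNormalizer K ⊓ Cfsg.Geo.specialLinear (Fin n) F := by
        rw [← h]
        exact ⟨hg1, hg1sl⟩
      exact hg1n h1.1
    · have h1 : g2 ∈ stabSet (K0 : Set (Matrix (Fin n) (Fin n) F)) ⊓
          Cfsg.Geo.specialLinear (Fin n) F := by
        rw [h]
        exact hg2sl
      exact hg2 h1.1

end Cfsg.Agent.Helper18.FieldNorm
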