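import Mathlib

set_option autoImplicit false

namespace Cfsg.Agent.Helper18

/-- Two involutions that are not conjugate commute with a common involution
(the central involution of the dihedral group they generate). -/
theorem exists_involution_commute_of_not_isConj {G : Type*} [Group G] [Finite G] (x w : G)
    (hx : orderOf x = 2) (hw : orderOf w = 2) (hnc : ¬ IsConj x w) :
    ∃ z : G, orderOf z = 2 ∧ Commute z x ∧ Commute z w ∧ z ∈ Subgroup.zpowers (x * w) := by
  have hx2 : x * x = 1 := by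
    have := pow_orderOf_eq_one x
    rwa [hx, pow_two] at this
  have hw2 : w * w = 1 := by
    have := pow_orderOf_eq_one w
    rwa [hw, pow_two] at this
  have hxinv : x⁻¹ = x := inv_eq_of_mul_eq_one_left hx2
  have hwinv : w⁻¹ = w := inv_eq_of_mul_eq_one_left hw2
  set t := x * w with ht
  have htinv : t⁻¹ = w * x := by rw [ht, mul_inv_rev, hxinv, hwinv]
  have hxt : x * t * x⁻¹ = t⁻¹ := by
    rw [htinv, ht, hxinv, mul_assoc, mul_assoc, ← mul_assoc x x, hx2, one_mul]
  have hwt : w * t * w⁻¹ = t⁻¹ := by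
    rw [htinv, ht, hwinv, mul_assoc, mul_assoc, hw2, mul_one]
  have hxtk : ∀ k : ℕ, x * t ^ k * x⁻¹ = (t ^ k)⁻¹ := by
    intro k
    rw [← conj_pow, hxt, inv_pow]
  have hwtk : ∀ k : ℕ, w * t ^ k * w⁻¹ = (t ^ k)⁻¹ := by
    intro k
    rw [← conj_pow, hwt, inv_pow]
  rcases Nat.even_or_odd (orderOf t) with he | ho
  · obtain ⟨m, hm⟩ := he
    have hmpos : 0 < m := by
      have := orderOf_pos t
      omega
    refine ⟨t ^ m, ?_, ?_, ?_, ⟨m, by simp⟩⟩
    · have h1 : (t ^ m) ^ 2 = 1 := by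
        rw [← pow_mul, mul_two, ← hm, pow_orderOf_eq_one]
      have h2 : t ^ m ≠ 1 := by
        intro h
        have := orderOf_dvd_of_pow_eq_one h
        have := Nat.le_of_dvd hmpos this
        omega
      exact orderOf_eq_prime h1 h2
    · have h1 : (t ^ m)⁻¹ = t ^ m := by
        rw [inv_eq_iff_mul_eq_one, ← pow_add, ← hm, pow_orderOf_eq_one]
      have h2 := hxtk m
      rw [h1] at h2
      show t ^ m * x = x * t ^ m
      calc t ^ m * x = (x * t ^ m * x⁻¹) * x := by rw [h2]
        _ = x * t ^ m := by group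
    · have h1 : (t ^ m)⁻¹ = t ^ m := by
        rw [inv_eq_iff_mul_eq_one, ← pow_add, ← hm, pow_orderOf_eq_one]
      have h2 := hwtk m
      rw [h1] at h2
      show t ^ m * w = w * t ^ m
      calc t ^ m * w = (w * t ^ m * w⁻¹) * w := by rw [h2]
        _ = w * t ^ m := by group
  · exfalso
    obtain ⟨k, hk⟩ := ho
    apply hnc
    rw [isConj_iff]
    refine ⟨t ^ k, ?_⟩
    have h1 : t ^ (2 * k) * t = 1 := by
      rw [← pow_succ, ← hk, pow_orderOf_eq_one]
    have h2 : t ^ (2 * k) = t⁻¹ := eq_inv_of_mul_eq_one_left h1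
    have h3 : x * (t ^ k)⁻¹ * x⁻¹ = t ^ k := by
      have := hxtk k
      rw [← inv_inj, mul_inv_rev, mul_inv_rev, inv_inv, inv_inv, ← mul_assoc] at this
      rw [this]
    calc t ^ k * x * (t ^ k)⁻¹ = t ^ k * (x * (t ^ k)⁻¹ * x⁻¹) * x := by group
      _ = t ^ k * t ^ k * x := by rw [h3]
      _ = t ^ (2 * k) * x := by rw [← pow_add, two_mul]
      _ = w := by rw [h2, htinv, mul_assoc, hx2, mul_one]

end Cfsg.Agent.Helper18
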