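import Mathlib

set_option autoImplicit false

namespace Cfsg.Agent.Helper18

open Subgroup

theorem card_mul_relIndex_of_le {G : Type*} [Group G] {H K : Subgroup G} (h : H ≤ K) :
    Nat.card H * H.relIndex K = Nat.card K := by
  have h1 := Subgroup.relIndex_mul_relIndex ⊥ H K bot_le h
  rwa [Subgroup.relIndex_bot_left, Subgroup.relIndex_bot_left] at h1

theorem eq_one_of_mul_mul_eq {G : Type*} [Group G] {x z y : G} (h : x * z * y = x * y) : z = 1 := by
  have h1 := mul_right_cancel h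
  exact mul_left_cancel (a := x) (by rw [h1, mul_one])

section Modular

variable {G : Type*} [Group G] {q : ℕ} {a b : G}

theorem mod_z_sq (hao : orderOf a = 8 * q) : a ^ (4 * q) * a ^ (4 * q) = 1 := by
  rw [← pow_add, show 4 * q + 4 * q = 8 * q by ring, ← hao, pow_orderOf_eq_one]

theorem mod_z_ne (hq : 0 < q) (hao : orderOf a = 8 * q) : a ^ (4 * q) ≠ 1 :=
  pow_ne_one_of_lt_orderOf (by omega) (by rw [hao]; omega)

theorem mod_z_pow_even (hao : orderOf a = 8 * q) (k : ℕ) : (a ^ (4 * q)) ^ (2 * k) = 1 := by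
  rw [pow_mul, pow_two, mod_z_sq hao, one_pow]

theorem mod_z_pow_odd (hao : orderOf a = 8 * q) (k : ℕ) :
    (a ^ (4 * q)) ^ (2 * k + 1) = a ^ (4 * q) := by
  rw [pow_succ, mod_z_pow_even hao, one_mul]

theorem mod_conj (hrel : b * a * b⁻¹ = a * a ^ (4 * q)) (i : ℕ) :
    b * a ^ i = a ^ i * (a ^ (4 * q)) ^ i * b := by
  have hc : Commute a (a ^ (4 * q)) := (Commute.refl a).pow_right _
  have h1 : b * a ^ i * b⁻¹ = a ^ i * (a ^ (4 * q)) ^ i := by
    rw [← conj_pow, hrel, hc.mul_pow]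
  calc b * a ^ i = (b * a ^ i * b⁻¹) * b := by group
    _ = a ^ i * (a ^ (4 * q)) ^ i * b := by rw [h1]

theorem mod_even (hao : orderOf a = 8 * q) (hrel : b * a * b⁻¹ = a * a ^ (4 * q)) (k : ℕ) :
    b * a ^ (2 * k) = a ^ (2 * k) * b := by
  rw [mod_conj hrel, mod_z_pow_even hao, mul_one]

theorem mod_odd (hao : orderOf a = 8 * q) (hrel : b * a * b⁻¹ = a * a ^ (4 * q)) (k : ℕ) :
    b * a ^ (2 * k + 1) = a ^ (2 * k + 1) * a ^ (4 * q) * b := by
  rw [mod_conj hrel, mod_z_pow_odd hao]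

theorem mod_zb (hao : orderOf a = 8 * q) (hrel : b * a * b⁻¹ = a * a ^ (4 * q)) :
    b * a ^ (4 * q) = a ^ (4 * q) * b := by
  have h1 := mod_even hao hrel (2 * q)
  rwa [show 2 * (2 * q) = 4 * q by ring] at h1

theorem mod_pow_involution (hao : orderOf a = 8 * q) (j : ℕ) (h : a ^ j * a ^ j = 1) :
    a ^ j = 1 ∨ a ^ j = a ^ (4 * q) := by
  rw [← pow_add] at h
  have h1 := orderOf_dvd_of_pow_eq_one h
  rw [hao] at h1
  obtain ⟨c, hc⟩ := h1
  have h2 : j = 4 * q * c := by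
    have h3 : 2 * j = 2 * (4 * q * c) := by rw [two_mul, hc]; ring
    exact Nat.eq_of_mul_eq_mul_left (by norm_num) h3
  rw [h2, pow_mul]
  obtain ⟨k, rfl | rfl⟩ := Nat.even_or_odd' c
  · left; exact mod_z_pow_even hao k
  · right; exact mod_z_pow_odd hao k

theorem mod_b_notMem (hq : 0 < q) (hao : orderOf a = 8 * q)
    (hrel : b * a * b⁻¹ = a * a ^ (4 * q)) : b ∉ zpowers a := by
  intro hb
  obtain ⟨j, hj⟩ := hb
  have h1 : b * a * b⁻¹ = a := by rw [← hj]; group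
  rw [h1] at hrel
  have h2 : a ^ (4 * q) = 1 := by
    have h3 : a * 1 = a * a ^ (4 * q) := by rw [mul_one]; exact hrel
    exact (mul_left_cancel h3).symm
  exact mod_z_ne hq hao h2

theorem mod_b_ne_z (hq : 0 < q) (hao : orderOf a = 8 * q)
    (hrel : b * a * b⁻¹ = a * a ^ (4 * q)) : b ≠ a ^ (4 * q) := by
  intro h
  apply mod_b_notMem hq hao hrel
  rw [h]
  exact Subgroup.pow_mem _ (mem_zpowers a) _

theorem mod_coord [Finite G] (S : Subgroup G) (hq : 0 < q) (hS : Nat.card S = 16 * q)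
    (ha : a ∈ S) (hb : b ∈ S) (hao : orderOf a = 8 * q) (hbb : b * b = 1)
    (hrel : b * a * b⁻¹ = a * a ^ (4 * q)) :
    ∀ s ∈ S, ∃ i : ℕ, s = a ^ i ∨ s = a ^ i * b := by
  have hAS : zpowers a ≤ S := by rw [zpowers_le]; exact ha
  have h1 := card_mul_relIndex_of_le hAS
  rw [Nat.card_zpowers, hao, hS] at h1
  have hrelidx : (zpowers a).relIndex S = 2 := by
    have h2 : 8 * q * (zpowers a).relIndex S = 8 * q * 2 := by rw [h1]; ring
    exact Nat.eq_of_mul_eq_mul_left (by omega) h2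
  have hidx : ((zpowers a).subgroupOf S).index = 2 := hrelidx
  have hbA := mod_b_notMem hq hao hrel
  intro s hs
  have key := Subgroup.mul_mem_iff_of_index_two hidx (a := (⟨s, hs⟩ : S)) (b := (⟨b, hb⟩ : S))
  simp only [Subgroup.mem_subgroupOf, Subgroup.coe_mul] at key
  by_cases hsA : s ∈ zpowers a
  · rw [← mem_powers_iff_mem_zpowers, Submonoid.mem_powers_iff] at hsA
    obtain ⟨i, hi⟩ := hsA
    exact ⟨i, Or.inl hi.symm⟩
  · have h2 : s * b ∈ zpowers a := key.mpr ⟨fun h => absurd h hsA, fun h => absurd h hbA⟩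
    rw [← mem_powers_iff_mem_zpowers, Submonoid.mem_powers_iff] at h2
    obtain ⟨i, hi⟩ := h2
    refine ⟨i, Or.inr ?_⟩
    rw [hi, mul_assoc, hbb, mul_one]

theorem mod_cases (S : Subgroup G) (hcoord : ∀ s ∈ S, ∃ i : ℕ, s = a ^ i ∨ s = a ^ i * b)
    (P : G → Prop) (h1 : ∀ k, P (a ^ (2 * k))) (h2 : ∀ k, P (a ^ (2 * k + 1)))
    (h3 : ∀ k, P (a ^ (2 * k) * b)) (h4 : ∀ k, P (a ^ (2 * k + 1) * b)) : ∀ s ∈ S, P s := by
  intro s hs
  obtain ⟨i, rfl | rfl⟩ := hcoord s hs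
  · obtain ⟨k, rfl | rfl⟩ := Nat.even_or_odd' i
    · exact h1 k
    · exact h2 k
  · obtain ⟨k, rfl | rfl⟩ := Nat.even_or_odd' i
    · exact h3 k
    · exact h4 k

theorem mod_prod_even (hao : orderOf a = 8 * q) (hbb : b * b = 1)
    (hrel : b * a * b⁻¹ = a * a ^ (4 * q)) (k l : ℕ) :
    (a ^ (2 * k) * b) * (a ^ (2 * l) * b) = a ^ (2 * k + 2 * l) := by
  calc (a ^ (2 * k) * b) * (a ^ (2 * l) * b) = a ^ (2 * k) * (b * a ^ (2 * l)) * b := by
        simp only [mul_assoc]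
    _ = a ^ (2 * k) * (a ^ (2 * l) * b) * b := by rw [mod_even hao hrel]
    _ = a ^ (2 * k) * a ^ (2 * l) * (b * b) := by simp only [mul_assoc]
    _ = a ^ (2 * k + 2 * l) := by rw [hbb, mul_one, ← pow_add]

theorem mod_prod_odd (hao : orderOf a = 8 * q) (hbb : b * b = 1)
    (hrel : b * a * b⁻¹ = a * a ^ (4 * q)) (k l : ℕ) :
    (a ^ (2 * k + 1) * b) * (a ^ (2 * l + 1) * b) = a ^ (2 * k + 1 + (2 * l + 1) + 4 * q) := by
  calc (a ^ (2 * k + 1) * b) * (a ^ (2 * l + 1) * b)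
      = a ^ (2 * k + 1) * (b * a ^ (2 * l + 1)) * b := by simp only [mul_assoc]
    _ = a ^ (2 * k + 1) * (a ^ (2 * l + 1) * a ^ (4 * q) * b) * b := by rw [mod_odd hao hrel]
    _ = a ^ (2 * k + 1) * a ^ (2 * l + 1) * a ^ (4 * q) * (b * b) := by simp only [mul_assoc]
    _ = a ^ (2 * k + 1 + (2 * l + 1) + 4 * q) := by rw [hbb, mul_one, ← pow_add, ← pow_add]

theorem mod_sq_pow (S : Subgroup G) (hcoord : ∀ s ∈ S, ∃ i : ℕ, s = a ^ i ∨ s = a ^ i * b)
    (hao : orderOf a = 8 * q) (hbb : b * b = 1) (hrel : b * a * b⁻¹ = a * a ^ (4 * q)) :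
    ∀ s ∈ S, ∃ j : ℕ, s * s = a ^ j := by
  refine mod_cases S hcoord (fun s => ∃ j : ℕ, s * s = a ^ j) ?_ ?_ ?_ ?_
  · intro k; exact ⟨2 * k + 2 * k, (pow_add a _ _).symm⟩
  · intro k; exact ⟨2 * k + 1 + (2 * k + 1), (pow_add a _ _).symm⟩
  · intro k; exact ⟨_, mod_prod_even hao hbb hrel k k⟩
  · intro k; exact ⟨_, mod_prod_odd hao hbb hrel k k⟩

theorem mod_sq_sq (S : Subgroup G) (hcoord : ∀ s ∈ S, ∃ i : ℕ, s = a ^ i ∨ s = a ^ i * b)
    (hao : orderOf a = 8 * q) (hbb : b * b = 1) (hrel : b * a * b⁻¹ = a * a ^ (4 * q)) :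
    ∀ s ∈ S, (s * s) * (s * s) = 1 → s * s = 1 ∨ s * s = a ^ (4 * q) := by
  intro s hs h
  obtain ⟨j, hj⟩ := mod_sq_pow S hcoord hao hbb hrel s hs
  rw [hj] at h ⊢
  exact mod_pow_involution hao j h

theorem mod_involutions (S : Subgroup G)
    (hcoord : ∀ s ∈ S, ∃ i : ℕ, s = a ^ i ∨ s = a ^ i * b)
    (hao : orderOf a = 8 * q) (hbb : b * b = 1) (hrel : b * a * b⁻¹ = a * a ^ (4 * q)) :
    ∀ s ∈ S, s * s = 1 → s = 1 ∨ s = a ^ (4 * q) ∨ s = b ∨ s = a ^ (4 * q) * b := by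
  refine mod_cases S hcoord
    (fun s => s * s = 1 → s = 1 ∨ s = a ^ (4 * q) ∨ s = b ∨ s = a ^ (4 * q) * b) ?_ ?_ ?_ ?_
  · intro k h
    rcases mod_pow_involution hao _ h with h1 | h1
    · exact Or.inl h1
    · exact Or.inr (Or.inl h1)
  · intro k h
    rcases mod_pow_involution hao _ h with h1 | h1
    · exact Or.inl h1
    · exact Or.inr (Or.inl h1)
  · intro k h
    rw [mod_prod_even hao hbb hrel, pow_add] at h
    rcases mod_pow_involution hao _ h with h1 | h1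
    · right; right; left; rw [h1, one_mul]
    · right; right; right; rw [h1]
  · intro k h
    exfalso
    rw [mod_prod_odd hao hbb hrel] at h
    have h1 := orderOf_dvd_of_pow_eq_one h
    rw [hao] at h1
    have h2 : 4 ∣ 2 * k + 1 + (2 * k + 1) + 4 * q := Dvd.dvd.trans ⟨2 * q, by ring⟩ h1
    omega

/-- commutation with `b` against the `2^(n-1)`-th power -/
theorem mod_type (hq : 0 < q) (S : Subgroup G)
    (hcoord : ∀ s ∈ S, ∃ i : ℕ, s = a ^ i ∨ s = a ^ i * b)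
    (hao : orderOf a = 8 * q) (hbb : b * b = 1) (hrel : b * a * b⁻¹ = a * a ^ (4 * q)) :
    ∀ s ∈ S, (b * s = s * b ∧ s ^ (4 * q) = 1) ∨
      (b * s = s * a ^ (4 * q) * b ∧ b * s ≠ s * b ∧ s ^ (4 * q) = a ^ (4 * q)) := by
  have hz1 := mod_z_ne hq hao
  refine mod_cases S hcoord (fun s => (b * s = s * b ∧ s ^ (4 * q) = 1) ∨
      (b * s = s * a ^ (4 * q) * b ∧ b * s ≠ s * b ∧ s ^ (4 * q) = a ^ (4 * q))) ?_ ?_ ?_ ?_
  · intro k
    left
    refine ⟨mod_even hao hrel k, ?_⟩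
    rw [← pow_mul, show 2 * k * (4 * q) = 8 * q * k by ring, pow_mul, ← hao, pow_orderOf_eq_one,
      one_pow]
  · intro k
    right
    refine ⟨mod_odd hao hrel k, ?_, ?_⟩
    · intro h
      rw [mod_odd hao hrel] at h
      exact hz1 (eq_one_of_mul_mul_eq h)
    · rw [← pow_mul, mul_comm, pow_mul, mod_z_pow_odd hao]
  · intro k
    left
    have hc : b * (a ^ (2 * k) * b) = a ^ (2 * k) * b * b := by
      rw [← mul_assoc, mod_even hao hrel]
    refine ⟨hc, ?_⟩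
    have hcomm : Commute (a ^ (2 * k)) b := (mod_even hao hrel k).symm
    rw [hcomm.mul_pow, ← pow_mul, show 2 * k * (4 * q) = 8 * q * k by ring, pow_mul, ← hao,
      pow_orderOf_eq_one, one_pow, one_mul, show 4 * q = 2 * (2 * q) by ring, pow_mul, pow_two,
      hbb, one_pow]
  · intro k
    right
    have hc : b * (a ^ (2 * k + 1) * b) = a ^ (2 * k + 1) * b * a ^ (4 * q) * b := by
      rw [← mul_assoc, mod_odd hao hrel, mul_assoc (a ^ (2 * k + 1)) b, mod_zb hao hrel]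
      simp only [mul_assoc]
    refine ⟨hc, ?_, ?_⟩
    · intro h
      rw [← mul_assoc] at h
      have h1 := mul_right_cancel h
      rw [mod_odd hao hrel] at h1
      exact hz1 (eq_one_of_mul_mul_eq h1)
    · rw [show 4 * q = 2 * (2 * q) by ring, pow_mul, pow_two, mod_prod_odd hao hbb hrel,
        ← pow_mul,
        show (2 * k + 1 + (2 * k + 1) + 4 * q) * (2 * q) = 8 * q * (k + q) + 4 * q by ring,
        pow_add, pow_mul, ← hao, pow_orderOf_eq_one, one_pow, one_mul]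
      congr 1; ring

theorem mod_mem_M_iff (S : Subgroup G) (s : G) (hs : s ∈ S) :
    s ∈ S ⊓ centralizer {b} ↔ b * s = s * b := by
  simp [Subgroup.mem_centralizer_iff, hs]

theorem mod_relIndex (hq : 0 < q) (S : Subgroup G) (ha : a ∈ S)
    (hcoord : ∀ s ∈ S, ∃ i : ℕ, s = a ^ i ∨ s = a ^ i * b)
    (hao : orderOf a = 8 * q) (hbb : b * b = 1) (hrel : b * a * b⁻¹ = a * a ^ (4 * q)) :
    (S ⊓ centralizer {b}).relIndex S = 2 := by
  rw [Subgroup.relIndex_eq_two_iff]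
  refine ⟨a, ha, ?_⟩
  intro s hs
  have hz1 := mod_z_ne hq hao
  have hba : b * a = a * a ^ (4 * q) * b := by
    calc b * a = (b * a * b⁻¹) * b := by group
      _ = a * a ^ (4 * q) * b := by rw [hrel]
  have hza : a ^ (4 * q) * a = a * a ^ (4 * q) := by rw [← pow_succ, ← pow_succ']
  rw [mod_mem_M_iff S s hs, mod_mem_M_iff S (s * a) (S.mul_mem hs ha)]
  rcases mod_type hq S hcoord hao hbb hrel s hs with ⟨h, -⟩ | ⟨h, hne, -⟩
  · right
    refine ⟨h, ?_⟩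
    intro h2
    have h3 : b * (s * a) = s * a * a ^ (4 * q) * b := by
      rw [← mul_assoc, h, mul_assoc, hba]; simp only [mul_assoc]
    rw [h3] at h2
    exact hz1 (eq_one_of_mul_mul_eq h2)
  · left
    refine ⟨?_, hne⟩
    calc b * (s * a) = (b * s) * a := by rw [mul_assoc]
      _ = s * a ^ (4 * q) * (b * a) := by rw [h]; simp only [mul_assoc]
      _ = s * a ^ (4 * q) * (a * a ^ (4 * q) * b) := by rw [hba]
      _ = s * (a ^ (4 * q) * a) * a ^ (4 * q) * b := by simp only [mul_assoc]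
      _ = s * (a * a ^ (4 * q)) * a ^ (4 * q) * b := by rw [hza]
      _ = s * a * (a ^ (4 * q) * a ^ (4 * q)) * b := by simp only [mul_assoc]
      _ = s * a * b := by rw [mod_z_sq hao, mul_one]

theorem mod_central (S : Subgroup G) (hcoord : ∀ s ∈ S, ∃ i : ℕ, s = a ^ i ∨ s = a ^ i * b)
    (hao : orderOf a = 8 * q) (hrel : b * a * b⁻¹ = a * a ^ (4 * q)) (k : ℕ) :
    ∀ t ∈ S, a ^ (2 * k) * t = t * a ^ (2 * k) := by
  intro t ht
  obtain ⟨i, rfl | rfl⟩ := hcoord t ht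
  · rw [← pow_add, ← pow_add, add_comm]
  · rw [← mul_assoc, ← pow_add, mul_assoc, mod_even hao hrel, ← mul_assoc, ← pow_add, add_comm]

theorem mod_ker_comm (S : Subgroup G) (hcoord : ∀ s ∈ S, ∃ i : ℕ, s = a ^ i ∨ s = a ^ i * b)
    (hao : orderOf a = 8 * q) (hbb : b * b = 1) (hrel : b * a * b⁻¹ = a * a ^ (4 * q))
    (V : G →* ℤˣ) (hV : V a = -1) :
    ∀ s ∈ S, ∀ t ∈ S, V s = 1 → V t = 1 → s * t = t * s := by
  have hneg : (-1 : ℤˣ) ≠ 1 := by decide
  have hcls : ∀ s ∈ S, V s = 1 → (∃ k, s = a ^ (2 * k)) ∨ (∃ k, s = a ^ (2 * k) * b ∧ V b = 1) ∨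
      (∃ k, s = a ^ (2 * k + 1) * b ∧ V b = -1) := by
    refine mod_cases S hcoord (fun s => V s = 1 → (∃ k, s = a ^ (2 * k)) ∨
      (∃ k, s = a ^ (2 * k) * b ∧ V b = 1) ∨ (∃ k, s = a ^ (2 * k + 1) * b ∧ V b = -1)) ?_ ?_ ?_ ?_
    · intro k _; exact Or.inl ⟨k, rfl⟩
    · intro k h
      rw [map_pow, hV, Odd.neg_one_pow ⟨k, rfl⟩] at h
      exact absurd h hneg
    · intro k h
      rw [map_mul, map_pow, hV, Even.neg_one_pow ⟨k, by ring⟩, one_mul] at h
      exact Or.inr (Or.inl ⟨k, rfl, h⟩)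
    · intro k h
      rw [map_mul, map_pow, hV, Odd.neg_one_pow ⟨k, rfl⟩] at h
      rcases Int.units_eq_one_or (V b) with h1 | h1
      · rw [h1, mul_one] at h; exact absurd h hneg
      · exact Or.inr (Or.inr ⟨k, rfl, h1⟩)
  intro s hs t ht hVs hVt
  rcases hcls s hs hVs with ⟨k, rfl⟩ | ⟨k, rfl, hb1⟩ | ⟨k, rfl, hb1⟩
  · exact mod_central S hcoord hao hrel k t ht
  · rcases hcls t ht hVt with ⟨l, rfl⟩ | ⟨l, rfl, hb2⟩ | ⟨l, rfl, hb2⟩
    · exact (mod_central S hcoord hao hrel l _ hs).symm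
    · rw [mod_prod_even hao hbb hrel, mod_prod_even hao hbb hrel, add_comm]
    · rw [hb1] at hb2; exact absurd hb2.symm hneg
  · rcases hcls t ht hVt with ⟨l, rfl⟩ | ⟨l, rfl, hb2⟩ | ⟨l, rfl, hb2⟩
    · exact (mod_central S hcoord hao hrel l _ hs).symm
    · rw [hb1] at hb2; exact absurd hb2 hneg
    · rw [mod_prod_odd hao hbb hrel, mod_prod_odd hao hbb hrel]
      congr 1; ring

end Modular

end Cfsg.Agent.Helper18
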