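import Mathlib

set_option autoImplicit false

namespace Cfsg.Agent.Helper18

/-- For a `p`-subgroup `T` of a subgroup `K` of a finite group, the index of `T` in its
normalizer in `K` is congruent mod `p` to the index of `T` in `K`. -/
theorem relIndex_normalizer_inf_modEq {G : Type*} [Group G] [Finite G] {p n : ℕ} [Fact p.Prime]
    (T K : Subgroup G) (hTK : T ≤ K) (hT : Nat.card T = p ^ n) :
    T.relIndex (Subgroup.normalizer (T : Set G) ⊓ K) ≡ T.relIndex K [MOD p] := by
  have hT' : Nat.card (T.subgroupOf K) = p ^ n := by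
    rw [← hT]
    exact Nat.card_congr (Subgroup.subgroupOfEquivOfLe hTK).toEquiv
  have key := Sylow.card_quotient_normalizer_modEq_card_quotient (G := K) hT'
  have h1 : Nat.card (K ⧸ T.subgroupOf K) = T.relIndex K := by
    rw [Subgroup.relIndex, Subgroup.index_eq_card]
  have h2 : Nat.card (Subgroup.normalizer ((T.subgroupOf K : Subgroup K) : Set K) ⧸
      (T.subgroupOf K).comap (Subgroup.normalizer ((T.subgroupOf K : Subgroup K) : Set K)).subtype)
      = T.relIndex (Subgroup.normalizer (T : Set G) ⊓ K) := by
    rw [← Subgroup.relIndex_subgroupOf (inf_le_right : Subgroup.normalizer (T : Set G) ⊓ K ≤ K),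
      Subgroup.inf_subgroupOf_right, Subgroup.subgroupOf_normalizer_eq hTK,
      Subgroup.relIndex, Subgroup.index_eq_card]
    rfl
  rw [h1, h2] at key
  exact key

end Cfsg.Agent.Helper18
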