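import Mathlib
import Cfsg.Agent.Helper9.PLocal
import Cfsg.Agent.Helper9.PConstr
import Cfsg.Agent.Helper9.ABLemma2

set_option autoImplicit false

namespace Cfsg.Agent.Helper18.PConstrLocal

open Subgroup Cfsg.Agent.Helper9

/-- trivial `p`-layer is invariant under isomorphism -/
theorem pLayer_eq_bot_of_equiv {A B : Type*} [Group A] [Finite A] [Group B] (p : ℕ)
    [Fact p.Prime] (e : A ≃* B) (h : Cfsg.pLayer p A = ⊥) : Cfsg.pLayer p B = ⊥ := by
  have hl : Cfsg.layer (A ⧸ Cfsg.pPrimeCore p A) = ⊥ := by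
    rw [← pLayer_map_eq p, h, Subgroup.map_bot]
  refine pLayer_eq_bot_of_surj p
    ((QuotientGroup.mk' (Cfsg.pPrimeCore p A)).comp e.symm.toMonoidHom) ?_ ?_ hl
  · intro q
    obtain ⟨x, rfl⟩ := QuotientGroup.mk'_surjective _ q
    exact ⟨e x, by simp⟩
  · ext x
    rw [MonoidHom.mem_ker, MonoidHom.comp_apply, QuotientGroup.mk'_apply,
      QuotientGroup.eq_one_iff, ← pPrimeCore_map_equiv p e, Subgroup.mem_map]
    constructor
    · rintro ⟨y, hy, rfl⟩
      simpa using hy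
    · intro hx
      exact ⟨e.symm x, hx, by simp⟩

/-- if the centralizer of an element of `O_p(X)` has trivial `p`-layer, so does `X` -/
theorem pLayer_eq_bot_of_centralizer {X : Type*} [Group X] [Finite X] (p : ℕ) [Fact p.Prime]
    (a : X) (ha : a ∈ Cfsg.pCore p X) (D : Subgroup X)
    (hD : centralizer ((zpowers a : Subgroup X) : Set X) ≤ D)
    (hL : Cfsg.pLayer p ↥D = ⊥) : Cfsg.pLayer p X = ⊥ := by
  by_contra hne
  have hlayer : Cfsg.layer (X ⧸ Cfsg.pPrimeCore p X) ≠ ⊥ := fun h =>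
    hne (pLayer_eq_bot_of_surj p (QuotientGroup.mk' (Cfsg.pPrimeCore p X))
      (QuotientGroup.mk'_surjective _) (QuotientGroup.ker_mk' _).symm h)
  obtain ⟨L, hLc⟩ := exists_component_of_layer_ne_bot hlayer
  have hOc : (Nat.card ↥(Cfsg.pPrimeCore p X)).Coprime p := pPrimeCore_coprime p
  have hPa : IsPGroup p ↥(zpowers a) := (pCore_isPGroup p).to_le (zpowers_le.mpr ha)
  have h1 : L ≤ centralizer (((zpowers a).map (QuotientGroup.mk' (Cfsg.pPrimeCore p X)) :
      Subgroup (X ⧸ Cfsg.pPrimeCore p X)) : Set (X ⧸ Cfsg.pPrimeCore p X)) := by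
    have hfit : (zpowers a).map (QuotientGroup.mk' (Cfsg.pPrimeCore p X)) ≤
        Cfsg.fittingSubgroup (X ⧸ Cfsg.pPrimeCore p X) := by
      refine (Subgroup.map_mono (zpowers_le.mpr ha)).trans ?_
      apply le_fitting
      · exact Subgroup.Normal.map inferInstance _ (QuotientGroup.mk'_surjective _)
      · exact ((pCore_isPGroup p).map _).isNilpotent
    have hcomm := component_comm_fitting hLc
    rw [Subgroup.commutator_eq_bot_iff_le_centralizer] at hcomm
    exact hcomm.trans (Subgroup.centralizer_le hfit)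
  have h2 : L ≤ D.map (QuotientGroup.mk' (Cfsg.pPrimeCore p X)) :=
    h1.trans ((centralizer_map_le_map_centralizer p _ hOc (zpowers a) hPa).trans
      (Subgroup.map_mono hD))
  -- the layer of `D / O_{p'}(D)` is trivial
  have hlD : Cfsg.layer (↥D ⧸ Cfsg.pPrimeCore p ↥D) = ⊥ := by
    rw [← pLayer_map_eq p, hL, Subgroup.map_bot]
  -- the preimage of `L` in `D`
  let ψ : ↥D →* X ⧸ Cfsg.pPrimeCore p X := (QuotientGroup.mk' (Cfsg.pPrimeCore p X)).comp D.subtype
  let L₁ : Subgroup ↥D := L.comap ψ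
  have hL₁sub : L₁.IsSubnormal := hLc.1.comap ψ
  let f : ↥L₁ →* ↥L := (ψ.comp L₁.subtype).codRestrict L (fun x => x.2)
  have hf : Function.Surjective f := by
    rintro ⟨l, hl⟩
    obtain ⟨d, hd, rfl⟩ := Subgroup.mem_map.mp (h2 hl)
    exact ⟨⟨⟨d, hd⟩, hl⟩, rfl⟩
  let g : ↥L₁ →* ↥D ⧸ Cfsg.pPrimeCore p ↥D :=
    (QuotientGroup.mk' (Cfsg.pPrimeCore p ↥D)).comp L₁.subtype
  have hkerD : (Cfsg.pPrimeCore p X).subgroupOf D ≤ Cfsg.pPrimeCore p ↥D := by
    apply le_pPrimeCore inferInstance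
    have e1 : Nat.card ↥((Cfsg.pPrimeCore p X).subgroupOf D) =
        Nat.card ↥(Cfsg.pPrimeCore p X ⊓ D) := by
      rw [← Subgroup.inf_subgroupOf_right]
      exact Nat.card_congr (Subgroup.subgroupOfEquivOfLe inf_le_right).toEquiv
    rw [e1]
    exact Nat.Coprime.coprime_dvd_left (Subgroup.card_dvd_of_le inf_le_left) hOc
  have hker : f.ker ≤ g.ker := by
    intro x hx
    rw [MonoidHom.mem_ker] at hx ⊢
    have h0 : ψ x.1 = 1 := congrArg Subtype.val hx
    have h3 : x.1 ∈ (Cfsg.pPrimeCore p X).subgroupOf D := by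
      rw [Subgroup.mem_subgroupOf, ← QuotientGroup.eq_one_iff]
      exact h0
    show (QuotientGroup.mk' (Cfsg.pPrimeCore p ↥D)) x.1 = 1
    rw [QuotientGroup.mk'_apply, QuotientGroup.eq_one_iff]
    exact hkerD h3
  let θ : ↥L →* ↥D ⧸ Cfsg.pPrimeCore p ↥D := f.liftOfSurjective hf ⟨g, hker⟩
  have hθ : ∀ x, θ (f x) = g x := fun x =>
    MonoidHom.liftOfRightInverse_comp_apply f _ (Function.rightInverse_surjInv hf) ⟨g, hker⟩ x
  have hLnt : Nontrivial ↥L := quasi_nontrivial hLc.2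
  by_cases hθk : θ.ker = ⊤
  · -- `L₁` is a `p'`-group, hence so is `L`
    have hL₁le : L₁ ≤ Cfsg.pPrimeCore p ↥D := by
      intro x hx
      have h3 : θ (f ⟨x, hx⟩) = 1 := by
        rw [← MonoidHom.mem_ker, hθk]; exact Subgroup.mem_top _
      rw [hθ] at h3
      rw [← QuotientGroup.eq_one_iff]
      exact h3
    have hc1 : (Nat.card ↥L₁).Coprime p :=
      Nat.Coprime.coprime_dvd_left (Subgroup.card_dvd_of_le hL₁le) (pPrimeCore_coprime p)
    have hc2 : (Nat.card ↥L).Coprime p :=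
      Nat.Coprime.coprime_dvd_left (Subgroup.card_dvd_of_surjective f hf) hc1
    have h4 := subnormal_pPrime_le_pPrimeCore p L hLc.1 hc2
    rw [pPrimeCore_quotient_eq_bot p, le_bot_iff] at h4
    exact (Subgroup.nontrivial_iff_ne_bot _).mp hLnt h4
  · have hq : Cfsg.IsQuasisimple ↥θ.range :=
      quasi_of_mulEquiv (QuotientGroup.quotientKerEquivRange θ) (quasi_quotient hLc.2 _ hθk)
    have hrange : θ.range = L₁.map (QuotientGroup.mk' (Cfsg.pPrimeCore p ↥D)) := by
      ext y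
      constructor
      · rintro ⟨l, rfl⟩
        obtain ⟨x, rfl⟩ := hf l
        rw [hθ]
        exact ⟨x.1, x.2, rfl⟩
      · rintro ⟨x, hx, rfl⟩
        exact ⟨f ⟨x, hx⟩, hθ _⟩
    have hcomp : Cfsg.IsComponent θ.range := by
      refine ⟨?_, hq⟩
      rw [hrange]
      exact hL₁sub.map (QuotientGroup.mk'_surjective _)
    have h5 := le_layer hcomp
    rw [hlD, le_bot_iff] at h5
    exact (Subgroup.nontrivial_iff_ne_bot _).mp (quasi_nontrivial hq) h5

end Cfsg.Agent.Helper18.PConstrLocal
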