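import Mathlib

set_option autoImplicit false

namespace Cfsg.Agent.Helper18.QuatLift

/-- If `S = ⟨α, ξ⟩ D` with `D` central and `ξ α ξ⁻¹ α ∈ D` (so `ξ` inverts `α` modulo `D`), then the
derived subgroup of `S` lies in the cyclic group generated by the commutator of `ξ` and `α`. -/
theorem commutator_le_zpowers {S : Type*} [Group S] (D : Subgroup S)
    (hD : ∀ d ∈ D, ∀ g : S, g * d = d * g)
    (α ξ : S) (hinv : ξ * α * ξ⁻¹ * α ∈ D)
    (hgen : ∀ g : S, ∃ w ∈ Subgroup.closure ({α, ξ} : Set S), w⁻¹ * g ∈ D) :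
    commutator S ≤ Subgroup.zpowers (ξ * α * ξ⁻¹ * α⁻¹) := by
  obtain ⟨d, hd⟩ : ∃ d : S, d = ξ * α * ξ⁻¹ * α := ⟨_, rfl⟩
  have hdD : d ∈ D := hd ▸ hinv
  have hdc : ∀ g : S, g * d = d * g := hD d hdD
  obtain ⟨c, hc⟩ : ∃ c : S, c = ξ * α * ξ⁻¹ * α⁻¹ := ⟨_, rfl⟩
  rw [← hc]
  have hcd : c = d * α⁻¹ * α⁻¹ := by rw [hc, hd]; group
  have hξα : ξ * α * ξ⁻¹ = d * α⁻¹ := by rw [hd]; group
  have hξα' : ξ * α⁻¹ * ξ⁻¹ = α * d⁻¹ := by
    have h1 : ξ * α⁻¹ * ξ⁻¹ = (ξ * α * ξ⁻¹)⁻¹ := by group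
    rw [h1, hξα]; group
  -- conjugation by α fixes c, conjugation by ξ inverts c
  have hαc : α * c * α⁻¹ = c := by
    rw [hcd]
    have h1 : α * (d * α⁻¹ * α⁻¹) * α⁻¹ = (α * d) * α⁻¹ * α⁻¹ * α⁻¹ := by group
    rw [h1, hdc α]; group
  have hξc : ξ * c * ξ⁻¹ = c⁻¹ := by
    have e1 : ξ * d * ξ⁻¹ = d := by rw [hdc ξ, mul_assoc, mul_inv_cancel, mul_one]
    have e2 : d * (α * d⁻¹) = α := by rw [← mul_assoc, ← hdc α, mul_assoc, mul_inv_cancel, mul_one]
    have h1 : ξ * c * ξ⁻¹ = (ξ * d * ξ⁻¹) * (ξ * α⁻¹ * ξ⁻¹) * (ξ * α⁻¹ * ξ⁻¹) := by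
      rw [hcd]; group
    rw [h1, hξα', e1, e2, hcd, mul_inv_rev, mul_inv_rev, inv_inv]
  obtain ⟨N, hN⟩ : ∃ N : Subgroup S, N = Subgroup.zpowers c := ⟨_, rfl⟩
  rw [← hN]
  have hcN : c ∈ N := by rw [hN]; exact Subgroup.mem_zpowers c
  have hαN : ∀ n ∈ N, α * n * α⁻¹ = n := by
    intro n hn
    rw [hN] at hn
    obtain ⟨k, rfl⟩ := Subgroup.mem_zpowers_iff.mp hn
    rw [← conj_zpow, hαc]
  have hξN : ∀ n ∈ N, ξ * n * ξ⁻¹ = n⁻¹ := by
    intro n hn
    rw [hN] at hn
    obtain ⟨k, rfl⟩ := Subgroup.mem_zpowers_iff.mp hn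
    rw [← conj_zpow, hξc, inv_zpow]
  have hαN' : ∀ n ∈ N, α⁻¹ * n * α = n := by
    intro n hn
    have h1 := hαN n hn
    have h2 : α⁻¹ * n * α = α⁻¹ * (α * n * α⁻¹) * α := by rw [h1]
    rw [h2]; group
  have hξN' : ∀ n ∈ N, ξ⁻¹ * n * ξ = n⁻¹ := by
    intro n hn
    have h1 := hξN n⁻¹ (N.inv_mem hn)
    rw [inv_inv] at h1
    have h2 : ξ⁻¹ * n * ξ = ξ⁻¹ * (ξ * n⁻¹ * ξ⁻¹) * ξ := by rw [h1]
    rw [h2]; group
  have hclN : ∀ w ∈ Subgroup.closure ({α, ξ} : Set S), ∀ n ∈ N,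
      w * n * w⁻¹ ∈ N ∧ w⁻¹ * n * w ∈ N := by
    intro w hw
    induction hw using Subgroup.closure_induction with
    | mem x hx =>
      intro n hn
      rcases hx with rfl | rfl
      · rw [hαN n hn, hαN' n hn]; exact ⟨hn, hn⟩
      · rw [hξN n hn, hξN' n hn]; exact ⟨N.inv_mem hn, N.inv_mem hn⟩
    | one => intro n hn; simpa using hn
    | mul x y _ _ hx hy =>
      intro n hn
      constructor
      · have h1 := (hx _ (hy n hn).1).1
        have h2 : x * y * n * (x * y)⁻¹ = x * (y * n * y⁻¹) * x⁻¹ := by group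
        rw [h2]; exact h1
      · have h1 := (hy _ (hx n hn).2).2
        have h2 : (x * y)⁻¹ * n * (x * y) = y⁻¹ * (x⁻¹ * n * x) * y := by group
        rw [h2]; exact h1
    | inv x _ hx =>
      intro n hn
      rw [inv_inv]
      exact ⟨(hx n hn).2, (hx n hn).1⟩
  have hNn : N.Normal := by
    constructor
    intro n hn g
    obtain ⟨w, hw, hwg⟩ := hgen g
    have h1 : g * n * g⁻¹ = w * ((w⁻¹ * g) * n * (w⁻¹ * g)⁻¹) * w⁻¹ := by group
    have h2 : (w⁻¹ * g) * n * (w⁻¹ * g)⁻¹ = n := by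
      rw [← hD _ hwg n, mul_assoc, mul_inv_cancel, mul_one]
    rw [h1, h2]
    exact (hclN w hw n hn).1
  -- the quotient is commutative
  have hq : ∀ g h : S, (QuotientGroup.mk' N g) * (QuotientGroup.mk' N h)
      = (QuotientGroup.mk' N h) * (QuotientGroup.mk' N g) := by
    have hαξ : QuotientGroup.mk' N ξ * QuotientGroup.mk' N α
        = QuotientGroup.mk' N α * QuotientGroup.mk' N ξ := by
      have h1 : QuotientGroup.mk' N c = 1 := (QuotientGroup.eq_one_iff c).mpr hcN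
      rw [hc, map_mul, map_mul, map_mul, map_inv, map_inv] at h1
      have h2 : QuotientGroup.mk' N ξ * QuotientGroup.mk' N α
          = (QuotientGroup.mk' N ξ * QuotientGroup.mk' N α * (QuotientGroup.mk' N ξ)⁻¹ *
            (QuotientGroup.mk' N α)⁻¹) * (QuotientGroup.mk' N α * QuotientGroup.mk' N ξ) := by
        group
      rw [h2, h1, one_mul]
    have hcl : ∀ w ∈ Subgroup.closure ({α, ξ} : Set S), ∀ v ∈ Subgroup.closure ({α, ξ} : Set S),
        QuotientGroup.mk' N w * QuotientGroup.mk' N v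
          = QuotientGroup.mk' N v * QuotientGroup.mk' N w := by
      have hcomm : ∀ a ∈ ({α, ξ} : Set S), ∀ b ∈ ({α, ξ} : Set S),
          QuotientGroup.mk' N a * QuotientGroup.mk' N b
            = QuotientGroup.mk' N b * QuotientGroup.mk' N a := by
        intro a ha b hb
        rcases ha with rfl | ha <;> rcases hb with rfl | hb
        · rfl
        · rw [Set.mem_singleton_iff] at hb
          rw [hb]; exact hαξ.symm
        · rw [Set.mem_singleton_iff] at ha
          rw [ha]; exact hαξ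
        · rw [Set.mem_singleton_iff] at ha hb
          rw [ha, hb]
      intro w hw v hv
      induction hw using Subgroup.closure_induction with
      | mem x hx =>
        induction hv using Subgroup.closure_induction with
        | mem y hy => exact hcomm x hx y hy
        | one => rw [map_one, mul_one, one_mul]
        | mul y z _ _ hy hz =>
          rw [map_mul, ← mul_assoc, hy, mul_assoc, hz, mul_assoc]
        | inv y _ hy =>
          rw [map_inv]
          have h1 : QuotientGroup.mk' N x * (QuotientGroup.mk' N y)⁻¹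
              = (QuotientGroup.mk' N y)⁻¹ * (QuotientGroup.mk' N y * QuotientGroup.mk' N x) *
                (QuotientGroup.mk' N y)⁻¹ := by group
          rw [h1, ← hy]; group
      | one => rw [map_one, mul_one, one_mul]
      | mul x y _ _ hx hy =>
        rw [map_mul, mul_assoc, hy, ← mul_assoc, hx, mul_assoc]
      | inv x _ hx =>
        rw [map_inv]
        have h1 : (QuotientGroup.mk' N x)⁻¹ * QuotientGroup.mk' N v
            = (QuotientGroup.mk' N x)⁻¹ * (QuotientGroup.mk' N v * QuotientGroup.mk' N x) *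
              (QuotientGroup.mk' N x)⁻¹ := by group
        rw [h1, ← hx]; group
    intro g h
    obtain ⟨w, hw, hwg⟩ := hgen g
    obtain ⟨v, hv, hvh⟩ := hgen h
    have hg : g = w * (w⁻¹ * g) := by group
    have hh : h = v * (v⁻¹ * h) := by group
    have e1 : g * h = (w * v) * ((w⁻¹ * g) * (v⁻¹ * h)) := by
      have h1 : g * h = w * ((w⁻¹ * g) * v) * (v⁻¹ * h) := by group
      rw [h1, ← hD _ hwg v]; group
    have e2 : h * g = (v * w) * ((w⁻¹ * g) * (v⁻¹ * h)) := by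
      have h1 : h * g = v * ((v⁻¹ * h) * w) * (w⁻¹ * g) := by group
      rw [h1, ← hD _ hvh w]
      have h2 : v * (w * (v⁻¹ * h)) * (w⁻¹ * g) = v * w * ((v⁻¹ * h) * (w⁻¹ * g)) := by group
      rw [h2, hD _ hwg (v⁻¹ * h)]
    rw [← map_mul, ← map_mul, e1, e2, map_mul, map_mul (QuotientGroup.mk' N) (v * w), map_mul,
      map_mul (QuotientGroup.mk' N) v w, hcl w hw v hv]
  rw [commutator_def, Subgroup.commutator_le]
  intro g _ h _
  rw [← QuotientGroup.eq_one_iff, ← QuotientGroup.mk'_apply, commutatorElement_def, map_mul, map_mul, map_mul, map_inv, map_inv,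
    hq g h]
  group

end Cfsg.Agent.Helper18.QuatLift
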