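import Mathlib
import Cfsg.Agent.S3202

set_option autoImplicit false

namespace Cfsg.Agent.Helper18.QuatGroup

/-- If `ξ` normalizes `⟨α⟩` and `ξ² ∈ ⟨α⟩`, every element of `⟨α, ξ⟩` lies in `⟨α⟩ ∪ ξ⟨α⟩`. -/
theorem mem_or_of_closure {S : Type*} [Group S] (α ξ : S)
    (h1 : ξ * α * ξ⁻¹ ∈ Subgroup.zpowers α) (h2 : ξ ^ 2 ∈ Subgroup.zpowers α) :
    ∀ t ∈ Subgroup.closure ({α, ξ} : Set S),
      t ∈ Subgroup.zpowers α ∨ ξ⁻¹ * t ∈ Subgroup.zpowers α := by
  obtain ⟨A, hA⟩ : ∃ A : Subgroup S, A = Subgroup.zpowers α := ⟨_, rfl⟩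
  rw [← hA] at h1 h2 ⊢
  have hαA : α ∈ A := by rw [hA]; exact Subgroup.mem_zpowers α
  have hconj : ∀ a ∈ A, ξ * a * ξ⁻¹ ∈ A := by
    intro a ha
    rw [hA] at ha
    obtain ⟨k, rfl⟩ := Subgroup.mem_zpowers_iff.mp ha
    rw [← conj_zpow]
    exact A.zpow_mem h1 k
  have hconj' : ∀ a ∈ A, ξ⁻¹ * a * ξ ∈ A := by
    intro a ha
    have e : ξ⁻¹ * a * ξ = (ξ ^ 2)⁻¹ * (ξ * a * ξ⁻¹) * ξ ^ 2 := by
      rw [pow_two]; group
    rw [e]
    exact A.mul_mem (A.mul_mem (A.inv_mem h2) (hconj a ha)) h2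
  intro t ht
  induction ht using Subgroup.closure_induction with
  | mem y hy =>
    rcases hy with rfl | rfl
    · left; exact hαA
    · right; rw [inv_mul_cancel]; exact A.one_mem
  | one => left; exact A.one_mem
  | mul y w _ _ hy hw =>
    rcases hy with hy | hy <;> rcases hw with hw | hw
    · left; exact A.mul_mem hy hw
    · right
      have e : ξ⁻¹ * (y * w) = (ξ⁻¹ * y * ξ) * (ξ⁻¹ * w) := by group
      rw [e]; exact A.mul_mem (hconj' y hy) hw
    · right
      have e : ξ⁻¹ * (y * w) = (ξ⁻¹ * y) * w := by group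
      rw [e]; exact A.mul_mem hy hw
    · left
      have e : y * w = ξ ^ 2 * (ξ⁻¹ * (ξ⁻¹ * y) * ξ) * (ξ⁻¹ * w) := by
        rw [pow_two]; group
      rw [e]; exact A.mul_mem (A.mul_mem h2 (hconj' _ hy)) hw
  | inv y _ hy =>
    rcases hy with hy | hy
    · left; exact A.inv_mem hy
    · right
      have e : ξ⁻¹ * y⁻¹ = (ξ ^ 2)⁻¹ * (ξ * (ξ⁻¹ * y)⁻¹ * ξ⁻¹) := by
        rw [pow_two]; group
      rw [e]; exact A.mul_mem (A.inv_mem h2) (hconj _ (A.inv_mem hy))

/-- If `ξ` normalizes `⟨α⟩` and `ξ² ∈ ⟨α⟩`, then `⟨α, ξ⟩` has at most `2 |α|` elements. -/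
theorem card_closure_pair_le {S : Type*} [Group S] [Finite S] (α ξ : S)
    (h1 : ξ * α * ξ⁻¹ ∈ Subgroup.zpowers α) (h2 : ξ ^ 2 ∈ Subgroup.zpowers α) :
    Nat.card (Subgroup.closure ({α, ξ} : Set S)) ≤ 2 * orderOf α := by
  have hsub : ((Subgroup.closure ({α, ξ} : Set S) : Subgroup S) : Set S) ⊆
      (Subgroup.zpowers α : Set S) ∪ (fun a => ξ * a) '' (Subgroup.zpowers α : Set S) := by
    intro t ht
    rcases mem_or_of_closure α ξ h1 h2 t ht with h | h
    · left; exact h
    · right; exact ⟨ξ⁻¹ * t, h, by group⟩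
  have hc1 : Nat.card (Subgroup.closure ({α, ξ} : Set S)) =
      ((Subgroup.closure ({α, ξ} : Set S) : Subgroup S) : Set S).ncard :=
    Nat.card_coe_set_eq _
  have hc2 : (Subgroup.zpowers α : Set S).ncard = orderOf α := by
    rw [← Nat.card_zpowers]; exact (Nat.card_coe_set_eq _).symm
  rw [hc1]
  calc ((Subgroup.closure ({α, ξ} : Set S) : Subgroup S) : Set S).ncard
      ≤ ((Subgroup.zpowers α : Set S) ∪ (fun a => ξ * a) '' (Subgroup.zpowers α : Set S)).ncard :=
        Set.ncard_le_ncard hsub (Set.toFinite _)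
    _ ≤ (Subgroup.zpowers α : Set S).ncard + ((fun a => ξ * a) '' (Subgroup.zpowers α : Set S)).ncard :=
        Set.ncard_union_le _ _
    _ ≤ (Subgroup.zpowers α : Set S).ncard + (Subgroup.zpowers α : Set S).ncard :=
        Nat.add_le_add_left (Set.ncard_image_le (Set.toFinite _)) _
    _ = 2 * orderOf α := by rw [hc2]; ring

/-- A group generated by two commuting elements is commutative. -/
theorem comm_of_closure_pair {Q : Type*} [Group Q] (a b : Q)
    (hgen : Subgroup.closure ({a, b} : Set Q) = ⊤) (hab : a * b = b * a) : IsMulCommutative Q := by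
  have h1 : ∀ g : Q, g * a = a * g ∧ g * b = b * g := by
    intro g
    have hg : g ∈ Subgroup.closure ({a, b} : Set Q) := by rw [hgen]; exact Subgroup.mem_top g
    induction hg using Subgroup.closure_induction with
    | mem y hy =>
      rcases hy with rfl | rfl
      · exact ⟨rfl, hab⟩
      · exact ⟨hab.symm, rfl⟩
    | one => simp
    | mul y w _ _ hy hw =>
      constructor
      · rw [mul_assoc, hw.1, ← mul_assoc, hy.1, mul_assoc]
      · rw [mul_assoc, hw.2, ← mul_assoc, hy.2, mul_assoc]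
    | inv y _ hy =>
      constructor
      · have e : y⁻¹ * a = y⁻¹ * (a * y) * y⁻¹ := by group
        rw [e, ← hy.1]; group
      · have e : y⁻¹ * b = y⁻¹ * (b * y) * y⁻¹ := by group
        rw [e, ← hy.2]; group
  refine ⟨⟨fun g h => ?_⟩⟩
  have hh : h ∈ Subgroup.closure ({a, b} : Set Q) := by rw [hgen]; exact Subgroup.mem_top h
  induction hh using Subgroup.closure_induction with
  | mem y hy =>
    rcases hy with rfl | rfl
    · exact (h1 g).1
    · exact (h1 g).2
  | one => simp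
  | mul y w _ _ hy hw => rw [← mul_assoc, hy, mul_assoc, hw, mul_assoc]
  | inv y _ hy =>
    have e : g * y⁻¹ = y⁻¹ * (y * g) * y⁻¹ := by group
    rw [e, ← hy]; group

/-- In a non-commutative finite 2-group with a unique involution `z`: central elements are `1` or
`z`, every nontrivial cyclic subgroup contains `z`, and `z` is central. -/
theorem quat_facts.{u} {Q : Type u} [Group Q] [Finite Q] (hQ : IsPGroup 2 Q)
    (hnc : ¬ IsMulCommutative Q) (z : Q) (hz : orderOf z = 2)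
    (hzu : ∀ y : Q, orderOf y = 2 → y = z) :
    (∀ y : Q, y ^ 2 = 1 → y = 1 ∨ y = z) ∧
    (∀ w : Q, (∀ g : Q, g * w = w * g) → w = 1 ∨ w = z) ∧
    (∀ g : Q, g ≠ 1 → z ∈ Subgroup.zpowers g) ∧ (∀ g : Q, g * z = z * g) := by
  have hf2 : Fact (Nat.Prime 2) := ⟨Nat.prime_two⟩
  have hinv : ∀ y : Q, y ^ 2 = 1 → y = 1 ∨ y = z := by
    intro y hy
    by_cases h1 : y = 1
    · left; exact h1
    · right; exact hzu y (orderOf_eq_prime hy h1)
  have hz2 : z ^ 2 = 1 := by rw [← hz, pow_orderOf_eq_one]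
  have hz1 : z ≠ 1 := by
    intro h
    rw [h, orderOf_one] at hz
    omega
  refine ⟨hinv, ?_, ?_, ?_⟩
  · intro w hw
    apply hinv
    obtain ⟨m, a, x, hm, hoa, hcard, hx, hxa, hx2, hcl⟩ := S3202.quat_gens hQ hnc ⟨z, hz, hzu⟩
    have hwcl : w ∈ Subgroup.closure ({a, x} : Set Q) := by rw [hcl]; exact Subgroup.mem_top w
    have h1 : x * a * x⁻¹ ∈ Subgroup.zpowers a := by
      rw [hxa]; exact Subgroup.inv_mem _ (Subgroup.mem_zpowers a)
    have h2 : x ^ 2 ∈ Subgroup.zpowers a := by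
      rw [hx2]; exact Subgroup.pow_mem _ (Subgroup.mem_zpowers a) _
    rcases mem_or_of_closure a x h1 h2 w hwcl with h | h
    · obtain ⟨k, rfl⟩ := Subgroup.mem_zpowers_iff.mp h
      have e1 : x * a ^ k * x⁻¹ = (a ^ k)⁻¹ := by rw [← conj_zpow, hxa, inv_zpow]
      have e2 : x * a ^ k * x⁻¹ = a ^ k := by rw [hw x, mul_assoc, mul_inv_cancel, mul_one]
      rw [e2] at e1
      rw [pow_two]
      nth_rewrite 1 [e1]
      exact inv_mul_cancel _
    · exfalso
      obtain ⟨k, hk⟩ := Subgroup.mem_zpowers_iff.mp h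
      have hw' : w = x * a ^ k := by rw [hk]; group
      have e1 : a * (x * a ^ k) = (x * a ^ k) * a := by rw [← hw']; exact hw a
      have e2 : a * x = x * a := by
        have e3 : a * x = a * (x * a ^ k) * (a ^ k)⁻¹ := by group
        have e4 : x * a ^ k * a * (a ^ k)⁻¹ = x * a := by
          rw [mul_assoc x, ← zpow_add_one, mul_assoc, ← zpow_neg, ← zpow_add]
          simp
        rw [e3, e1, e4]
      have e4 : a⁻¹ = a := by rw [← hxa, ← e2, mul_inv_cancel_right]
      have e5 : a ^ 2 = 1 := by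
        rw [pow_two]
        nth_rewrite 1 [← e4]
        exact inv_mul_cancel a
      have e6 := orderOf_dvd_of_pow_eq_one e5
      rw [hoa] at e6
      have e7 : 2 ^ 2 ≤ 2 ^ m := Nat.pow_le_pow_right (by norm_num) hm
      have e8 := Nat.le_of_dvd (by norm_num) e6
      omega
  · intro g hg
    obtain ⟨k, hk⟩ := (IsPGroup.iff_orderOf.mp hQ) g
    have hk0 : k ≠ 0 := by
      intro h
      rw [h, pow_zero, orderOf_eq_one_iff] at hk
      exact hg hk
    have hy2 : (g ^ 2 ^ (k - 1)) ^ 2 = 1 := by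
      rw [← pow_mul, ← pow_succ, Nat.sub_add_cancel (Nat.pos_of_ne_zero hk0), ← hk,
        pow_orderOf_eq_one]
    have hy1 : g ^ 2 ^ (k - 1) ≠ 1 := by
      intro h
      have h1 := orderOf_dvd_of_pow_eq_one h
      rw [hk] at h1
      have h2 := Nat.le_of_dvd (by positivity) h1
      have h3 : 2 ^ (k - 1) < 2 ^ k := Nat.pow_lt_pow_right (by norm_num) (by omega)
      omega
    rcases hinv _ hy2 with h | h
    · exact absurd h hy1
    · rw [← h]; exact Subgroup.pow_mem _ (Subgroup.mem_zpowers g) _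
  · intro g
    have h1 : (g * z * g⁻¹) ^ 2 = 1 := by rw [conj_pow, hz2, mul_one, mul_inv_cancel]
    rcases hinv _ h1 with h | h
    · exfalso
      apply hz1
      have e : z = g⁻¹ * (g * z * g⁻¹) * g := by group
      rw [e, h]; group
    · have e : g * z = (g * z * g⁻¹) * g := by group
      rw [e, h]

/-- Two generators of a non-commutative 2-group with a unique involution, one inverting the other
modulo the involution, satisfy the quaternion relations exactly. -/
theorem quat_pin.{u} {Q : Type u} [Group Q] [Finite Q] (hQ : IsPGroup 2 Q)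
    (hnc : ¬ IsMulCommutative Q) (z : Q) (hz : orderOf z = 2)
    (hzu : ∀ y : Q, orderOf y = 2 → y = z)
    (α ξ : Q) (hgen : Subgroup.closure ({α, ξ} : Set Q) = ⊤)
    (hc : ξ * α * ξ⁻¹ * α = 1 ∨ ξ * α * ξ⁻¹ * α = z) (hx : ξ ^ 2 = 1 ∨ ξ ^ 2 = z) :
    ξ * α * ξ⁻¹ * α = 1 ∧ ξ ^ 2 = z ∧ Nat.card Q = 2 * orderOf α ∧
      ∀ k : ℕ, orderOf α = 2 * k → α ^ k = z := by
  have hf2 : Fact (Nat.Prime 2) := ⟨Nat.prime_two⟩
  obtain ⟨hinv, hcen, hpow, hzc⟩ := quat_facts hQ hnc z hz hzu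
  have hz2 : z ^ 2 = 1 := by rw [← hz, pow_orderOf_eq_one]
  have hcentral : ∀ y : Q, (y = 1 ∨ y = z) → ∀ g : Q, g * y = y * g := by
    rintro y (rfl | rfl) g
    · simp
    · exact hzc g
  have hx2 : ξ ^ 2 = z := by
    rcases hx with h | h
    · exfalso
      apply hnc
      exact comm_of_closure_pair α ξ hgen (hcentral ξ (hinv ξ h) α)
    · exact h
  have hc1 : ξ * α * ξ⁻¹ * α = 1 := by
    rcases hc with h | h
    · exact h
    · exfalso
      apply hnc
      have h1 : (ξ * α) ^ 2 = 1 := by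
        have e : (ξ * α) ^ 2 = (ξ * α * ξ⁻¹ * α) * (α⁻¹ * ξ ^ 2 * α) := by
          rw [pow_two, pow_two]; group
        have e2 : α⁻¹ * z * α = z := by
          rw [mul_assoc, ← hzc α, ← mul_assoc, inv_mul_cancel, one_mul]
        rw [e, h, hx2, e2, ← pow_two, hz2]
      have h2 := hcentral (ξ * α) (hinv _ h1) α
      have h3 : α * ξ = ξ * α := by
        have e : α * ξ = α * (ξ * α) * α⁻¹ := by group
        rw [e, h2]; group
      exact comm_of_closure_pair α ξ hgen h3
  have hα1 : α ≠ 1 := by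
    intro h
    apply hnc
    exact comm_of_closure_pair α ξ hgen (by rw [h, one_mul, mul_one])
  have hzα : z ∈ Subgroup.zpowers α := hpow α hα1
  have hξα : ξ * α * ξ⁻¹ = α⁻¹ := eq_inv_of_mul_eq_one_left hc1
  have h1 : ξ * α * ξ⁻¹ ∈ Subgroup.zpowers α := by
    rw [hξα]; exact Subgroup.inv_mem _ (Subgroup.mem_zpowers α)
  have h2 : ξ ^ 2 ∈ Subgroup.zpowers α := by rw [hx2]; exact hzα
  have hle := card_closure_pair_le α ξ h1 h2
  rw [hgen, Subgroup.card_top] at hle
  have hne : Subgroup.zpowers α ≠ ⊤ := by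
    intro h
    apply hnc
    have h3 : ξ ∈ Subgroup.zpowers α := by rw [h]; exact Subgroup.mem_top ξ
    obtain ⟨k, hk⟩ := Subgroup.mem_zpowers_iff.mp h3
    apply comm_of_closure_pair α ξ hgen
    rw [← hk, ← zpow_one_add, ← zpow_add_one, add_comm]
  have hge : 2 * orderOf α ≤ Nat.card Q := by
    have h3 := Subgroup.card_mul_index (Subgroup.zpowers α)
    rw [Nat.card_zpowers] at h3
    have h4 : (Subgroup.zpowers α).index ≠ 1 := fun h => hne (Subgroup.index_eq_one.mp h)
    have h5 : (Subgroup.zpowers α).index ≠ 0 := Subgroup.index_ne_zero_of_finite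
    have h6 : 2 ≤ (Subgroup.zpowers α).index := by omega
    calc 2 * orderOf α = orderOf α * 2 := by ring
      _ ≤ orderOf α * (Subgroup.zpowers α).index := Nat.mul_le_mul_left _ h6
      _ = Nat.card Q := h3
  refine ⟨hc1, hx2, le_antisymm hle hge, ?_⟩
  intro k hk
  have hk0 : k ≠ 0 := by
    intro h
    rw [h, mul_zero] at hk
    exact (orderOf_pos α).ne' hk
  have e1 : (α ^ k) ^ 2 = 1 := by rw [← pow_mul, mul_comm, ← hk, pow_orderOf_eq_one]
  have e2 : α ^ k ≠ 1 := pow_ne_one_of_lt_orderOf hk0 (by omega)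
  rcases hinv _ e1 with h | h
  · exact absurd h e2
  · exact h

end Cfsg.Agent.Helper18.QuatGroup
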