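import Mathlib

set_option autoImplicit false

namespace Cfsg.Agent.Helper18.SL25Elt

theorem scalar_D1 : ∀ a b c d : ZMod 5, a * d - b * c = 1 → a + d = -1 →
    ∃ p q r : ZMod 5, p * p + q * r = -1 ∧ p * (a - d) + q * c + r * b = 0 := by decide

theorem scalar_tr : ∀ a b c d : ZMod 5, a * d - b * c = 1 →
    (a * a + b * c) * a + (a * b + b * d) * c = 1 →
    (a * a + b * c) * b + (a * b + b * d) * d = 0 →
    (c * a + d * c) * a + (c * b + d * d) * c = 0 →
    (c * a + d * c) * b + (c * b + d * d) * d = 1 →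
    ¬(a = 1 ∧ b = 0 ∧ c = 0 ∧ d = 1) → a + d = -1 := by decide

/-- an element of order 3 of `SL₂(5)` is inverted by an element `w` whose square is a
central involution -/
theorem exists_w (x : Matrix.SpecialLinearGroup (Fin 2) (ZMod 5)) (hx3 : x * x * x = 1)
    (hx1 : x ≠ 1) :
    ∃ w : Matrix.SpecialLinearGroup (Fin 2) (ZMod 5), x * w * x = w ∧ w * w ≠ 1 ∧
      (w * w) * (w * w) = 1 ∧ ∀ y, (w * w) * y = y * (w * w) := by
  obtain ⟨A, hA⟩ := x
  have hdet : A 0 0 * A 1 1 - A 0 1 * A 1 0 = 1 := by rw [← Matrix.det_fin_two]; exact hA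
  have h3 : A * A * A = 1 := congrArg Subtype.val hx3
  have hA1 : A ≠ 1 := fun h => hx1 (Subtype.ext h)
  have hAeta : A = !![A 0 0, A 0 1; A 1 0, A 1 1] := Matrix.eta_fin_two A
  have htr : A 0 0 + A 1 1 = -1 := by
    apply scalar_tr (A 0 0) (A 0 1) (A 1 0) (A 1 1) hdet
    · have := congrFun (congrFun h3 0) 0
      simp [Matrix.mul_apply, Fin.sum_univ_two] at this
      linear_combination this
    · have := congrFun (congrFun h3 0) 1
      simp [Matrix.mul_apply, Fin.sum_univ_two] at this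
      linear_combination this
    · have := congrFun (congrFun h3 1) 0
      simp [Matrix.mul_apply, Fin.sum_univ_two] at this
      linear_combination this
    · have := congrFun (congrFun h3 1) 1
      simp [Matrix.mul_apply, Fin.sum_univ_two] at this
      linear_combination this
    · rintro ⟨h1, h2, h3, h4⟩
      apply hA1
      rw [hAeta, h1, h2, h3, h4]
      exact Matrix.one_fin_two.symm
  obtain ⟨p, q, r, hpq, hlin⟩ := scalar_D1 (A 0 0) (A 0 1) (A 1 0) (A 1 1) hdet htr
  have hwdet : (!![p, q; r, -p] : Matrix (Fin 2) (Fin 2) (ZMod 5)).det = 1 := by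
    rw [Matrix.det_fin_two_of]; linear_combination -hpq
  have hww : (!![p, q; r, -p] : Matrix (Fin 2) (Fin 2) (ZMod 5)) * !![p, q; r, -p]
      = !![-1, 0; 0, -1] := by
    rw [Matrix.mul_fin_two]
    congr 1
    ext i j
    fin_cases i <;> fin_cases j <;> simp <;> first | linear_combination hpq | ring
  refine ⟨⟨!![p, q; r, -p], hwdet⟩, ?_, ?_, ?_, ?_⟩
  · apply Subtype.ext
    show A * !![p, q; r, -p] * A = !![p, q; r, -p]
    ext i j
    fin_cases i <;> fin_cases j <;> simp [Matrix.mul_apply, Fin.sum_univ_two]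
    · linear_combination A 0 0 * hlin + p * hdet
    · linear_combination A 0 1 * hlin + q * hdet
    · linear_combination A 1 0 * hlin + r * hdet
    · linear_combination A 1 1 * hlin - p * hdet
  · intro h
    have := congrArg Subtype.val h
    have h2 : (!![p, q; r, -p] : Matrix (Fin 2) (Fin 2) (ZMod 5)) * !![p, q; r, -p] = 1 := this
    rw [hww] at h2
    have := congrFun (congrFun h2 0) 0
    simp at this
    revert this; decide
  · apply Subtype.ext
    show (!![p, q; r, -p] : Matrix (Fin 2) (Fin 2) (ZMod 5)) * !![p, q; r, -p] * (!![p, q; r, -p] * !![p, q; r, -p]) = 1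
    rw [hww, Matrix.mul_fin_two, Matrix.one_fin_two]
    simp
  · intro y
    apply Subtype.ext
    show (!![p, q; r, -p] : Matrix (Fin 2) (Fin 2) (ZMod 5)) * !![p, q; r, -p] * y.1 = y.1 * (!![p, q; r, -p] * !![p, q; r, -p])
    rw [hww, Matrix.eta_fin_two y.1, Matrix.mul_fin_two, Matrix.mul_fin_two]
    simp

/-- a transvection of order 5 -/
theorem exists_y : ∃ y : Matrix.SpecialLinearGroup (Fin 2) (ZMod 5), y ^ 5 = 1 ∧ y ≠ 1 := by
  refine ⟨⟨!![1, 1; 0, 1], by simp [Matrix.det_fin_two_of]⟩, ?_, ?_⟩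
  · apply Subtype.ext
    show (!![1, 1; 0, 1] : Matrix (Fin 2) (Fin 2) (ZMod 5)) ^ 5 = 1
    simp only [pow_succ, pow_zero, one_mul, Matrix.mul_fin_two, Matrix.one_fin_two]
    congr 1
  · intro h
    have := congrArg Subtype.val h
    have h2 : (!![1, 1; 0, 1] : Matrix (Fin 2) (Fin 2) (ZMod 5)) 0 1 = (1 : Matrix (Fin 2) (Fin 2) (ZMod 5)) 0 1 :=
      congrFun (congrFun this 0) 1
    simp at h2
    exact absurd h2 (by decide)

end Cfsg.Agent.Helper18.SL25Elt
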