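import Mathlib
import Cfsg.Agent.Helper13.PSL2Sylow

/-!
# Normal subgroups and the second center of `SL₂(F)`, `F` a finite field of odd order

* `sn_second_center`: an element of `SL₂(F)` that commutes with everything modulo the center
  is central.
* `sn_normal_cases`: a normal subgroup of `SL₂(F)` is central, everything, or has order 8
  inside a group of order 24.
* `sn_iso_facts`: the same facts for a subgroup of a group that is isomorphic to `SL₂(F)`.
-/

set_option autoImplicit false

namespace Cfsg.Agent.Helper18.SL2Norm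

open scoped commutatorElement Pointwise

section Three

local notation "S23" => Matrix.SpecialLinearGroup (Fin 2) (ZMod 3)

theorem sn_fact3 : Fact (Nat.Prime 3) := ⟨by norm_num⟩

attribute [local instance] sn_fact3

set_option maxRecDepth 100000 in
theorem sn_d1 : ∀ x : S23, x ≠ 1 → x ≠ -1 → ∀ y : S23, y ^ 4 = 1 →
    ∃ g h : S23, y = (g * x * g⁻¹ * x⁻¹) * (h * x * h⁻¹ * x⁻¹) := by
  decide +kernel

theorem sn_d2 : ∀ y : S23, y ^ 8 = 1 → y ^ 4 = 1 := by decide +kernel

theorem sn_d3 : ∀ y : S23, y * (-1) = (-1) * y := by decide +kernel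

theorem sn_card23 : Nat.card S23 = 24 := by
  rw [Cfsg.Agent.S2301.card_SL2, ZMod.card]
  norm_num

/-- normal subgroups of `SL₂(3)` -/
theorem sn_normal_three (N : Subgroup S23) [hN : N.Normal] :
    N ≤ Subgroup.center S23 ∨ Nat.card N = 24 ∨ Nat.card N = 8 := by
  by_cases h : ∀ x ∈ N, x = 1 ∨ x = -1
  · left
    intro x hx
    rw [Subgroup.mem_center_iff]
    intro y
    rcases h x hx with rfl | rfl
    · simp
    · exact sn_d3 y
  · right
    push Not at h
    obtain ⟨x, hx, hx1, hx2⟩ := h
    have hQ : ∀ y : S23, y ^ 4 = 1 → y ∈ N := by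
      intro y hy
      obtain ⟨g, k, rfl⟩ := sn_d1 x hx1 hx2 y hy
      exact N.mul_mem (N.mul_mem (hN.conj_mem x hx g) (N.inv_mem hx))
        (N.mul_mem (hN.conj_mem x hx k) (N.inv_mem hx))
    have h8 : 2 ^ 3 ∣ Nat.card S23 := by rw [sn_card23]; norm_num
    obtain ⟨K, hK⟩ := Sylow.exists_subgroup_card_pow_prime 2 h8
    have hKN : K ≤ N := by
      intro y hy
      apply hQ
      apply sn_d2
      have h1 : (⟨y, hy⟩ : K) ^ 8 = 1 := by
        have := pow_card_eq_one' (G := K) (x := ⟨y, hy⟩)
        rw [hK] at this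
        exact this
      exact congrArg Subtype.val h1
    have hd1 : 8 ∣ Nat.card N := by
      have := Subgroup.card_dvd_of_le hKN
      rw [hK] at this
      exact this
    have hd2 : Nat.card N ∣ 24 := by
      rw [← sn_card23]; exact Subgroup.card_subgroup_dvd_card N
    obtain ⟨k, hk⟩ := hd1
    rw [hk] at hd2 ⊢
    have hk3 : k ∣ 3 := by
      have : 8 * k ∣ 8 * 3 := hd2
      exact Nat.dvd_of_mul_dvd_mul_left (by norm_num) this
    have hk' : k = 1 ∨ k = 3 := (Nat.dvd_prime (by norm_num)).mp hk3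
    rcases hk' with rfl | rfl
    · right; rfl
    · left; rfl

end Three

section General

variable {F : Type*} [Field F] [Fintype F]

local notation "SL2" => Matrix.SpecialLinearGroup (Fin 2) F

theorem sn_two_ne_zero (hodd : Odd (Fintype.card F)) : (2 : F) ≠ 0 := by
  intro h
  have hchar : ringChar F = 2 := by
    have h3 : ((2 : ℕ) : F) = 0 := by exact_mod_cast h
    have h4 := (ringChar.spec F 2).mp h3
    exact (Nat.prime_dvd_prime_iff_eq (CharP.char_is_prime F (ringChar F)) Nat.prime_two).mp h4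
  have := FiniteField.even_card_of_char_two hchar
  rw [Nat.odd_iff] at hodd
  omega

/-- the upper elementary matrix -/
def sn_up : SL2 := ⟨!![1, 1; 0, 1], by simp [Matrix.det_fin_two_of]⟩

/-- the lower elementary matrix -/
def sn_lo : SL2 := ⟨!![1, 0; 1, 1], by simp [Matrix.det_fin_two_of]⟩

/-- an element commuting with everything modulo the center is central -/
theorem sn_second_center (hodd : Odd (Fintype.card F)) (y : SL2)
    (h : ∀ x : SL2, y * x * y⁻¹ * x⁻¹ ∈ Subgroup.center SL2) : y ∈ Subgroup.center SL2 := by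
  have h2 := sn_two_ne_zero hodd
  obtain ⟨a, ha⟩ : ∃ a, a = y.1 0 0 := ⟨_, rfl⟩
  obtain ⟨b, hb⟩ : ∃ b, b = y.1 0 1 := ⟨_, rfl⟩
  obtain ⟨c, hc⟩ : ∃ c, c = y.1 1 0 := ⟨_, rfl⟩
  obtain ⟨d, hd⟩ : ∃ d, d = y.1 1 1 := ⟨_, rfl⟩
  have hdet := y.2
  rw [Matrix.det_fin_two, ← ha, ← hb, ← hc, ← hd] at hdet
  -- the upper elementary matrix
  have hup : c = 0 ∧ a = d := by
    obtain ⟨z, hz⟩ : ∃ z : SL2, z = y * sn_up * y⁻¹ * sn_up⁻¹ := ⟨_, rfl⟩
    have hzc : z ∈ Subgroup.center SL2 := by rw [hz]; exact h sn_up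
    obtain ⟨ε, hε, e00, e01, e10, e11⟩ :=
      Cfsg.Agent.Helper13.entries_of_mem_center_SL2 hzc
    have hu : y * sn_up = z * sn_up * y := by rw [hz]; group
    have hu' := congrArg (fun m : SL2 => m.1) hu
    simp only [Matrix.SpecialLinearGroup.coe_mul] at hu'
    have u00 := congrFun (congrFun hu' 0) 0
    have u01 := congrFun (congrFun hu' 0) 1
    have u10 := congrFun (congrFun hu' 1) 0
    simp only [Matrix.mul_apply, Fin.sum_univ_two, e00, e01, e10, e11, ← ha, ← hb, ← hc, ← hd,
      sn_up, Matrix.of_apply, Matrix.cons_val_zero, Matrix.cons_val_one, Matrix.cons_val',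
      Matrix.cons_val_fin_one] at u00 u01 u10
    rcases hε with rfl | rfl
    · refine ⟨?_, ?_⟩
      · linear_combination (-1 : F) * u00
      · linear_combination u01
    · exfalso
      have hc0 : c = 0 := by
        have : (2 : F) * c = 0 := by linear_combination u10
        rcases mul_eq_zero.mp this with h' | h'
        · exact absurd h' h2
        · exact h'
      have ha0 : a = 0 := by
        have : (2 : F) * a = 0 := by linear_combination u00 - hc0
        rcases mul_eq_zero.mp this with h' | h'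
        · exact absurd h' h2
        · exact h'
      rw [ha0, hc0] at hdet
      simp at hdet
  -- the lower elementary matrix
  have hlo : b = 0 := by
    obtain ⟨z, hz⟩ : ∃ z : SL2, z = y * sn_lo * y⁻¹ * sn_lo⁻¹ := ⟨_, rfl⟩
    have hzc : z ∈ Subgroup.center SL2 := by rw [hz]; exact h sn_lo
    obtain ⟨ε, hε, e00, e01, e10, e11⟩ :=
      Cfsg.Agent.Helper13.entries_of_mem_center_SL2 hzc
    have hu : y * sn_lo = z * sn_lo * y := by rw [hz]; group
    have hu' := congrArg (fun m : SL2 => m.1) hu
    simp only [Matrix.SpecialLinearGroup.coe_mul] at hu'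
    have u00 := congrFun (congrFun hu' 0) 0
    have u01 := congrFun (congrFun hu' 0) 1
    simp only [Matrix.mul_apply, Fin.sum_univ_two, e00, e01, ← ha, ← hb, ← hc, ← hd,
      sn_lo, Matrix.of_apply, Matrix.cons_val_zero, Matrix.cons_val_one, Matrix.cons_val',
      Matrix.cons_val_fin_one] at u00 u01
    rcases hε with rfl | rfl
    · linear_combination u00
    · exfalso
      have hb0 : b = 0 := by
        have : (2 : F) * b = 0 := by linear_combination u01
        rcases mul_eq_zero.mp this with h' | h'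
        · exact absurd h' h2
        · exact h'
      have ha0 : a = 0 := by
        have : (2 : F) * a = 0 := by linear_combination u00 - hb0
        rcases mul_eq_zero.mp this with h' | h'
        · exact absurd h' h2
        · exact h'
      rw [ha0, hup.1] at hdet
      simp at hdet
  obtain ⟨hc0, had⟩ := hup
  have haa : a * a = 1 := by
    rw [hlo, hc0, ← had] at hdet
    simpa using hdet
  exact Cfsg.Agent.Helper13.mem_center_SL2_of_entries y a (mul_self_eq_one_iff.mp haa) ha.symm
    (by rw [← hb, hlo]) (by rw [← hc, hc0]) (by rw [← hd, had])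

theorem sn_comm_central_left {G : Type*} [Group G] (a c z : G) (hz : ∀ x, x * z = z * x) :
    ⁅a * z, c⁆ = ⁅a, c⁆ := by
  rw [commutatorElement_def, commutatorElement_def, mul_inv_rev, mul_assoc a z c, ← hz c,
    ← mul_assoc a c z, mul_assoc (a * c) z, ← mul_assoc z z⁻¹, mul_inv_cancel, one_mul]

theorem sn_comm_central_right {G : Type*} [Group G] (a c z : G) (hz : ∀ x, x * z = z * x) :
    ⁅a, c * z⁆ = ⁅a, c⁆ := by
  have h1 : ⁅a, c * z⁆ = (⁅c * z, a⁆)⁻¹ := (commutatorElement_inv _ _).symm
  rw [h1, sn_comm_central_left c a z hz, commutatorElement_inv]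

/-- normal subgroups of `SL₂(F)` for `|F| ≥ 4` -/
theorem sn_normal_big (hF4 : 4 ≤ Fintype.card F) (N : Subgroup SL2) [hN : N.Normal] :
    N ≤ Subgroup.center SL2 ∨ N = ⊤ := by
  classical
  have hex2 : ∃ a : F, a ≠ 0 ∧ a ^ 2 ≠ 1 := by
    have hlt : ({0, 1, -1} : Finset F).card < (Finset.univ : Finset F).card := by
      rw [Finset.card_univ]
      calc ({0, 1, -1} : Finset F).card ≤ 3 := Finset.card_le_three
        _ < Fintype.card F := by omega
    obtain ⟨a, -, ha⟩ := Finset.exists_mem_notMem_of_card_lt_card hlt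
    rw [Finset.mem_insert, Finset.mem_insert, Finset.mem_singleton] at ha
    push Not at ha
    refine ⟨a, ha.1, ?_⟩
    intro hsq
    have h3 : (a - 1) * (a + 1) = 0 := by linear_combination hsq
    rcases mul_eq_zero.1 h3 with h | h
    · exact ha.2.1 (sub_eq_zero.1 h)
    · exact ha.2.2 (eq_neg_of_add_eq_zero_left h)
  obtain ⟨a, ha, hasq⟩ := hex2
  have hperf : commutator SL2 = ⊤ := Matrix.SL2.commutator_eq_top ha hasq
  have hsimple : IsSimpleGroup (Matrix.ProjectiveSpecialLinearGroup (Fin 2) F) :=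
    Matrix.ProjectiveSpecialLinearGroup.rank_two_simple
      (by rw [Nat.card_eq_fintype_card]; exact hF4)
  have hNbar : (N.map (QuotientGroup.mk' (Subgroup.center SL2))).Normal :=
    Subgroup.Normal.map hN _ (QuotientGroup.mk'_surjective _)
  rcases hNbar.eq_bot_or_eq_top with h | h
  · left
    rw [Subgroup.map_eq_bot_iff, QuotientGroup.ker_mk'] at h
    exact h
  · right
    have hsup : N ⊔ Subgroup.center SL2 = ⊤ := by
      have h1 := Subgroup.comap_map_eq (QuotientGroup.mk' (Subgroup.center SL2)) N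
      rw [h, Subgroup.comap_top, QuotientGroup.ker_mk'] at h1
      exact h1.symm
    have hcomm : commutator SL2 ≤ N := by
      rw [commutator_def, Subgroup.commutator_le]
      intro s _ t _
      have hs : s ∈ N ⊔ Subgroup.center SL2 := by
        rw [hsup]
        exact Subgroup.mem_top s
      have ht : t ∈ N ⊔ Subgroup.center SL2 := by
        rw [hsup]
        exact Subgroup.mem_top t
      have hs' : s ∈ ((N : Set SL2) * ((Subgroup.center SL2 : Subgroup SL2) : Set SL2)) := by
        rw [← Subgroup.mul_normal]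
        exact hs
      have ht' : t ∈ ((N : Set SL2) * ((Subgroup.center SL2 : Subgroup SL2) : Set SL2)) := by
        rw [← Subgroup.mul_normal]
        exact ht
      obtain ⟨y₁, hy₁, z₁, hz₁, rfl⟩ := Set.mem_mul.1 hs'
      obtain ⟨y₂, hy₂, z₂, hz₂, rfl⟩ := Set.mem_mul.1 ht'
      rw [sn_comm_central_left _ _ _ (Subgroup.mem_center_iff.1 hz₁),
        sn_comm_central_right _ _ _ (Subgroup.mem_center_iff.1 hz₂), commutatorElement_def]
      exact N.mul_mem (N.mul_mem (N.mul_mem hy₁ hy₂) (N.inv_mem hy₁)) (N.inv_mem hy₂)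
    rw [hperf] at hcomm
    exact top_le_iff.mp hcomm

/-- `SL₂` over a field with three elements -/
theorem sn_iso_three (hF : Fintype.card F = 3) :
    Nonempty (Matrix.SpecialLinearGroup (Fin 2) (ZMod 3) ≃* SL2) := by
  classical
  let e : ZMod 3 ≃+* F := ZMod.ringEquivOfPrime F (by norm_num) hF
  let ψ : Matrix.SpecialLinearGroup (Fin 2) (ZMod 3) →* SL2 :=
    Matrix.SpecialLinearGroup.map (e : ZMod 3 →+* F)
  have hψ : Function.Injective ψ := by
    intro g h hgh
    apply Subtype.ext
    ext i j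
    have := congrFun (congrFun (congrArg Subtype.val hgh) i) j
    simp only [ψ, Matrix.SpecialLinearGroup.map_apply_coe, RingHom.mapMatrix_apply,
      Matrix.map_apply] at this
    exact e.injective this
  have hsurj : Function.Surjective ψ := by
    intro x
    refine ⟨Matrix.SpecialLinearGroup.map (e.symm : F →+* ZMod 3) x, ?_⟩
    apply Subtype.ext
    ext i j
    simp [ψ]
  exact ⟨MulEquiv.ofBijective ψ ⟨hψ, hsurj⟩⟩

/-- normal subgroups of `SL₂(F)`, `F` of odd order -/
theorem sn_normal_cases (hodd : Odd (Fintype.card F)) (N : Subgroup SL2) [hN : N.Normal] :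
    N ≤ Subgroup.center SL2 ∨ N = ⊤ ∨ (Nat.card SL2 = 24 ∧ Nat.card N = 8) := by
  classical
  by_cases hF4 : 4 ≤ Fintype.card F
  · rcases sn_normal_big hF4 N with h | h
    · exact Or.inl h
    · exact Or.inr (Or.inl h)
  · have hF3 : Fintype.card F = 3 := by
      have h1 : 1 < Fintype.card F := Fintype.one_lt_card
      rw [Nat.odd_iff] at hodd
      omega
    have hcard : Nat.card SL2 = 24 := by
      rw [Cfsg.Agent.S2301.card_SL2, hF3]
      norm_num
    obtain ⟨ψ⟩ := sn_iso_three hF3
    have hN'n : (N.map ψ.symm.toMonoidHom).Normal := Subgroup.Normal.map hN _ ψ.symm.surjective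
    have hcardN : Nat.card (N.map ψ.symm.toMonoidHom) = Nat.card N :=
      Subgroup.card_map_of_injective ψ.symm.injective
    rcases sn_normal_three (N.map ψ.symm.toMonoidHom) with h | h | h
    · left
      intro x hx
      rw [Subgroup.mem_center_iff]
      intro y
      have h1 : ψ.symm x ∈ N.map ψ.symm.toMonoidHom := ⟨x, hx, rfl⟩
      have h2 := Subgroup.mem_center_iff.mp (h h1) (ψ.symm y)
      apply ψ.symm.injective
      rw [map_mul, map_mul]
      exact h2
    · right; left
      rw [← Subgroup.card_eq_iff_eq_top, ← hcardN, h, hcard]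
    · right; right
      exact ⟨hcard, by rw [← hcardN, h]⟩

/-- facts about a subgroup isomorphic to `SL₂(F)`, `F` of odd order, containing an involution
`j` central in it -/
theorem sn_iso_facts {G : Type*} [Group G] (hodd : Odd (Fintype.card F)) (L : Subgroup G)
    (e : ↥L ≃* SL2) (j : G) (hj : orderOf j = 2) (hjL : j ∈ L) (hjc : ∀ x ∈ L, j * x = x * j) :
    (∀ y ∈ L, (∀ x ∈ L, y * x * y⁻¹ * x⁻¹ ∈ Subgroup.zpowers j) → y ∈ Subgroup.zpowers j) ∧
    (∀ N : Subgroup G, N ≤ L → (∀ x ∈ L, ∀ m ∈ N, x * m * x⁻¹ ∈ N) →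
      N ≤ Subgroup.zpowers j ∨ N = L ∨ (Nat.card L = 24 ∧ Nat.card N = 8)) ∧
    Nat.card L = Fintype.card F * (Fintype.card F ^ 2 - 1) := by
  classical
  have hj1 : j ≠ 1 := by
    intro h
    rw [h, orderOf_one] at hj
    norm_num at hj
  obtain ⟨j', hj'⟩ : ∃ j' : SL2, j' = e ⟨j, hjL⟩ := ⟨_, rfl⟩
  have hj'c : j' ∈ Subgroup.center SL2 := by
    rw [Subgroup.mem_center_iff]
    intro g
    have h1 : (e.symm g) * ⟨j, hjL⟩ = ⟨j, hjL⟩ * (e.symm g) :=
      Subtype.ext (hjc _ (e.symm g).2).symm
    have h2 := congrArg e h1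
    rw [map_mul, map_mul, e.apply_symm_apply, ← hj'] at h2
    exact h2
  have hj'1 : j' ≠ 1 := by
    intro h
    have : (⟨j, hjL⟩ : L) = 1 := e.injective (by rw [map_one, ← hj']; exact h)
    exact hj1 (congrArg Subtype.val this)
  have hcen : ∀ z ∈ Subgroup.center SL2, z = 1 ∨ z = j' := by
    intro z hz
    have hcard := Cfsg.Agent.Helper13.card_center_SL2_of_odd hodd
    rw [Nat.card_eq_two_iff' (1 : Subgroup.center SL2)] at hcard
    obtain ⟨w, hw, huniq⟩ := hcard
    by_cases hz1 : z = 1
    · left; exact hz1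
    · right
      have h1 : (⟨z, hz⟩ : Subgroup.center SL2) = w :=
        huniq _ (fun h => hz1 (congrArg Subtype.val h))
      have h2 : (⟨j', hj'c⟩ : Subgroup.center SL2) = w :=
        huniq _ (fun h => hj'1 (congrArg Subtype.val h))
      exact congrArg Subtype.val (h1.trans h2.symm)
  have hback : ∀ (y : G) (hy : y ∈ L), e ⟨y, hy⟩ ∈ Subgroup.center SL2 →
      y ∈ Subgroup.zpowers j := by
    intro y hy h
    rcases hcen _ h with h1 | h1
    · have h3 : (⟨y, hy⟩ : L) = 1 := e.injective (by rw [map_one]; exact h1)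
      have h4 : y = 1 := congrArg Subtype.val h3
      rw [h4]
      exact Subgroup.one_mem _
    · have h3 : (⟨y, hy⟩ : L) = ⟨j, hjL⟩ := e.injective (by rw [← hj']; exact h1)
      have h4 : y = j := congrArg Subtype.val h3
      rw [h4]
      exact Subgroup.mem_zpowers j
  have hfwd : ∀ (y : G) (hy : y ∈ L), y ∈ Subgroup.zpowers j →
      e ⟨y, hy⟩ ∈ Subgroup.center SL2 := by
    intro y hy hyz
    rw [Subgroup.mem_center_iff]
    intro g
    have hcomm : ∀ x ∈ L, y * x = x * y := by
      intro x hx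
      obtain ⟨k, rfl⟩ := Subgroup.mem_zpowers_iff.mp hyz
      have hc : Commute j x := hjc x hx
      exact (hc.zpow_left k).eq
    have h1 : (e.symm g) * ⟨y, hy⟩ = ⟨y, hy⟩ * (e.symm g) :=
      Subtype.ext (hcomm _ (e.symm g).2).symm
    have h2 := congrArg e h1
    rw [map_mul, map_mul, e.apply_symm_apply] at h2
    exact h2
  refine ⟨?_, ?_, ?_⟩
  · intro y hy h
    apply hback y hy
    apply sn_second_center hodd
    intro x'
    have hx := h (e.symm x') (e.symm x').2
    have h1 := hfwd _ (L.mul_mem (L.mul_mem (L.mul_mem hy (e.symm x').2) (L.inv_mem hy))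
      (L.inv_mem (e.symm x').2)) hx
    have h2 : (⟨y * (e.symm x' : G) * y⁻¹ * (e.symm x' : G)⁻¹,
        L.mul_mem (L.mul_mem (L.mul_mem hy (e.symm x').2) (L.inv_mem hy))
          (L.inv_mem (e.symm x').2)⟩ : L)
        = ⟨y, hy⟩ * e.symm x' * ⟨y, hy⟩⁻¹ * (e.symm x')⁻¹ := rfl
    rw [h2, map_mul, map_mul, map_mul, map_inv, map_inv, e.apply_symm_apply] at h1
    exact h1
  · intro N hNL hNn
    have hnorm : (N.subgroupOf L).Normal := by
      refine ⟨fun m hm x => ?_⟩
      rw [Subgroup.mem_subgroupOf] at hm ⊢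
      exact hNn x.1 x.2 m.1 hm
    have hN'n : ((N.subgroupOf L).map e.toMonoidHom).Normal :=
      Subgroup.Normal.map hnorm _ e.surjective
    have hmem : ∀ (m : G) (hm : m ∈ N), e ⟨m, hNL hm⟩ ∈ (N.subgroupOf L).map e.toMonoidHom := by
      intro m hm
      exact ⟨⟨m, hNL hm⟩, Subgroup.mem_subgroupOf.mpr hm, rfl⟩
    have hcardN : Nat.card ((N.subgroupOf L).map e.toMonoidHom) = Nat.card N := by
      rw [Subgroup.card_map_of_injective e.injective]
      exact Nat.card_congr (Subgroup.subgroupOfEquivOfLe hNL).toEquiv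
    rcases sn_normal_cases hodd ((N.subgroupOf L).map e.toMonoidHom) with h | h | ⟨h1, h2⟩
    · left
      intro m hm
      exact hback m (hNL hm) (h (hmem m hm))
    · right; left
      apply le_antisymm hNL
      intro x hx
      have h3 : e ⟨x, hx⟩ ∈ (N.subgroupOf L).map e.toMonoidHom := by
        rw [h]; exact Subgroup.mem_top _
      obtain ⟨m, hm, hme⟩ := h3
      have h4 : m = ⟨x, hx⟩ := e.injective hme
      have hm' : m ∈ N.subgroupOf L := hm
      rw [Subgroup.mem_subgroupOf, h4] at hm'
      exact hm'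
    · right; right
      exact ⟨by rw [Nat.card_congr e.toEquiv]; exact h1, by rw [← hcardN]; exact h2⟩
  · rw [Nat.card_congr e.toEquiv]; exact Cfsg.Agent.S2301.card_SL2

end General

end Cfsg.Agent.Helper18.SL2Norm
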