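import Mathlib

set_option autoImplicit false

namespace Cfsg.Agent.Helper18

open MulAction

/-- Thompson transfer, refined form: if `M` has index two in a Sylow 2-subgroup `S`, every
element of `S` outside `M` has order exceeding `2^(n-1)`, and `x` in `S` of order `2^n` has no
conjugate in `M`, then some homomorphism to the units of the integers sends `x` to `-1`. -/
theorem exists_hom_neg_one {G : Type*} [Group G] [Finite G] (S : Sylow 2 G) (M : Subgroup G)
    (hM : M.relIndex (S : Subgroup G) = 2)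
    (n : ℕ) (hord : ∀ y ∈ (S : Subgroup G), y ∉ M → 2 ^ (n - 1) < orderOf y)
    (x : G) (hxn : orderOf x = 2 ^ n)
    (hcon : ∀ g : G, g * x * g⁻¹ ∉ M) : ∃ V : G →* ℤˣ, V x = -1 := by
  classical
  have hidx : (M.subgroupOf (S : Subgroup G)).index = 2 := hM
  let ϕ : (S : Subgroup G) →* ℤˣ :=
    { toFun := fun s => if (s : G) ∈ M then 1 else -1
      map_one' := by simp [M.one_mem]
      map_mul' := by
        intro a b
        have := Subgroup.mul_mem_iff_of_index_two hidx (a := a) (b := b)
        simp only [Subgroup.mem_subgroupOf, Subgroup.coe_mul] at this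
        by_cases ha : (a : G) ∈ M <;> by_cases hb : (b : G) ∈ M <;> simp [this, ha, hb] }
  have hϕ : ∀ s : (S : Subgroup G), ϕ s = if (s : G) ∈ M then 1 else -1 := fun s => rfl
  have : Fintype (Quotient (orbitRel (Subgroup.zpowers x) (G ⧸ (S : Subgroup G)))) :=
    Fintype.ofFinite _
  have key := MonoidHom.transfer_eq_prod_quotient_orbitRel_zpowers_quot ϕ x
  have hsum := Subgroup.index_eq_sum_minimalPeriod (S : Subgroup G) x
  have hconjpow : ∀ (g y : G) (m : ℕ), (g⁻¹ * y * g) ^ m = g⁻¹ * y ^ m * g := by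
    intro g y m
    have := conj_pow (a := g⁻¹) (b := y) (i := m)
    simpa using this
  have hterm : ∀ q : Quotient (orbitRel (Subgroup.zpowers x) (G ⧸ (S : Subgroup G))),
      ϕ ⟨q.out.out⁻¹ * x ^ Function.minimalPeriod (x • ·) q.out * q.out.out,
            QuotientGroup.out_conj_pow_minimalPeriod_mem (S : Subgroup G) x q.out⟩
        = (-1) ^ (Function.minimalPeriod (x • ·) q.out) := by
    intro q
    have hmem := QuotientGroup.out_conj_pow_minimalPeriod_mem (S : Subgroup G) x q.out
    have hkdvd : Function.minimalPeriod (x • ·) q.out ∣ 2 ^ n := by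
      apply Function.IsPeriodicPt.minimalPeriod_dvd
      have : (x • · : G ⧸ (S : Subgroup G) → G ⧸ (S : Subgroup G))^[2 ^ n] = ((x ^ (2 ^ n)) • ·) := by
        rw [smul_iterate]
      rw [Function.IsPeriodicPt, Function.IsFixedPt, this, ← hxn, pow_orderOf_eq_one]
      simp
    obtain ⟨a, ha, hka⟩ := (Nat.dvd_prime_pow Nat.prime_two).1 hkdvd
    rw [hϕ]
    dsimp only
    rw [hka] at hmem
    simp only [hka]
    rcases Nat.eq_zero_or_pos a with rfl | hapos
    · simp only [pow_zero, pow_one]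
      rw [if_neg]
      have := hcon (q.out.out⁻¹)
      simpa using this
    · rw [if_pos]
      · rw [Even.neg_pow (Nat.even_pow.2 ⟨even_two, hapos.ne'⟩), one_pow]
      · by_contra hnot
        have h1 := hord _ hmem hnot
        have h2 : orderOf (q.out.out⁻¹ * x ^ 2 ^ a * q.out.out) ∣ 2 ^ (n - a) := by
          apply orderOf_dvd_of_pow_eq_one
          rw [hconjpow, ← pow_mul, ← pow_add, Nat.add_sub_cancel' ha, ← hxn, pow_orderOf_eq_one]
          simp
        have h3 := Nat.le_of_dvd (by positivity) h2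
        have h4 : 2 ^ (n - a) ≤ 2 ^ (n - 1) := Nat.pow_le_pow_right (by norm_num) (by omega)
        omega
  have hodd : Odd (S : Subgroup G).index := by
    rw [← Nat.not_even_iff_odd, even_iff_two_dvd]
    exact S.not_dvd_index
  have hV : MonoidHom.transfer ϕ x = -1 := by
    rw [key, Finset.prod_congr rfl (fun q _ => hterm q), Finset.prod_pow_eq_pow_sum, ← hsum,
      hodd.neg_one_pow]
  exact ⟨MonoidHom.transfer ϕ, hV⟩

/-- If `h` normalizes the abelian subgroup `A` and commutes with every element of `A` whose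
square is trivial, then `h ^ (2 ^ j)` commutes with every element of `A` of order dividing
`2 ^ (j + 1)`. -/
theorem commute_pow_two_pow_of_commute_involutions {G : Type*} [Group G] (A : Subgroup G)
    (hab : ∀ x ∈ A, ∀ y ∈ A, x * y = y * x) (h : G) (hnorm : ∀ s ∈ A, h * s * h⁻¹ ∈ A)
    (hinv : ∀ t ∈ A, t * t = 1 → h * t = t * h) :
    ∀ (j : ℕ) (s : G), s ∈ A → s ^ (2 ^ (j + 1)) = 1 → h ^ (2 ^ j) * s = s * h ^ (2 ^ j) := by
  have hnormk : ∀ (k : ℕ) (s : G), s ∈ A → h ^ k * s * (h ^ k)⁻¹ ∈ A := by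
    intro k
    induction k with
    | zero => intro s hs; simpa using hs
    | succ k ih =>
      intro s hs
      have h1 := hnorm _ (ih s hs)
      have h2 : h ^ (k + 1) * s * (h ^ (k + 1))⁻¹ = h * (h ^ k * s * (h ^ k)⁻¹) * h⁻¹ := by
        rw [pow_succ']; group
      rw [h2]; exact h1
  intro j
  induction j with
  | zero =>
    intro s hs hs2
    have h1 : s * s = 1 := by rw [← pow_two]; simpa using hs2
    simpa using hinv s hs h1
  | succ j ih =>
    intro s hs hs2
    obtain ⟨γ, hγ⟩ : ∃ γ, γ = h ^ (2 ^ j) := ⟨_, rfl⟩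
    have hss : γ * (s * s) = (s * s) * γ := by
      rw [hγ]
      apply ih (s * s) (A.mul_mem hs hs)
      rw [← pow_two, ← pow_mul, ← pow_succ']; exact hs2
    have htA : γ * s * γ⁻¹ ∈ A := by rw [hγ]; exact hnormk _ s hs
    obtain ⟨t, ht⟩ : ∃ t, t = γ * s * γ⁻¹ := ⟨_, rfl⟩
    rw [← ht] at htA
    have htt : t * t = s * s := by
      calc t * t = γ * (s * s) * γ⁻¹ := by rw [ht]; group
        _ = (s * s) * γ * γ⁻¹ := by rw [hss]
        _ = s * s := by group
    obtain ⟨e, he⟩ : ∃ e, e = s⁻¹ * t := ⟨_, rfl⟩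
    have heA : e ∈ A := by rw [he]; exact A.mul_mem (A.inv_mem hs) htA
    have hee : e * e = 1 := by
      have h1 : t * s⁻¹ = s⁻¹ * t := hab t htA s⁻¹ (A.inv_mem hs)
      calc e * e = s⁻¹ * (t * s⁻¹) * t := by rw [he]; group
        _ = s⁻¹ * (s⁻¹ * t) * t := by rw [h1]
        _ = s⁻¹ * s⁻¹ * (t * t) := by group
        _ = s⁻¹ * s⁻¹ * (s * s) := by rw [htt]
        _ = 1 := by group
    have hhe : h * e = e * h := hinv e heA hee
    have hγe : γ * e = e * γ := by
      rw [hγ]; exact (Commute.pow_left (show Commute h e from hhe) _)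
    have hγs : γ * s = s * e * γ := by
      calc γ * s = (γ * s * γ⁻¹) * γ := by group
        _ = t * γ := by rw [← ht]
        _ = s * (s⁻¹ * t) * γ := by group
        _ = s * e * γ := by rw [← he]
    have hpow : h ^ (2 ^ (j + 1)) = γ * γ := by rw [hγ, pow_succ, pow_mul, pow_two]
    rw [hpow]
    calc γ * γ * s = γ * (γ * s) := by group
      _ = γ * (s * e * γ) := by rw [hγs]
      _ = (γ * s) * e * γ := by group
      _ = s * e * γ * e * γ := by rw [hγs]
      _ = s * e * (γ * e) * γ := by group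
      _ = s * e * (e * γ) * γ := by rw [hγe]
      _ = s * (e * e) * γ * γ := by group
      _ = s * (γ * γ) := by rw [hee]; group

/-- If the Sylow 2-subgroup `P` is abelian and every element of its normalizer has a
`2`-power power centralizing `P`, then the normalizer of `P` centralizes `P`. -/
theorem normalizer_le_centralizer_of_pow {H : Type*} [Group H] [Finite H] (P : Sylow 2 H)
    (hab : ∀ x ∈ (P : Subgroup H), ∀ y ∈ (P : Subgroup H), x * y = y * x)
    (hJ : ∀ g ∈ Subgroup.normalizer (P : Set H),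
      ∃ J : ℕ, g ^ (2 ^ J) ∈ Subgroup.centralizer (P : Set H)) :
    Subgroup.normalizer (P : Set H) ≤
      Subgroup.centralizer (P : Set H) := by
  intro g hg
  obtain ⟨J, hJg⟩ := hJ g hg
  have hord : orderOf g ≠ 0 := (orderOf_pos g).ne'
  obtain ⟨e, m, hm, hem⟩ := Nat.exists_eq_two_pow_mul_odd hord
  have h1 : g ^ m ∈ (P : Subgroup H) := by
    have hpow : (g ^ m) ^ (2 ^ e) = 1 := by
      rw [← pow_mul, mul_comm, ← hem]; exact pow_orderOf_eq_one g
    have h2 : IsPGroup 2 (Subgroup.zpowers (g ^ m)) :=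
      IsPGroup.of_card_dvd_pow (by rw [Nat.card_zpowers]; exact orderOf_dvd_of_pow_eq_one hpow)
    have h3 := h2.inf_normalizer_sylow P
    have h4 : g ^ m ∈ Subgroup.zpowers (g ^ m) ⊓
        Subgroup.normalizer (P : Set H) :=
      ⟨Subgroup.mem_zpowers _, Subgroup.pow_mem _ hg m⟩
    rw [h3] at h4
    exact h4.2
  have h5 : g ^ m ∈ Subgroup.centralizer (P : Set H) := by
    rw [Subgroup.mem_centralizer_iff]
    intro y hy
    exact hab y hy _ h1
  have hcop : IsCoprime (m : ℤ) ((2 ^ J : ℕ) : ℤ) := by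
    rw [Nat.isCoprime_iff_coprime]
    exact Nat.Coprime.pow_right J (Nat.coprime_two_right.mpr hm)
  obtain ⟨u, v, huv⟩ := hcop
  have h6 : g = (g ^ m) ^ u * (g ^ (2 ^ J)) ^ v := by
    rw [← zpow_natCast, ← zpow_natCast g (2 ^ J), ← zpow_mul, ← zpow_mul, ← zpow_add,
      mul_comm (m : ℤ), mul_comm ((2 ^ J : ℕ) : ℤ), huv, zpow_one]
  rw [h6]
  exact Subgroup.mul_mem _ (Subgroup.zpow_mem _ h5 u) (Subgroup.zpow_mem _ hJg v)

end Cfsg.Agent.Helper18
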